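import Mathlib

/-!
# Explicit (computable) extensions of a group by an abelian group, given by an action and a cocycle
-/

set_option autoImplicit false

namespace Cfsg.Agent.FGS.AbExt

/-- Action and normalized cocycle. -/
structure Dat (N K : Type) [AddCommGroup N] [Group K] where
  ρ : K → N → N
  c : K → K → N
  ρ_one : ∀ u, ρ 1 u = u
  ρ_add : ∀ k u v, ρ k (u + v) = ρ k u + ρ k v
  ρ_mul : ∀ k l u, ρ (k * l) u = ρ k (ρ l u)
  c_one : ∀ k, c 1 k = 0
  cocycle : ∀ k l m, c k l + c (k * l) m = ρ k (c l m) + c k (l * m)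

variable {N K : Type} [AddCommGroup N] [Group K]

theorem Dat.ρ_zero (D : Dat N K) (k : K) : D.ρ k 0 = 0 := by
  have := D.ρ_add k 0 0
  simpa using this

theorem Dat.c_one' (D : Dat N K) (k : K) : D.c k 1 = 0 := by
  have := D.cocycle k 1 1
  simpa [D.c_one, D.ρ_zero] using this

/-- Split data. -/
def Dat.split (ρ : K → N → N) (h1 : ∀ u, ρ 1 u = u) (h2 : ∀ k u v, ρ k (u + v) = ρ k u + ρ k v)
    (h3 : ∀ k l u, ρ (k * l) u = ρ k (ρ l u)) : Dat N K where
  ρ := ρ
  c := fun _ _ => 0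
  ρ_one := h1
  ρ_add := h2
  ρ_mul := h3
  c_one := fun _ => rfl
  cocycle := fun k _ _ => by
    have : ρ k 0 = 0 := by simpa using h2 k 0 0
    simp [this]

/-- Split data given by a multiplicative character with values in a ring. -/
def Dat.scalar {R : Type} [CommRing R] (χ : K → R) (h1 : χ 1 = 1)
    (h : ∀ k l, χ (k * l) = χ k * χ l) : Dat R K :=
  Dat.split (fun k u => χ k * u) (fun u => by simp [h1]) (fun k u v => mul_add _ _ _)
    (fun k l u => by rw [h, mul_assoc])

/-- Direct product data. -/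
def Dat.triv (N K : Type) [AddCommGroup N] [Group K] : Dat N K :=
  Dat.split (fun _ u => u) (fun _ => rfl) (fun _ _ _ => rfl) (fun _ _ _ => rfl)

/-- The extension. -/
@[ext] structure Ext (D : Dat N K) where
  u : N
  k : K

variable {D : Dat N K}

instance [DecidableEq N] [DecidableEq K] : DecidableEq (Ext D) := fun a b =>
  decidable_of_iff (a.u = b.u ∧ a.k = b.k) Ext.ext_iff.symm

/-- The underlying set. -/
def Ext.equivProd (D : Dat N K) : N × K ≃ Ext D where
  toFun x := ⟨x.1, x.2⟩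
  invFun x := (x.u, x.k)
  left_inv _ := rfl
  right_inv _ := rfl

instance [Fintype N] [Fintype K] : Fintype (Ext D) := Fintype.ofEquiv _ (Ext.equivProd D)

instance : Mul (Ext D) := ⟨fun a b => ⟨a.u + D.ρ a.k b.u + D.c a.k b.k, a.k * b.k⟩⟩
instance : One (Ext D) := ⟨⟨0, 1⟩⟩
instance : Inv (Ext D) := ⟨fun a => ⟨-(D.ρ a.k⁻¹ a.u + D.c a.k⁻¹ a.k), a.k⁻¹⟩⟩

theorem mul_u (a b : Ext D) : (a * b).u = a.u + D.ρ a.k b.u + D.c a.k b.k := rfl
theorem mul_k (a b : Ext D) : (a * b).k = a.k * b.k := rfl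
theorem one_u : (1 : Ext D).u = 0 := rfl
theorem one_k : (1 : Ext D).k = 1 := rfl

instance : Group (Ext D) :=
  Group.ofLeftAxioms
    (fun a b c => by
      ext
      · have := D.cocycle a.k b.k c.k
        simp only [mul_u, mul_k, D.ρ_add, D.ρ_mul]
        calc _ = a.u + D.ρ a.k b.u + D.ρ a.k (D.ρ b.k c.u) +
              (D.c a.k b.k + D.c (a.k * b.k) c.k) := by abel
          _ = _ := by rw [this]; abel
      · simp only [mul_k, mul_assoc])
    (fun a => by
      ext
      · simp [mul_u, one_u, one_k, D.ρ_one, D.c_one]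
      · simp [mul_k, one_k])
    (fun a => by
      ext
      · change -(D.ρ a.k⁻¹ a.u + D.c a.k⁻¹ a.k) + D.ρ a.k⁻¹ a.u + D.c a.k⁻¹ a.k = 0
        abel
      · exact inv_mul_cancel a.k)

/-- The projection onto the quotient. -/
def Ext.proj (D : Dat N K) : Ext D →* K where
  toFun := Ext.k
  map_one' := rfl
  map_mul' _ _ := rfl

/-- The inclusion of the kernel. -/
def Ext.incl (D : Dat N K) : Multiplicative N →* Ext D where
  toFun u := ⟨u.toAdd, 1⟩
  map_one' := rfl
  map_mul' a b := by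
    ext
    · simp [mul_u, D.ρ_one, D.c_one]
    · simp [mul_k]

instance [Group.IsSolvable K] : Group.IsSolvable (Ext D) :=
  Group.isSolvable_of_ker_le_range (Ext.incl D) (Ext.proj D) fun x hx =>
    ⟨Multiplicative.ofAdd x.u, Ext.ext rfl (MonoidHom.mem_ker.1 hx).symm⟩

/-- Cyclic groups. -/
abbrev C (n : ℕ) : Type := Ext (Dat.triv (ZMod n) Unit)

theorem pow_k (x : Ext D) (n : ℕ) : (x ^ n).k = x.k ^ n := map_pow (Ext.proj D) x n

theorem scalar_pow_u {R : Type} [CommRing R] {χ : K → R} {h1 : χ 1 = 1}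
    {h : ∀ k l, χ (k * l) = χ k * χ l} (x : Ext (Dat.scalar χ h1 h)) (n : ℕ) :
    χ (x.k ^ n) = χ x.k ^ n ∧ (x ^ n).u = (∑ i ∈ Finset.range n, χ x.k ^ i) * x.u := by
  induction n with
  | zero => exact ⟨by simp [h1], by simp [one_u]⟩
  | succ n ih =>
    refine ⟨by rw [pow_succ, h, ih.1, pow_succ], ?_⟩
    rw [pow_succ, mul_u, ih.2, pow_k, Finset.sum_range_succ, add_mul]
    change _ + χ (x.k ^ n) * x.u + 0 = _
    rw [ih.1, add_zero]

/-- Weighted count of the solutions of `x ^ n = 1` in `C_r ⋊ K`. -/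
theorem sum_scalar {r : ℕ} [hr : Fact r.Prime] [Fintype K] [DecidableEq K] {χ : K → ZMod r}
    {h1 : χ 1 = 1} {h : ∀ k l, χ (k * l) = χ k * χ l} (n : ℕ) (w : K → ℕ) :
    (∑ x : Ext (Dat.scalar χ h1 h), if x ^ n = 1 then w x.k else 0) =
      ∑ k : K, if k ^ n = 1 then (if χ k = 1 ∧ ¬ r ∣ n then 1 else r) * w k else 0 := by
  rw [← (Ext.equivProd _).sum_comp, Fintype.sum_prod_type_right]
  refine Finset.sum_congr rfl fun k _ => ?_
  have e : ∀ u : ZMod r, (Ext.equivProd (Dat.scalar χ h1 h) (u, k)) ^ n = 1 ↔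
      (∑ i ∈ Finset.range n, χ k ^ i) * u = 0 ∧ k ^ n = 1 := by
    intro u
    rw [Ext.ext_iff, (scalar_pow_u _ n).2, pow_k]
    rfl
  simp only [e]
  change (∑ u : ZMod r, if (∑ i ∈ Finset.range n, χ k ^ i) * u = 0 ∧ k ^ n = 1 then w k else 0) = _
  by_cases hk : k ^ n = 1
  · have hχ : χ k ^ n = 1 := by
      have := (scalar_pow_u (⟨0, k⟩ : Ext (Dat.scalar χ h1 h)) n).1
      rw [← this]
      change χ (k ^ n) = 1
      rw [hk, h1]
    by_cases hc : χ k = 1 ∧ ¬ r ∣ n
    · have : (∑ i ∈ Finset.range n, χ k ^ i) ≠ 0 := by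
        simpa [hc.1, ZMod.natCast_eq_zero_iff] using hc.2
      simp only [hk, and_true, mul_eq_zero, this, false_or, if_true, if_pos hc]
      simp
    · have : (∑ i ∈ Finset.range n, χ k ^ i) = 0 := by
        by_cases h2 : χ k = 1
        · simpa [h2, ZMod.natCast_eq_zero_iff] using hc
        · have := mul_geom_sum (χ k) n
          rw [hχ, sub_self] at this
          exact (mul_eq_zero.1 this).resolve_left (sub_ne_zero.2 h2)
      simp only [hk, this, zero_mul, and_self, if_true, if_neg hc]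
      simp
  · simp [hk]

theorem card_eq_sum (G : Type) [Group G] [Fintype G] [DecidableEq G] (n : ℕ) :
    Nat.card {x : G // x ^ n = 1} = ∑ x : G, if x ^ n = 1 then 1 else 0 := by
  rw [Nat.card_eq_fintype_card, Fintype.card_subtype, Finset.card_filter]

theorem pow_eq_one_iff_gcd {G : Type*} [Group G] {e : ℕ} (h : ∀ x : G, x ^ e = 1) (x : G) (n : ℕ) :
    x ^ n = 1 ↔ x ^ Nat.gcd n e = 1 := by
  rw [pow_gcd_eq_one]
  exact ⟨fun hx => ⟨hx, h x⟩, fun hx => hx.1⟩

theorem card_prod (G H : Type*) [Group G] [Group H] (n : ℕ) :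
    Nat.card {x : G × H // x ^ n = 1} =
      Nat.card {x : G // x ^ n = 1} * Nat.card {x : H // x ^ n = 1} := by
  rw [← Nat.card_prod]
  refine Nat.card_congr ((Equiv.subtypeEquivRight fun x => ?_).trans Equiv.subtypeProdEquivProd)
  simp [Prod.ext_iff]

theorem forall_pow_of_card {G : Type*} [Group G] [Finite G] {e : ℕ}
    (h : Nat.card {x : G // x ^ e = 1} = Nat.card G) (x : G) : x ^ e = 1 := by
  have := Set.eq_of_subset_of_ncard_le (Set.subset_univ {x : G | x ^ e = 1})
    (by rw [Set.ncard_univ, ← h]; rfl)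
  exact (Set.eq_univ_iff_forall.1 this) x

end Cfsg.Agent.FGS.AbExt
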