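import Mathlib
import Cfsg.Agent.S3908
import Cfsg.Agent.S3909
import Cfsg.Agent.FGS.CentMax
import Cfsg.Agent.Grp.Cores

/-! Groups in which abelian subgroups of the same order are conjugate: passing to quotients. -/

set_option autoImplicit false
set_option linter.unusedSectionVars false

namespace Cfsg.Agent.FGS.BG

open Subgroup

universe u

/-- abelian subgroups of the same order are conjugate -/
def IsB (G : Type*) [Group G] : Prop :=
  ∀ A B : Subgroup G, IsMulCommutative ↥A → IsMulCommutative ↥B → Nat.card ↥A = Nat.card ↥B →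
    ∃ g : G, B = A.map (MulAut.conj g).toMonoidHom

variable {G : Type*} [Group G] [Finite G]

theorem map_conj {G' : Type*} [Group G'] (f : G →* G') {A B : Subgroup G} {g : G}
    (h : B = A.map (MulAut.conj g).toMonoidHom) :
    B.map f = (A.map f).map (MulAut.conj (f g)).toMonoidHom := by
  rw [h, map_map, map_map]
  congr 1
  ext x
  simp

theorem IsB.of_surjective {G' : Type*} [Group G'] (h : IsB G) (e : G ≃* G') : IsB G' := by
  intro A B hA hB hc
  obtain ⟨g, hg⟩ := h (A.map e.symm.toMonoidHom) (B.map e.symm.toMonoidHom) inferInstance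
    inferInstance (by
      rw [card_map_of_injective e.symm.injective, card_map_of_injective e.symm.injective, hc])
  have := map_conj e.toMonoidHom hg
  simp only [map_map, MulEquiv.toMonoidHom_eq_coe, MulEquiv.coe_monoidHom_comp_coe_monoidHom_symm,
    map_id] at this
  exact ⟨_, this⟩

theorem exists_lift (M : Subgroup G) [M.Normal] (A : Subgroup (G ⧸ M)) [hA : IsMulCommutative A]
    (hc : (Nat.card M).Coprime (Nat.card A)) : ∃ A1 : Subgroup G, IsMulCommutative A1 ∧
      Nat.card A1 = Nat.card A ∧ A1.map (QuotientGroup.mk' M) = A := by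
  set X := A.comap (QuotientGroup.mk' M)
  have hMX : M ≤ X := QuotientGroup.le_comap_mk' M A
  have h1 : Nat.card (M.subgroupOf X) = Nat.card M := Nat.card_congr (subgroupOfEquivOfLe hMX).toEquiv
  have h2 : (M.subgroupOf X).index = Nat.card A := by
    have h3 := (M.subgroupOf X).index_mul_card
    rw [h1, Grp.card_comap_mk'] at h3
    exact Nat.eq_of_mul_eq_mul_right Nat.card_pos h3
  obtain ⟨C, hC⟩ := exists_right_complement'_of_coprime (N := M.subgroupOf X) (by rwa [h1, h2])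
  have hle : (C.map X.subtype).map (QuotientGroup.mk' M) ≤ A := by
    rintro _ ⟨_, ⟨x, -, rfl⟩, rfl⟩
    exact x.2
  refine ⟨C.map X.subtype, ⟨⟨?_⟩⟩, ?_, le_antisymm hle fun a ha => ?_⟩
  · rintro ⟨_, x, hx, rfl⟩ ⟨_, y, hy, rfl⟩
    have := disjoint_def.1 hC.disjoint (x := x * y * (y * x)⁻¹) (by
      rw [mem_subgroupOf, ← QuotientGroup.eq_one_iff]
      have := congrArg Subtype.val (hA.1.1 ⟨((x : G) : G ⧸ M), x.2⟩ ⟨((y : G) : G ⧸ M), y.2⟩)
      simp only [coe_mul] at this
      simp only [coe_mul, coe_inv, QuotientGroup.mk_mul, QuotientGroup.mk_inv, this, mul_inv_cancel])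
      (mul_mem (mul_mem hx hy) (inv_mem (mul_mem hy hx)))
    exact Subtype.ext (congrArg X.subtype (mul_inv_eq_one.1 this))
  · rw [card_map_of_injective X.subtype_injective, ← hC.symm.index_eq_card, h2]
  · obtain ⟨a, rfl⟩ := QuotientGroup.mk'_surjective M a
    obtain ⟨⟨m, c⟩, e⟩ := hC.2 ⟨a, ha⟩
    refine ⟨c, ⟨c, c.2, rfl⟩, ?_⟩
    have := congrArg Subtype.val e
    simp only [coe_mul] at this
    rw [← this, map_mul, show QuotientGroup.mk' M (m : X) = 1 from
      (QuotientGroup.eq_one_iff _).2 m.2, one_mul]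

theorem decomp {p : ℕ} [hp : Fact p.Prime] {M A : Subgroup G} (hMA : M ≤ A) (hM : ∀ m ∈ M, m ^ p = 1)
    (hc : ∀ a ∈ A, ∀ b ∈ A, a * b * a⁻¹ * b⁻¹ ∈ M) (hz : ∀ m ∈ M, ∀ a ∈ A, a * m = m * a) :
    ∃ S A0 : Subgroup G, S ⊔ A0 = A ∧ Nat.card S = p ^ (Nat.card A).factorization p ∧
      Nat.card S * Nat.card A0 = Nat.card A ∧ ∀ a ∈ A0, ∀ b ∈ A, a * b = b * a := by
  obtain ⟨S⟩ : Nonempty (Sylow p A) := inferInstance
  have hMn : (M.subgroupOf A).Normal := ⟨fun m hm g => by
    rw [mem_subgroupOf, coe_mul, coe_mul, hz m hm g g.2, coe_inv, mul_inv_cancel_right]; exact hm⟩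
  have hMS : M.subgroupOf A ≤ S := (Grp.le_pCore hMn (Grp.isPGroup_of_pow_eq_one fun x hx =>
    Subtype.ext (hM x hx))).trans (Grp.pCore_le_sylow S)
  haveI : (S : Subgroup A).Normal := ⟨fun s hs g => by
    have := mul_mem (hMS (x := g * s * g⁻¹ * s⁻¹) (hc g g.2 s s.2)) hs
    rwa [inv_mul_cancel_right] at this⟩
  obtain ⟨C, hC⟩ := exists_right_complement'_of_coprime (N := (S : Subgroup A)) S.card_coprime_index
  refine ⟨(S : Subgroup A).map A.subtype, C.map A.subtype, ?_, ?_, ?_, ?_⟩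
  · rw [← Subgroup.map_sup, hC.sup_eq_top, ← MonoidHom.range_eq_map, range_subtype]
  · rw [card_map_of_injective A.subtype_injective, S.card_eq_multiplicity]
  · rw [card_map_of_injective A.subtype_injective, card_map_of_injective A.subtype_injective,
      hC.card_mul_card]
  · rintro _ ⟨a, ha, rfl⟩ b hb
    have hm := hc a a.2 b hb
    have := CentMax.conj_pow_pow (x := (a : G)) (y := b) (c := a * b * (a : G)⁻¹ * b⁻¹) (by group)
      (hz _ hm a a.2).symm (hz _ hm b hb).symm (orderOf a) 1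
    rw [← coe_pow, pow_orderOf_eq_one, coe_one, one_mul, inv_one, mul_one, mul_one, eq_comm,
      mul_eq_right] at this
    have h1 := Nat.dvd_gcd (orderOf_dvd_of_pow_eq_one this) (orderOf_dvd_of_pow_eq_one (hM _ hm))
    rw [Nat.Coprime.gcd_eq_one (Nat.Coprime.coprime_dvd_left (C.orderOf_dvd_natCard ha) (by
      rw [← hC.symm.index_eq_card]
      exact (hp.out.coprime_iff_not_dvd.2 S.not_dvd_index).symm)), Nat.dvd_one, orderOf_eq_one_iff,
      mul_inv_eq_one, mul_inv_eq_iff_eq_mul] at h1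
    exact h1

theorem comm_sup {S A0 : Subgroup G} (hS : IsMulCommutative S)
    (h : ∀ a ∈ A0, ∀ b ∈ S ⊔ A0, a * b = b * a) : IsMulCommutative ↥(S ⊔ A0) := by
  have h1 : ∀ s ∈ S, S ⊔ A0 ≤ centralizer ({s} : Set G) := fun s hs => sup_le
    (fun t ht => mem_centralizer_singleton_iff.2 (congrArg Subtype.val (hS.1.1 ⟨t, ht⟩ ⟨s, hs⟩)))
    (fun a ha => mem_centralizer_singleton_iff.2 (h a ha s (mem_sup_left hs)))
  refine ⟨⟨fun x y => Subtype.ext ?_⟩⟩
  have : S ⊔ A0 ≤ centralizer ({(y : G)} : Set G) := sup_le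
    (fun s hs => mem_centralizer_singleton_iff.2 (mem_centralizer_singleton_iff.1 (h1 s hs y.2)).symm)
    (fun a ha => mem_centralizer_singleton_iff.2 (h a ha y y.2))
  exact mem_centralizer_singleton_iff.1 (this x.2)

theorem IsB.not_quat (h : IsB G) [Group.IsSolvable G] {P : Subgroup G} {n : ℕ} (hn : 2 ≤ n)
    (e : P ≃* QuaternionGroup (2 ^ n)) : False := by
  have ho : ∀ y, orderOf (e.symm y : G) = orderOf y := fun y => by
    rw [orderOf_coe, e.symm.orderOf_eq]
  obtain ⟨N, ⟨hNn, hN⟩, hmax⟩ := Set.Finite.exists_maximal (Set.toFinite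
    {N : Subgroup G | N.Normal ∧ ∀ x ∈ N, orderOf x ≠ 4}) ⟨⊥, inferInstance, fun x hx => by
      rw [mem_bot.1 hx, orderOf_one]; norm_num⟩
  haveI : Nontrivial (G ⧸ N) := QuotientGroup.nontrivial_iff.2 fun e' =>
    hN (e.symm (.xa 0)) (e' ▸ mem_top _) (by rw [ho, QuaternionGroup.orderOf_xa])
  obtain ⟨r, K, pr, hKn, hK1, -, hKp, -⟩ := Grp.exists_minNormal_elementaryAbelian (G ⧸ N)
  have hr : ∀ y ∈ K.comap (QuotientGroup.mk' N), y ^ r ∈ N := fun y hy =>
    (QuotientGroup.eq_one_iff _).1 (hKp _ hy)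
  obtain ⟨y, hy, hy4⟩ : ∃ y ∈ K.comap (QuotientGroup.mk' N), orderOf y = 4 := by
    by_contra hc
    push Not at hc
    have := hmax (y := K.comap (QuotientGroup.mk' N)) ⟨inferInstance, hc⟩
      (QuotientGroup.le_comap_mk' N K)
    refine hK1 (eq_bot_iff.2 fun k hk => ?_)
    obtain ⟨k, rfl⟩ := QuotientGroup.mk'_surjective N k
    exact (QuotientGroup.eq_one_iff _).2 (this hk)
  have h4 : ∀ a : G, orderOf a = 4 → a ∈ K.comap (QuotientGroup.mk' N) := fun a ha =>
    (S3909.result h _).1 a ⟨y, hy, hy4.trans ha.symm⟩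
  by_cases hr2 : r = 2
  · subst hr2
    have h1 : (e.symm (.a 1) : G) ∈ K.comap (QuotientGroup.mk' N) := by
      have := mul_mem (h4 (e.symm (.xa (2 ^ n : ℕ))) (by rw [ho, QuaternionGroup.orderOf_xa]))
        (h4 (e.symm (.xa 1)) (by rw [ho, QuaternionGroup.orderOf_xa]))
      rwa [← coe_mul, ← map_mul, QuaternionGroup.xa_mul_xa, add_sub_cancel_left] at this
    obtain ⟨k, rfl⟩ := Nat.exists_eq_add_of_le hn
    refine hN _ (pow_mem (hr _ h1) (2 ^ k)) ?_
    rw [← pow_mul, orderOf_pow_of_dvd (by positivity), ho, QuaternionGroup.orderOf_a_one]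
    · exact Nat.div_eq_of_eq_mul_left (by positivity) (by ring)
    · rw [ho, QuaternionGroup.orderOf_a_one]
      exact ⟨4, by ring⟩
  · refine hN _ (hr y hy) ?_
    rw [Nat.Coprime.orderOf_pow, hy4]
    rw [hy4]
    exact Nat.Coprime.pow_left 2 ((Nat.coprime_primes Nat.prime_two pr).2 (Ne.symm hr2))

theorem IsB.step (h : IsB G) {p : ℕ} [hp : Fact p.Prime] (h2 : p ≠ 2 ∨ Group.IsSolvable G)
    (M : Subgroup G) [hMn : M.Normal] (hM1 : M ≠ ⊥) (hM : ∀ m ∈ M, m ^ p = 1) : IsB (G ⧸ M) := by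
  intro A B hA hB hc
  have hMP := Grp.isPGroup_of_pow_eq_one hM
  obtain ⟨a, ha⟩ := IsPGroup.iff_card.1 hMP
  have hs := QuotientGroup.mk'_surjective M
  by_cases hpA : p ∣ Nat.card A
  swap
  · have : (Nat.card M).Coprime (Nat.card A) := by
      rw [ha]; exact Nat.Coprime.pow_left _ (hp.out.coprime_iff_not_dvd.2 hpA)
    obtain ⟨A1, h1, h2, rfl⟩ := exists_lift M A this
    obtain ⟨B1, h3, h4, rfl⟩ := exists_lift M B (hc ▸ this)
    obtain ⟨g, hg⟩ := h A1 B1 h1 h3 (h2.trans (hc.trans h4.symm))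
    exact ⟨_, map_conj _ hg⟩
  obtain ⟨P⟩ : Nonempty (Sylow p G) := inferInstance
  have hle : ∀ T : Subgroup G, IsPGroup p T → ∃ f : T →* P, Function.Injective f := fun T hT => by
    obtain ⟨Q, hQ⟩ := hT.exists_le_sylow
    exact ⟨(Q.equiv P).toMonoidHom.comp (inclusion hQ),
      (Q.equiv P).injective.comp (inclusion_injective hQ)⟩
  have hcom : ∀ T : Subgroup (G ⧸ M), IsPGroup p T → IsPGroup p (T.comap (QuotientGroup.mk' M)) :=
    fun T hT => hT.comap_of_ker_isPGroup _ (by rwa [QuotientGroup.ker_mk'])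
  have hne : ¬ ∀ x ∈ (P : Subgroup G), x ^ p = 1 := fun hx => by
    obtain ⟨⟨m, hm⟩, hm1⟩ := ne_bot_iff_exists_ne_one.1 hM1
    have hPM : (P : Subgroup G) ≤ M := fun x hxP => by
      by_cases h1 : x = 1
      · exact h1 ▸ one_mem _
      · exact (S3909.result h M).1 x ⟨m, hm, (orderOf_eq_prime (hM m hm)
          fun e => hm1 (Subtype.ext e)).trans (orderOf_eq_prime (hx x hxP) h1).symm⟩
    exact P.not_dvd_index ((hpA.trans A.card_subgroup_dvd_card).trans (index_dvd_of_le hPM))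
  -- the two facts needed: `M` is central in the preimages, small `p`-subgroups are abelian
  have key : (∀ A : Subgroup (G ⧸ M), IsMulCommutative A → p ∣ Nat.card A →
      ∀ m ∈ M, ∀ a ∈ A.comap (QuotientGroup.mk' M), a * m = m * a) ∧
      ∀ T : Subgroup G, IsPGroup p T → Nat.card T ≠ Nat.card P → IsMulCommutative T := by
    rcases S3908.key h p P hne with hP | ⟨rfl, n, hn, ⟨e⟩⟩
    · have hcy : ∀ T : Subgroup G, IsPGroup p T → IsCyclic T := fun T hT => by
        obtain ⟨f, hf⟩ := hle T hT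
        exact isCyclic_of_injective f hf
      refine ⟨fun A hA hpA m hm a ha => ?_, fun T hT _ => by
        haveI := hcy T hT; infer_instance⟩
      obtain ⟨s, hs⟩ := exists_prime_orderOf_dvd_card' p hpA
      have hT := hcom (zpowers (s : G ⧸ M)) (IsPGroup.of_card (n := 1) (by
        rw [Nat.card_zpowers, orderOf_coe, hs, pow_one]))
      obtain ⟨⟨u, hu⟩, hg⟩ := (hcy _ hT).exists_generator
      have hMT := QuotientGroup.le_comap_mk' M (zpowers (s : G ⧸ M))
      have hg' : ∀ x ∈ (zpowers (s : G ⧸ M)).comap (QuotientGroup.mk' M), ∃ i : ℕ, u ^ i = x :=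
        fun x hx => by
          obtain ⟨i, hi⟩ := mem_powers_iff_mem_zpowers.2 (hg ⟨x, hx⟩)
          exact ⟨i, congrArg Subtype.val hi⟩
      have huM : u ∉ M := fun huM => by
        obtain ⟨s', e⟩ := QuotientGroup.mk'_surjective M s
        obtain ⟨i, rfl⟩ := hg' s' (mem_comap.2 (e ▸ mem_zpowers _))
        rw [← orderOf_coe, ← e, show QuotientGroup.mk' M (u ^ i) = 1 from
          (QuotientGroup.eq_one_iff _).2 (pow_mem huM i), orderOf_one] at hs
        exact hp.out.one_lt.ne hs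
      have hm' : a * u * a⁻¹ * u⁻¹ ∈ M := by
        rw [← QuotientGroup.eq_one_iff]
        have := congrArg Subtype.val (hA.1.1 ⟨(a : G ⧸ M), ha⟩ ⟨(u : G ⧸ M), zpowers_le.2 s.2 hu⟩)
        simp only [coe_mul] at this
        simp only [QuotientGroup.mk_mul, QuotientGroup.mk_inv, this]
        group
      obtain ⟨j, hj⟩ := hg' _ (hMT hm')
      have h1 : a * u ^ p * a⁻¹ = u ^ p := by
        rw [← conj_pow, show a * u * a⁻¹ = u ^ j * u by rw [hj]; group,
          ((Commute.refl u).pow_left j).mul_pow, hj, hM _ hm', one_mul]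
      obtain ⟨i, rfl⟩ := hg' m (hMT hm)
      by_cases hi : p ∣ i
      · obtain ⟨k, rfl⟩ := hi
        rw [pow_mul]
        exact (Commute.pow_right (mul_inv_eq_iff_eq_mul.1 h1) k).eq
      · obtain ⟨k, hk⟩ := IsPGroup.iff_orderOf.1 hT ⟨u, hu⟩
        rw [orderOf_mk] at hk
        obtain ⟨l, hl⟩ := exists_pow_eq_self_of_coprime (x := u) (n := i) (by
          rw [hk]; exact Nat.Coprime.pow_right _ (hp.out.coprime_iff_not_dvd.2 hi).symm)
        exact absurd (hl ▸ pow_mem hm l) huM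
    · haveI := h2.resolve_left fun h => h rfl
      obtain rfl : n = 1 := by
        by_contra hn1
        exact h.not_quat (by omega) e
      have hP8 : Nat.card P = 2 ^ 3 := by
        rw [Nat.card_congr e.toEquiv, Nat.card_eq_fintype_card, QuaternionGroup.card]; norm_num
      refine ⟨fun _ _ _ m hm a _ => ?_, fun T hT hne => ?_⟩
      · obtain ⟨f, hf⟩ := hle M hMP
        have q : ∀ x y : QuaternionGroup (2 ^ 1), x ^ 2 = 1 → x ≠ 1 → y ^ 2 = 1 → y ≠ 1 → x = y := by
          decide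
        by_cases h1 : m = 1
        · rw [h1, mul_one, one_mul]
        have hq : ∀ x : M, e (f x) ^ 2 = 1 := fun x => by
          rw [← map_pow, ← map_pow, show x ^ 2 = 1 from Subtype.ext (hM x x.2), map_one, map_one]
        have hq' : ∀ x : M, (x : G) ≠ 1 → e (f x) ≠ 1 := fun x hx e' =>
          hx (congrArg Subtype.val (hf (e.injective (by rw [e', map_one, map_one]) : f x = f 1)))
        have := hf (e.injective (q _ _ (hq ⟨_, hMn.conj_mem m hm a⟩) (hq' _ (by simpa using h1))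
          (hq ⟨m, hm⟩) (hq' _ h1)))
        exact mul_inv_eq_iff_eq_mul.1 (congrArg Subtype.val this)
      · obtain ⟨f, hf⟩ := hle T hT
        have := card_dvd_of_injective f hf
        rw [hP8] at this hne
        obtain ⟨k, hk, e⟩ := (Nat.dvd_prime_pow Nat.prime_two).1 this
        interval_cases k
        · haveI := (Nat.card_eq_one_iff_unique.1 e).1
          infer_instance
        · haveI := isCyclic_of_prime_card (p := 2) e
          infer_instance
        · exact IsPGroup.isMulCommutative_of_card_eq_prime_sq e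
        · exact absurd e hne
  have hdec := fun (A : Subgroup (G ⧸ M)) (hA : IsMulCommutative A) (hpA : p ∣ Nat.card A) =>
    decomp (QuotientGroup.le_comap_mk' M A) hM (fun a ha b hb => by
      rw [← QuotientGroup.eq_one_iff]
      have := congrArg Subtype.val (hA.1.1 ⟨(a : G ⧸ M), ha⟩ ⟨(b : G ⧸ M), hb⟩)
      simp only [coe_mul] at this
      simp only [QuotientGroup.mk_mul, QuotientGroup.mk_inv, this]
      group) (key.1 A hA hpA)
  obtain ⟨S, A0, a1, a2, a3, a4⟩ := hdec A hA hpA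
  obtain ⟨T, B0, b1, b2, b3, b4⟩ := hdec B hB (hc ▸ hpA)
  have hc' : Nat.card (A.comap (QuotientGroup.mk' M)) = Nat.card (B.comap (QuotientGroup.mk' M)) := by
    rw [Grp.card_comap_mk', Grp.card_comap_mk', hc]
  have hST : Nat.card S = Nat.card T := by rw [a2, b2, hc']
  suffices H : ∃ g, B.comap (QuotientGroup.mk' M) =
      (A.comap (QuotientGroup.mk' M)).map (MulAut.conj g).toMonoidHom by
    obtain ⟨g, hg⟩ := H
    have := map_conj (QuotientGroup.mk' M) hg
    rw [map_comap_eq_self_of_surjective hs, map_comap_eq_self_of_surjective hs] at this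
    exact ⟨_, this⟩
  by_cases hSP : Nat.card S = Nat.card P
  swap
  · exact h _ _ (a1 ▸ comm_sup (key.2 S (.of_card a2) hSP) (a1 ▸ a4))
      (b1 ▸ comm_sup (key.2 T (.of_card b2) (hST ▸ hSP)) (b1 ▸ b4)) hc'
  obtain ⟨g, hg⟩ := h A0 B0
    ⟨⟨fun x y => Subtype.ext (a4 x x.2 y (a1 ▸ mem_sup_right y.2))⟩⟩
    ⟨⟨fun x y => Subtype.ext (b4 x x.2 y (b1 ▸ mem_sup_right y.2))⟩⟩
    (Nat.eq_of_mul_eq_mul_left (Nat.card_pos (α := S)) (by rw [a3, hc', ← b3, hST]))
  set C := centralizer (B0 : Set G)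
  have h1 : S.map (MulAut.conj g).toMonoidHom ≤ C := by
    rintro _ ⟨s, hs, rfl⟩ b hb
    obtain ⟨x, hx, rfl⟩ := hg.le hb
    rw [← map_mul, ← map_mul, a4 x hx s (a1 ▸ mem_sup_left hs)]
  have h2 : T ≤ C := fun t ht b hb => b4 b hb t (b1 ▸ mem_sup_left ht)
  have hsyl : ∀ U : Subgroup G, U ≤ C → Nat.card U = Nat.card P →
      ∃ Q : Sylow p C, (Q : Subgroup C).map C.subtype = U := fun U hU hc => by
    have := (Sylow.ofCard U (hc.trans P.card_eq_multiplicity)).subtype hU
    exact ⟨(Sylow.ofCard U (hc.trans P.card_eq_multiplicity)).subtype hU,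
      map_subgroupOf_eq_of_le hU⟩
  obtain ⟨Q1, hQ1⟩ := hsyl _ h1 (by rw [card_map_of_injective (MulAut.conj g).injective, hSP])
  obtain ⟨Q2, hQ2⟩ := hsyl _ h2 (hST ▸ hSP)
  obtain ⟨c, hc⟩ := MulAction.exists_smul_eq C Q1 Q2
  refine ⟨c * g, ?_⟩
  have hmm : ∀ U : Subgroup G, U.map (MulAut.conj ((c : G) * g)).toMonoidHom =
      (U.map (MulAut.conj g).toMonoidHom).map (MulAut.conj (c : G)).toMonoidHom := fun U => by
    rw [map_map]; congr 1; ext x; simp [mul_assoc]
  rw [← a1, ← b1, Subgroup.map_sup, hmm, hmm, ← hg, ← hQ1, ← hQ2, ← hc]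
  congr 1
  · exact map_conj C.subtype (A := Q1) (g := c) rfl
  · ext x
    constructor
    · intro hx
      exact ⟨x, hx, by simp [← c.2 x hx]⟩
    · rintro ⟨y, hy, rfl⟩
      simpa [← c.2 y hy] using hy

theorem IsB.quot : ∀ (n : ℕ) (G : Type u) [Group G] [Finite G], IsB G → ∀ (M : Subgroup G) [M.Normal],
    Nat.card M = n → (Odd (Nat.card M) ∨ Group.IsSolvable G) → IsB (G ⧸ M) := by
  intro n
  induction n using Nat.strong_induction_on with
  | _ n ih =>
  intro G _ _ h M _ hn h2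
  by_cases hM : M = ⊥
  · subst hM
    exact h.of_surjective QuotientGroup.quotientBot.symm
  haveI : Group.IsSolvable M := h2.elim S0205.result fun _ => inferInstance
  obtain ⟨p, K, pp, hKn, hK1, hKM, -, hKp, hKP, -⟩ := Grp.exists_minNormal_elementaryAbelian_le M hM
  haveI : Fact p.Prime := ⟨pp⟩
  have h1 := h.step (p := p) (h2.imp_left fun ho e => by
    obtain ⟨k, hk0, hk⟩ := hKP.nontrivial_iff_card.1 ((nontrivial_iff_ne_bot K).2 hK1)
    have := (ho.of_dvd_nat (card_dvd_of_le hKM))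
    rw [hk, e] at this
    exact Nat.not_even_iff_odd.2 this (Nat.even_pow.2 ⟨even_two, hk0.ne'⟩)) K hK1 hKp
  have hc := Grp.card_map_mul_card_inf_ker (QuotientGroup.mk' K) M
  rw [QuotientGroup.ker_mk', inf_eq_right.2 hKM] at hc
  refine (ih _ ?_ _ h1 (M.map (QuotientGroup.mk' K)) rfl (h2.imp (fun ho => ho.of_dvd_nat
    (Dvd.intro _ hc)) fun hs => by haveI := hs; infer_instance)).of_surjective
    (QuotientGroup.quotientQuotientEquivQuotient K M hKM)
  rw [← hn, ← hc]
  exact lt_mul_of_one_lt_right Nat.card_pos (K.one_lt_card_iff_ne_bot.2 hK1)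

end Cfsg.Agent.FGS.BG
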