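import Mathlib
import Cfsg.Agent.Grp.CoprimeIndex
import Cfsg.Agent.PLocal.PSolv

/-! Vectors whose orbit spans the module, and vectors with orbits of coprime size. -/

set_option autoImplicit false

namespace Cfsg.Agent.FGS.CoprimeOrbit

open Subgroup

universe u v w

theorem relIndex_dvd_index {G : Type*} [Group G] [Finite G] (A N : Subgroup G) [N.Normal] :
    A.relIndex N ∣ A.index := by
  have h1 : A.relIndex N * N.index = N.relIndex A * A.index := by
    rw [← inf_relIndex_right A N, relIndex_mul_index inf_le_right, ← inf_relIndex_right N A,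
      relIndex_mul_index inf_le_right, inf_comm]
  have h2 : N.relIndex (A ⊔ N) * (A ⊔ N).index = N.index := relIndex_mul_index le_sup_right
  rw [relIndex_sup_right] at h2
  have h3 : N.relIndex A ≠ 0 := (N.subgroupOf A).index_ne_zero_of_finite
  refine ⟨(A ⊔ N).index, ?_⟩
  apply Nat.eq_of_mul_eq_mul_left (Nat.pos_of_ne_zero h3)
  rw [← h1, ← h2]; ring

variable {k : Type u} {V : Type v} {H : Type w} [Field k] [AddCommGroup V] [Module k V]
  [Group H] [Finite H] (ρ : Representation k H V)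

/-- The sum of the operators of a subgroup. -/
noncomputable def sm (N : Subgroup H) : V →ₗ[k] V :=
  haveI := Fintype.ofFinite N
  ∑ n : N, ρ n

theorem sm_apply (N : Subgroup H) (v : V) :
    sm ρ N v = (haveI := Fintype.ofFinite N; ∑ n : N, ρ n v) := by
  simp [sm, LinearMap.sum_apply]

theorem sm_fixed (N : Subgroup H) {n : H} (hn : n ∈ N) (v : V) : ρ n (sm ρ N v) = sm ρ N v := by
  letI := Fintype.ofFinite N
  rw [sm_apply, map_sum]
  refine Fintype.sum_equiv (Equiv.mulLeft (⟨n, hn⟩ : N)) _ _ fun m => ?_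
  simp

theorem sm_mem (N : Subgroup H) {n : H} (hn : n ∈ N) (v : V) : sm ρ N (ρ n v) = sm ρ N v := by
  letI := Fintype.ofFinite N
  rw [sm_apply, sm_apply]
  refine Fintype.sum_equiv (Equiv.mulRight (⟨n, hn⟩ : N)) _ _ fun m => ?_
  simp

theorem sm_of_fixed (N : Subgroup H) {v : V} (hv : ∀ n ∈ N, ρ n v = v) :
    sm ρ N v = (Nat.card N : k) • v := by
  letI := Fintype.ofFinite N
  rw [sm_apply, Finset.sum_congr rfl fun (n : N) _ => hv n n.2]
  simp [Nat.cast_smul_eq_nsmul]

theorem sm_conj (N : Subgroup H) [hN : N.Normal] (h : H) (v : V) :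
    sm ρ N (ρ h v) = ρ h (sm ρ N v) := by
  letI := Fintype.ofFinite N
  rw [sm_apply, sm_apply, map_sum]
  refine (Fintype.sum_equiv (MulAut.conjNormal (H := N) h).toEquiv _ _ fun m => ?_).symm
  have : ρ h (ρ m v) = ρ (h * m * h⁻¹) (ρ h v) := by
    rw [← Module.End.mul_apply, ← map_mul, ← Module.End.mul_apply, ← map_mul]; simp
  rw [this]; rfl

theorem sm_key {K N : Subgroup H} (hKN : K ≤ N) {v : V}
    (h : ∀ n ∈ N, ∃ x ∈ K, ρ n v = ρ x v) :
    (Nat.card N : k) • sm ρ K v = (Nat.card K : k) • sm ρ N v := by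
  letI := Fintype.ofFinite N
  rw [← sm_of_fixed ρ K fun x hx => sm_fixed ρ N (hKN hx) v, sm_apply ρ N, map_sum]
  have : ∀ n : N, sm ρ K (ρ n v) = sm ρ K v := by
    intro n
    obtain ⟨x, hx, e⟩ := h n n.2
    rw [e, sm_mem ρ K hx]
  rw [Finset.sum_congr rfl fun (n : N) _ => this n]
  simp [Nat.cast_smul_eq_nsmul]

/-- A vector with stabiliser of index prime to that of the spanning vector is fixed by normal
subgroups of invertible order. -/
theorem fixed_of_coprime (N : Subgroup H) [N.Normal] (hN : (Nat.card N : k) ≠ 0) {a b : V}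
    {A B : Subgroup H} (hA : ∀ h ∈ A, ρ h a = a) (hB : ∀ h ∈ B, ρ h b = b)
    (hAB : A.index.Coprime B.index)
    (hspan : Submodule.span k {u : V | ∃ h : H, ρ h a = u} = ⊤) : ∀ n ∈ N, ρ n b = b := by
  have hK : (Nat.card ↥(B ⊓ N) : k) ≠ 0 := by
    obtain ⟨c, hc⟩ := card_dvd_of_le (inf_le_right : B ⊓ N ≤ N)
    intro h0
    apply hN
    rw [hc, Nat.cast_mul, h0, zero_mul]
  have key : (Nat.card N : k) • sm ρ (B ⊓ N) = (Nat.card ↥(B ⊓ N) : k) • sm ρ N := by
    apply LinearMap.ext_on hspan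
    rintro _ ⟨h, rfl⟩
    simp only [LinearMap.smul_apply]
    apply sm_key ρ inf_le_right
    intro n hn
    let C : Subgroup H := A.map (MulAut.conj h).toMonoidHom
    have hC : C.index = A.index := index_map_of_bijective (MulAut.conj h).bijective A
    have hcop : ((B ⊓ N).relIndex N).Coprime ((C ⊓ N).relIndex N) := by
      rw [inf_relIndex_right, inf_relIndex_right]
      exact Nat.Coprime.coprime_dvd_left (relIndex_dvd_index B N)
        (Nat.Coprime.coprime_dvd_right (hC ▸ relIndex_dvd_index C N) hAB.symm)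
    obtain ⟨x, hx, y, hy, rfl⟩ := Grp.exists_mul_of_coprime_relIndex inf_le_right inf_le_right hcop hn
    refine ⟨x, hx, ?_⟩
    obtain ⟨z, hz, rfl⟩ := hy.1
    have : ρ ((MulAut.conj h).toMonoidHom z) (ρ h a) = ρ h (ρ z a) := by
      rw [← Module.End.mul_apply, ← map_mul, ← Module.End.mul_apply, ← map_mul]; simp
    rw [map_mul, Module.End.mul_apply, this, hA z hz]
  have h1 := LinearMap.congr_fun key b
  simp only [LinearMap.smul_apply] at h1
  rw [sm_of_fixed ρ (B ⊓ N) fun x hx => hB x hx.1, smul_comm] at h1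
  have h2 : (Nat.card N : k) • b = sm ρ N b := smul_right_injective V hK h1
  intro n hn
  apply smul_right_injective V hN
  simp only
  rw [← map_smul, h2, sm_fixed ρ N hn]

theorem mem_span_of_fixed (N : Subgroup H) [N.Normal] (hN : (Nat.card N : k) ≠ 0) {a : V}
    (hspan : Submodule.span k {u : V | ∃ h : H, ρ h a = u} = ⊤) {v : V}
    (hv : ∀ n ∈ N, ρ n v = v) : v ∈ Submodule.span k {u : V | ∃ h : H, ρ h (sm ρ N a) = u} := by
  have h1 : ∀ u : V, sm ρ N u ∈ Submodule.span k {u : V | ∃ h : H, ρ h (sm ρ N a) = u} := by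
    intro u
    have hu : u ∈ Submodule.span k {u : V | ∃ h : H, ρ h a = u} := hspan ▸ Submodule.mem_top
    induction hu using Submodule.span_induction with
    | mem x hx =>
      obtain ⟨h, rfl⟩ := hx
      exact Submodule.subset_span ⟨h, (sm_conj ρ N h a).symm⟩
    | zero => simp
    | add x y _ _ hx hy => rw [map_add]; exact add_mem hx hy
    | smul c x _ hx => rw [map_smul]; exact Submodule.smul_mem _ c hx
  have h2 := h1 v
  rw [sm_of_fixed ρ N hv] at h2
  exact (Submodule.smul_mem_iff _ hN).1 h2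

/-- The stabiliser of a vector. -/
def stab (a : V) : Subgroup H where
  carrier := {h | ρ h a = a}
  mul_mem' := fun {x y} hx hy => by
    simp only [Set.mem_ofPred_eq] at *
    rw [map_mul, Module.End.mul_apply, hy, hx]
  one_mem' := by simp
  inv_mem' := fun {x} hx => by
    simp only [Set.mem_ofPred_eq] at *
    conv_lhs => rw [← hx]
    rw [← Module.End.mul_apply, ← map_mul]; simp

omit [Finite H] in
theorem card_orbit (a : V) : Nat.card {u : V | ∃ h : H, ρ h a = u} = (stab ρ a).index := by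
  letI : MulAction H V :=
    { smul := fun h v => ρ h v
      one_smul := fun v => by change ρ 1 v = v; simp
      mul_smul := fun x y v => by change ρ (x * y) v = ρ x (ρ y v); simp }
  have : stab ρ a = MulAction.stabilizer H a := by ext; rfl
  rw [this, MulAction.index_stabilizer, ← Nat.card_coe_set_eq]
  rfl

omit [Finite H] in
theorem finrank_le_one {w : V} (h : ∀ v, (∀ g : H, ρ g v = v) → ∃ c : k, v = c • w) :
    Module.finrank k ρ.invariants ≤ 1 := by
  have h1 : ρ.invariants ≤ Submodule.span k {w} := by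
    intro v hv
    obtain ⟨c, rfl⟩ := h v hv
    exact Submodule.smul_mem _ c (Submodule.mem_span_singleton_self w)
  refine (Submodule.finrank_mono h1).trans ?_
  simpa using finrank_span_le_card (R := k) ({w} : Set V)

theorem aux {p : ℕ} [hp : Fact p.Prime] [CharP k p] (n : ℕ) :
    ∀ {V : Type v} {H : Type w} [AddCommGroup V] [Module k V] [Group H] [Finite H]
      (ρ : Representation k H V), Nat.card H = n → IsPSolvable p H → ∀ (a : V) (A : Subgroup H),
      ¬ p ∣ A.index → (∀ h ∈ A, ρ h a = a) →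
      Submodule.span k {u : V | ∃ h : H, ρ h a = u} = ⊤ →
      (∃ w : V, ∀ v, (∀ g : H, ρ g v = v) → ∃ c : k, v = c • w) ∧
      ∀ (b : V) (B : Subgroup H), (∀ h ∈ B, ρ h b = b) → A.index.Coprime B.index →
        ∀ h, ρ h b = b := by
  induction n using Nat.strong_induction_on with
  | _ n ih =>
  intro V H _ _ _ _ ρ hn hsol a A hAp hA hspan
  rcases subsingleton_or_nontrivial H with hs | hs
  · refine ⟨⟨a, fun v _ => ?_⟩, fun b B _ _ h => by rw [Subsingleton.elim h 1]; simp⟩
    have hv : v ∈ Submodule.span k {u : V | ∃ h : H, ρ h a = u} := hspan ▸ Submodule.mem_top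
    have : {u : V | ∃ h : H, ρ h a = u} = {a} := by
      ext u
      simp only [Set.mem_ofPred_eq, Set.mem_singleton_iff]
      constructor
      · rintro ⟨h, rfl⟩; rw [Subsingleton.elim h 1]; simp
      · rintro rfl; exact ⟨1, by simp⟩
    rw [this, Submodule.mem_span_singleton] at hv
    obtain ⟨c, rfl⟩ := hv
    exact ⟨c, rfl⟩
  obtain ⟨N, hNn, hNb, hN⟩ := PLocal.IsPSolvable.exists_normal hsol
  have step : ∃ a' : V, (∀ h ∈ A, ρ h a' = a') ∧ (∀ x ∈ N, ρ x a' = a') ∧
      (∀ v, (∀ x ∈ N, ρ x v = v) → v ∈ Submodule.span k {u : V | ∃ h : H, ρ h a' = u}) ∧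
      ∀ (b : V) (B : Subgroup H), (∀ h ∈ B, ρ h b = b) → A.index.Coprime B.index →
        ∀ x ∈ N, ρ x b = b := by
    rcases hN with hN | hN
    · have hNA : N ≤ A := by
        obtain ⟨m, hm⟩ := IsPGroup.iff_card.1 hN
        have h1 : A.relIndex N ∣ p ^ m := hm ▸ relIndex_dvd_card A N
        have h2 := relIndex_dvd_index A N
        rw [← relIndex_eq_one]
        exact Nat.eq_one_of_dvd_coprimes
          (((Nat.Prime.coprime_iff_not_dvd hp.out).2 hAp).pow_left m) h1 h2
      have hall : ∀ v, ∀ x ∈ N, ρ x v = v := by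
        intro v x hx
        have : ρ x = LinearMap.id := by
          apply LinearMap.ext_on hspan
          rintro _ ⟨h, rfl⟩
          have : ρ x (ρ h a) = ρ h (ρ (h⁻¹ * x * h⁻¹⁻¹) a) := by
            rw [← Module.End.mul_apply, ← map_mul, ← Module.End.mul_apply, ← map_mul]; congr 2; group
          rw [this, hA _ (hNA (hNn.conj_mem x hx h⁻¹))]; rfl
        rw [this]; rfl
      exact ⟨a, hA, hall a, fun v _ => hspan ▸ Submodule.mem_top, fun b _ _ _ => hall b⟩
    · have hN0 : (Nat.card N : k) ≠ 0 := by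
        rw [Ne, CharP.cast_eq_zero_iff k p]
        exact (Nat.Prime.coprime_iff_not_dvd hp.out).1 hN.symm
      refine ⟨sm ρ N a, fun h hh => ?_, fun x hx => sm_fixed ρ N hx a,
        fun v hv => mem_span_of_fixed ρ N hN0 hspan hv,
        fun b B hB hAB => fixed_of_coprime ρ N hN0 hA hB hAB hspan⟩
      rw [← sm_conj, hA h hh]
  obtain ⟨a', ha1, ha2, ha3, ha4⟩ := step
  let W := Representation.invariants (ρ.comp N.subtype)
  have hW : ∀ v, v ∈ W ↔ ∀ x ∈ N, ρ x v = v := fun v =>
    ⟨fun h x hx => h ⟨x, hx⟩, fun h x => h x x.2⟩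
  let σ := ρ.quotientToInvariants N
  have hσ : ∀ (h : H) (v : W), ((σ (h : H ⧸ N) v : W) : V) = ρ h v := fun _ _ => rfl
  have hlt : Nat.card (H ⧸ N) < n := by
    rw [← hn, ← index_eq_card, ← N.index_mul_card]
    have : 1 < Nat.card N := (one_lt_card_iff_ne_bot N).2 hNb
    have h2 : 0 < N.index := Nat.pos_of_ne_zero N.index_ne_zero_of_finite
    nlinarith
  have hdv : ∀ C : Subgroup H, (C.map (QuotientGroup.mk' N)).index ∣ C.index := fun C =>
    index_map_dvd C (QuotientGroup.mk'_surjective N)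
  obtain ⟨⟨w, hw⟩, h2⟩ := ih _ hlt σ rfl (PLocal.IsPSolvable.quotient hsol N)
    ⟨a', (hW _).2 ha2⟩ (A.map (QuotientGroup.mk' N)) (fun h => hAp (h.trans (hdv A)))
    (by rintro _ ⟨h, hh, rfl⟩; exact Subtype.ext (ha1 h hh))
    (by
      rw [eq_top_iff]
      rintro ⟨v, hv⟩ -
      have h1 := ha3 v ((hW v).1 hv)
      have h3 : {u : V | ∃ h : H, ρ h a' = u} =
          W.subtype '' {u : W | ∃ h : H ⧸ N, σ h ⟨a', (hW _).2 ha2⟩ = u} := by
        ext u
        constructor
        · rintro ⟨h, rfl⟩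
          exact ⟨_, ⟨(h : H ⧸ N), rfl⟩, rfl⟩
        · rintro ⟨_, ⟨h, rfl⟩, rfl⟩
          induction h using QuotientGroup.induction_on with
          | H h => exact ⟨h, rfl⟩
      rw [h3, ← Submodule.map_span] at h1
      obtain ⟨u, hu, rfl⟩ := h1
      exact hu)
  refine ⟨⟨w, fun v hv => ?_⟩, fun b B hB hAB h => ?_⟩
  · obtain ⟨c, hc⟩ := hw ⟨v, (hW v).2 fun x _ => hv x⟩ (fun g => by
      induction g using QuotientGroup.induction_on with
      | H g => exact Subtype.ext (hv g))
    exact ⟨c, congrArg Subtype.val hc⟩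
  · have := h2 ⟨b, (hW b).2 (ha4 b B hB hAB)⟩ (B.map (QuotientGroup.mk' N))
      (by rintro _ ⟨h, hh, rfl⟩; exact Subtype.ext (hB h hh))
      (Nat.Coprime.coprime_dvd_left (hdv A) (Nat.Coprime.coprime_dvd_right (hdv B) hAB)) h
    exact congrArg Subtype.val this

end Cfsg.Agent.FGS.CoprimeOrbit
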