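import Cfsg.Agent.FGS.SecRank

/-! A coordinate model of the wreath product `D8 ≀ C2` (order 128) and finite facts on it. -/

set_option autoImplicit false

namespace Cfsg.Agent.FGS.D8Wr

open Subgroup

@[ext] structure M where
  a1 : Bool
  b1 : Bool
  z1 : Bool
  a2 : Bool
  b2 : Bool
  z2 : Bool
  t : Bool
  deriving DecidableEq

namespace M

def eqv : Bool × Bool × Bool × Bool × Bool × Bool × Bool ≃ M where
  toFun p := ⟨p.1, p.2.1, p.2.2.1, p.2.2.2.1, p.2.2.2.2.1, p.2.2.2.2.2.1, p.2.2.2.2.2.2⟩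
  invFun x := (x.a1, x.b1, x.z1, x.a2, x.b2, x.z2, x.t)
  left_inv _ := rfl
  right_inv _ := rfl

instance : Fintype M := Fintype.ofEquiv _ eqv

instance (priority := high) decAll (p : M → Prop) [DecidablePred p] : Decidable (∀ x, p x) :=
  decidable_of_iff (∀ a1 b1 z1 a2 b2 z2 t, p ⟨a1, b1, z1, a2, b2, z2, t⟩)
    ⟨fun h x => h x.a1 x.b1 x.z1 x.a2 x.b2 x.z2 x.t, fun h _ _ _ _ _ _ _ => h _⟩

instance (priority := high) decEx (p : M → Prop) [DecidablePred p] : Decidable (∃ x, p x) :=
  decidable_of_iff (∃ a1 b1 z1 a2 b2 z2 t, p ⟨a1, b1, z1, a2, b2, z2, t⟩)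
    ⟨fun ⟨_, _, _, _, _, _, _, h⟩ => ⟨_, h⟩, fun ⟨x, h⟩ => ⟨x.a1, x.b1, x.z1, x.a2, x.b2, x.z2, x.t, h⟩⟩

def mul (x y : M) : M :=
  ⟨xor x.a1 (bif x.t then y.a2 else y.a1), xor x.b1 (bif x.t then y.b2 else y.b1),
    xor (xor x.z1 (bif x.t then y.z2 else y.z1)) (x.b1 && (bif x.t then y.a2 else y.a1)),
    xor x.a2 (bif x.t then y.a1 else y.a2), xor x.b2 (bif x.t then y.b1 else y.b2),
    xor (xor x.z2 (bif x.t then y.z1 else y.z2)) (x.b2 && (bif x.t then y.a1 else y.a2)),
    xor x.t y.t⟩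

def inv (x : M) : M :=
  bif x.t then ⟨x.a2, x.b2, xor x.z2 (x.a2 && x.b2), x.a1, x.b1, xor x.z1 (x.a1 && x.b1), true⟩
  else ⟨x.a1, x.b1, xor x.z1 (x.a1 && x.b1), x.a2, x.b2, xor x.z2 (x.a2 && x.b2), false⟩

theorem zassoc (b z a' b' z' a'' z'' : Bool) :
    xor (xor (xor (xor z z') (b && a')) z'') (xor b b' && a'') =
      xor (xor z (xor (xor z' z'') (b' && a''))) (b && xor a' a'') := by
  revert b z a' b' z' a'' z''; decide

instance : Group M where
  mul := mul
  one := ⟨false, false, false, false, false, false, false⟩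
  inv := inv
  mul_assoc := by
    rintro ⟨a1, b1, z1, a2, b2, z2, t⟩ ⟨a1', b1', z1', a2', b2', z2', t'⟩ ⟨c1, d1, e1, c2, d2, e2, s⟩
    change mul (mul _ _) _ = mul _ (mul _ _)
    cases t <;> cases t' <;>
      simp only [mul, cond_true, cond_false, Bool.xor_assoc, Bool.xor_false, Bool.false_xor,
        Bool.xor_self, M.mk.injEq, true_and, and_true, Bool.true_xor, Bool.not_true, Bool.not_false,
        Bool.not_not] <;>
      refine ⟨?_, ?_⟩ <;> simpa only [Bool.xor_assoc] using zassoc _ _ _ _ _ _ _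
  one_mul := by decide +kernel
  mul_one := by decide +kernel
  inv_mul_cancel := by decide +kernel

theorem card_M : Nat.card M = 128 := by
  rw [Nat.card_eq_fintype_card]; decide +kernel

end M

open M

def a1 : M := ⟨true, false, false, false, false, false, false⟩
def b1 : M := ⟨false, true, false, false, false, false, false⟩
def a2 : M := ⟨false, false, false, true, false, false, false⟩
def b2 : M := ⟨false, false, false, false, true, false, false⟩
def z1 : M := ⟨false, false, true, false, false, false, false⟩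
def z2 : M := ⟨false, false, false, false, false, true, false⟩
def zz : M := ⟨false, false, true, false, false, true, false⟩
def tt : M := ⟨false, false, false, false, false, false, true⟩

def Q : Subgroup M where
  carrier := {x | x.t = false}
  mul_mem' := by
    intro x y; simp only [Set.mem_ofPred_eq]; revert x y; decide +kernel
  one_mem' := rfl
  inv_mem' := by
    intro x; simp only [Set.mem_ofPred_eq]; revert x; decide +kernel

def V1 : Subgroup M where
  carrier := {x | x.t = false ∧ x.b1 = false ∧ x.b2 = false}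
  mul_mem' := by
    intro x y; simp only [Set.mem_ofPred_eq]; revert x y; decide +kernel
  one_mem' := ⟨rfl, rfl, rfl⟩
  inv_mem' := by
    intro x; simp only [Set.mem_ofPred_eq]; revert x; decide +kernel

def V2 : Subgroup M where
  carrier := {x | x.t = false ∧ x.a1 = false ∧ x.a2 = false}
  mul_mem' := by
    intro x y; simp only [Set.mem_ofPred_eq]; revert x y; decide +kernel
  one_mem' := ⟨rfl, rfl, rfl⟩
  inv_mem' := by
    intro x; simp only [Set.mem_ofPred_eq]; revert x; decide +kernel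

def Z : Subgroup M := V1 ⊓ V2

instance : DecidablePred (· ∈ Q) := fun x => inferInstanceAs (Decidable (x.t = false))
instance : DecidablePred (· ∈ V1) := fun x =>
  inferInstanceAs (Decidable (x.t = false ∧ x.b1 = false ∧ x.b2 = false))
instance : DecidablePred (· ∈ V2) := fun x =>
  inferInstanceAs (Decidable (x.t = false ∧ x.a1 = false ∧ x.a2 = false))
instance : DecidablePred (· ∈ Z) := fun x => inferInstanceAs (Decidable (x ∈ V1 ∧ x ∈ V2))

theorem card_Q : Nat.card Q = 64 := by
  rw [Nat.card_eq_fintype_card]; decide +kernel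
theorem card_V1 : Nat.card V1 = 16 := by
  rw [Nat.card_eq_fintype_card]; decide +kernel
theorem card_V2 : Nat.card V2 = 16 := by
  rw [Nat.card_eq_fintype_card]; decide +kernel
theorem card_Z : Nat.card Z = 4 := by
  rw [Nat.card_eq_fintype_card]; decide +kernel

theorem U_iff : ∀ x : M, (x ∈ V1 ∨ x ∈ V2) ↔
    (x * x = 1 ∧ ∀ g : M, x * (g * x * g⁻¹) = g * x * g⁻¹ * x) := by decide +kernel

theorem Z_iff : ∀ x : M, x ∈ Z ↔
    ((x ∈ V1 ∨ x ∈ V2) ∧ ∀ y : M, (y ∈ V1 ∨ y ∈ V2) → x * y = y * x) := by decide +kernel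

theorem Q_dec : ∀ x : M, x ∈ Q → ∃ u ∈ V1, u⁻¹ * x ∈ V2 := by decide +kernel

theorem V1_conj : ∀ g x : M, x ∈ V1 → g * x * g⁻¹ ∈ V1 := by decide +kernel
theorem Z_conj : ∀ g x : M, x ∈ Z → g * x * g⁻¹ ∈ Z := by decide +kernel
theorem Z_comm : ∀ x c : M, x ∈ Q → c ∈ Z → x * c = c * x := by decide +kernel
theorem Z_sq : ∀ c : M, c ∈ Z → c * c = 1 := by decide +kernel
theorem Q_sq : ∀ c : M, c ∈ Q → c * c ∈ Z := by decide +kernel

theorem pair : ∀ x y : M, x ∈ V1 → y ∈ V2 → x ∉ Z → y ∉ Z → x * y = y * x →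
    (x * a1⁻¹ ∈ Z ∧ y * b2⁻¹ ∈ Z) ∨ (x * a2⁻¹ ∈ Z ∧ y * b1⁻¹ ∈ Z) := by decide +kernel

theorem cent_Q : ∀ x : M, x * a1 = a1 * x → x * a2 = a2 * x → x * b1 = b1 * x → x * b2 = b2 * x →
    x ∈ Z := by decide +kernel

theorem Q_word : ∀ x : M, x ∈ Q → ∃ c ∈ Z, x = (if x.a1 then a1 else 1) * (if x.b1 then b1 else 1) *
    (if x.a2 then a2 else 1) * (if x.b2 then b2 else 1) * c := by decide +kernel

theorem Z_cases : ∀ c : M, c ∈ Z → c = 1 ∨ c = z1 ∨ c = z2 ∨ c = z1 * z2 := by decide +kernel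

theorem comm1 : ∀ c d : M, c ∈ Z → d ∈ Z → c * a1 * (d * b1) * (c * a1)⁻¹ * (d * b1)⁻¹ = z1 := by
  decide +kernel
theorem comm2 : ∀ c d : M, c ∈ Z → d ∈ Z → c * a2 * (d * b2) * (c * a2)⁻¹ * (d * b2)⁻¹ = z2 := by
  decide +kernel

theorem center_iff : ∀ x : M, (∀ g : M, g * x = x * g) ↔ (x = 1 ∨ x = zz) := by decide +kernel

theorem cent_W : ∀ x : M, (∀ w : M, w ∉ Q → w * w = 1 → x * w * x⁻¹ = w) → x = 1 ∨ x = zz := by
  decide +kernel

theorem card_W : Fintype.card {w : M // w ∉ Q ∧ w * w = 1} = 8 := by decide +kernel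

/-- The action on eight points. -/
def act (x : M) (p : Bool × Bool × Bool) : Bool × Bool × Bool :=
  let k := xor p.1 x.t
  let a := bif k then x.a2 else x.a1
  let b := bif k then x.b2 else x.b1
  let z := bif k then x.z2 else x.z1
  (k, xor p.2.1 b, xor (xor p.2.2 z) (a && !(xor p.2.1 b)))

theorem act_one (p : Bool × Bool × Bool) : act 1 p = p := by
  have : ∀ i j k : Bool, act 1 (i, j, k) = (i, j, k) := by decide +kernel
  exact this _ _ _

theorem act_mul (x y : M) (p : Bool × Bool × Bool) : act (x * y) p = act x (act y p) := by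
  obtain ⟨a1, b1, z1, a2, b2, z2, t⟩ := x
  obtain ⟨c1, d1, e1, c2, d2, e2, s⟩ := y
  obtain ⟨i, j, k⟩ := p
  change act (M.mul _ _) _ = _
  cases t <;> cases s <;> cases i <;> simp only [act, M.mul] <;> 
    simp only [Prod.mk.injEq, cond_true, cond_false, Bool.xor_false, Bool.false_xor, Bool.xor_self,
      Bool.true_xor, Bool.xor_true, Bool.not_true, Bool.not_false, true_and] <;>
    refine ⟨by decide +revert, ?_⟩ <;> decide +revert

instance : MulAction M (Bool × Bool × Bool) where
  smul := act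
  one_smul := act_one
  mul_smul := act_mul

theorem act_inj : Function.Injective (MulAction.toPermHom M (Bool × Bool × Bool)) := by
  rw [injective_iff_map_eq_one]
  intro x hx
  have : ∀ x : M, (∀ i j k : Bool, act x (i, j, k) = (i, j, k)) → x = 1 := by decide +kernel
  exact this x fun i j k => DFunLike.congr_fun hx (i, j, k)

theorem syl_iso {X : Type*} [Group X] (hX : Nat.card X = 128) {α : Type*} [Fintype α]
    (hα : Fintype.card α = 8) (f : X →* Equiv.Perm α) (hf : Function.Injective f)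
    (T : Sylow 2 (Equiv.Perm (Fin 8))) : Nonempty (X ≃* (T : Subgroup (Equiv.Perm (Fin 8)))) := by
  haveI : Fact (Nat.Prime 2) := ⟨Nat.prime_two⟩
  let e : α ≃ Fin 8 := Fintype.equivFinOfCardEq hα
  let f' : X →* Equiv.Perm (Fin 8) := e.permCongrHom.toMonoidHom.comp f
  have hf' : Function.Injective f' := e.permCongrHom.injective.comp hf
  have hc : Nat.card f'.range = 2 ^ (Nat.card (Equiv.Perm (Fin 8))).factorization 2 := by
    rw [← Nat.card_congr (MonoidHom.ofInjective hf').toEquiv, hX, Nat.card_perm, Nat.card_fin]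
    have : (Nat.factorial 8).factorization 2 = 7 := by
      have h : Nat.factorial 8 = 2 ^ 7 * 315 := by decide
      rw [h, Nat.factorization_mul (by norm_num) (by norm_num), Finsupp.add_apply,
        Nat.Prime.factorization_pow Nat.prime_two, Nat.factorization_eq_zero_of_not_dvd (by norm_num)]
      simp
    rw [this]; rfl
  exact ⟨(MonoidHom.ofInjective hf').trans (Sylow.equiv (Sylow.ofCard _ hc) T)⟩

end Cfsg.Agent.FGS.D8Wr
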