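import Cfsg.Agent.FGS.D8Wr

/-! Automorphisms of `D8 ≀ C2` and its overgroups of sectional rank at most four. -/

set_option autoImplicit false

namespace Cfsg.Agent.FGS.D8Wr

open Subgroup

theorem U_map (α : MulAut M) {x : M} (hx : x ∈ V1 ∨ x ∈ V2) : α x ∈ V1 ∨ α x ∈ V2 := by
  rw [U_iff] at hx ⊢
  refine ⟨by rw [← map_mul, hx.1, map_one], fun g => ?_⟩
  obtain ⟨h, rfl⟩ := α.surjective g
  have := congrArg α (hx.2 h)
  simpa only [map_mul, map_inv] using this

theorem U_map' (α : MulAut M) {x : M} (hx : α x ∈ V1 ∨ α x ∈ V2) : x ∈ V1 ∨ x ∈ V2 := by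
  have := U_map α⁻¹ hx
  simpa using this

theorem Z_map (α : MulAut M) {x : M} (hx : x ∈ Z) : α x ∈ Z := by
  rw [Z_iff] at hx ⊢
  refine ⟨U_map α hx.1, fun y hy => ?_⟩
  obtain ⟨h, rfl⟩ := α.surjective y
  rw [← map_mul, ← map_mul, hx.2 h (U_map' α hy)]

theorem Z_map' (α : MulAut M) {x : M} (hx : α x ∈ Z) : x ∈ Z := by
  have := Z_map α⁻¹ hx
  simpa using this

theorem U_le_Q {x : M} (hx : x ∈ V1 ∨ x ∈ V2) : x ∈ Q := by
  rcases hx with h | h <;> exact h.1

theorem Q_map (α : MulAut M) {x : M} (hx : x ∈ Q) : α x ∈ Q := by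
  obtain ⟨u, hu, hv⟩ := Q_dec x hx
  have : α x = α u * α (u⁻¹ * x) := by rw [← map_mul]; simp
  rw [this]
  exact mul_mem (U_le_Q (U_map α (Or.inl hu))) (U_le_Q (U_map α (Or.inr hv)))

theorem Q_map' (α : MulAut M) {x : M} (hx : α x ∈ Q) : x ∈ Q := by
  have := Q_map α⁻¹ hx
  simpa using this

theorem le_or_le {A : Subgroup M} (h : ∀ x ∈ A, x ∈ V1 ∨ x ∈ V2) : A ≤ V1 ∨ A ≤ V2 := by
  by_contra hc
  push Not at hc
  obtain ⟨x, hx, hx1⟩ := SetLike.not_le_iff_exists.1 hc.1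
  obtain ⟨y, hy, hy2⟩ := SetLike.not_le_iff_exists.1 hc.2
  have hx2 := (h x hx).resolve_left hx1
  have hy1 := (h y hy).resolve_right hy2
  rcases h _ (mul_mem hx hy) with h1 | h1
  · exact hx1 (by simpa using mul_mem h1 (inv_mem hy1))
  · exact hy2 (by simpa using mul_mem (inv_mem hx2) h1)

theorem eq_or_eq {A : Subgroup M} (h : ∀ x ∈ A, x ∈ V1 ∨ x ∈ V2) (hc : Nat.card A = 16) :
    A = V1 ∨ A = V2 := by
  rcases le_or_le h with h1 | h1
  · exact Or.inl (eq_of_le_of_card_ge h1 (by rw [hc, card_V1]))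
  · exact Or.inr (eq_of_le_of_card_ge h1 (by rw [hc, card_V2]))

theorem V1_ne_V2 : V1 ≠ V2 := fun h => by
  have : a1 ∈ V2 := h ▸ (by decide : a1 ∈ V1)
  revert this; decide

theorem map_cases (α : MulAut M) :
    (V1.map α.toMonoidHom = V1 ∧ V2.map α.toMonoidHom = V2) ∨
      (V1.map α.toMonoidHom = V2 ∧ V2.map α.toMonoidHom = V1) := by
  have h1 : V1.map α.toMonoidHom = V1 ∨ V1.map α.toMonoidHom = V2 := by
    refine eq_or_eq ?_ (by rw [card_map_of_injective α.injective, card_V1])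
    rintro _ ⟨x, hx, rfl⟩; exact U_map α (Or.inl hx)
  have h2 : V2.map α.toMonoidHom = V1 ∨ V2.map α.toMonoidHom = V2 := by
    refine eq_or_eq ?_ (by rw [card_map_of_injective α.injective, card_V2])
    rintro _ ⟨x, hx, rfl⟩; exact U_map α (Or.inr hx)
  have h3 : V1.map α.toMonoidHom ≠ V2.map α.toMonoidHom := fun h =>
    V1_ne_V2 (map_injective α.injective h)
  rcases h1 with h1 | h1 <;> rcases h2 with h2 | h2
  · exact absurd (h1.trans h2.symm) h3
  · exact Or.inl ⟨h1, h2⟩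
  · exact Or.inr ⟨h1, h2⟩
  · exact absurd (h1.trans h2.symm) h3

/-- `α` acts trivially on the generators of `Q` modulo `Z`. -/
def Triv (α : MulAut M) : Prop :=
  α a1 * a1⁻¹ ∈ Z ∧ α a2 * a2⁻¹ ∈ Z ∧ α b1 * b1⁻¹ ∈ Z ∧ α b2 * b2⁻¹ ∈ Z

theorem triv_or (α : MulAut M) (h1 : V1.map α.toMonoidHom = V1) (h2 : V2.map α.toMonoidHom = V2) :
    Triv α ∨ Triv (α * MulAut.conj tt) := by
  have m1 : ∀ x ∈ V1, α x ∈ V1 := fun x hx => h1 ▸ mem_map_of_mem _ hx
  have m2 : ∀ x ∈ V2, α x ∈ V2 := fun x hx => h2 ▸ mem_map_of_mem _ hx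
  have p1 := pair (α a1) (α b2) (m1 _ (by decide)) (m2 _ (by decide))
    (fun h => absurd (Z_map' α h) (by decide)) (fun h => absurd (Z_map' α h) (by decide))
    (by rw [← map_mul, ← map_mul]; congr 1)
  have p2 := pair (α a2) (α b1) (m1 _ (by decide)) (m2 _ (by decide))
    (fun h => absurd (Z_map' α h) (by decide)) (fun h => absurd (Z_map' α h) (by decide))
    (by rw [← map_mul, ← map_mul]; congr 1)
  have nn : ∀ x, α a1 * x⁻¹ ∈ Z → α a2 * x⁻¹ ∈ Z → False := by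
    intro x h h'
    have : α (a1 * a2⁻¹) ∈ Z := by
      have := mul_mem h (inv_mem h')
      simpa [mul_assoc] using this
    exact absurd (Z_map' α this) (by decide)
  rcases p1 with p1 | p1 <;> rcases p2 with p2 | p2
  · exact (nn _ p1.1 p2.1).elim
  · exact Or.inl ⟨p1.1, p2.1, p2.2, p1.2⟩
  · right
    have e1 : tt * a1 * tt⁻¹ = a2 := by decide
    have e2 : tt * a2 * tt⁻¹ = a1 := by decide
    have e3 : tt * b1 * tt⁻¹ = b2 := by decide
    have e4 : tt * b2 * tt⁻¹ = b1 := by decide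
    simp only [Triv, MulAut.mul_apply, MulAut.conj_apply, e1, e2, e3, e4]
    exact ⟨p2.1, p1.1, p1.2, p2.2⟩
  · exact (nn _ p1.1 p2.1).elim

theorem Triv.fixZ {α : MulAut M} (h : Triv α) {c : M} (hc : c ∈ Z) : α c = c := by
  have e1 : α z1 = z1 := by
    have := comm1 _ _ h.1 h.2.2.1
    simp only [inv_mul_cancel_right] at this
    have e : z1 = a1 * b1 * a1⁻¹ * b1⁻¹ := by decide
    calc α z1 = α (a1 * b1 * a1⁻¹ * b1⁻¹) := by rw [← e]
      _ = z1 := by simpa only [map_mul, map_inv] using this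
  have e2 : α z2 = z2 := by
    have := comm2 _ _ h.2.1 h.2.2.2
    simp only [inv_mul_cancel_right] at this
    have e : z2 = a2 * b2 * a2⁻¹ * b2⁻¹ := by decide
    calc α z2 = α (a2 * b2 * a2⁻¹ * b2⁻¹) := by rw [← e]
      _ = z2 := by simpa only [map_mul, map_inv] using this
  rcases Z_cases c hc with rfl | rfl | rfl | rfl <;> simp [e1, e2]

theorem Triv.all {α : MulAut M} (h : Triv α) {x : M} (hx : x ∈ Q) : α x * x⁻¹ ∈ Z := by
  have mul : ∀ u v, α u * u⁻¹ ∈ Z → α v * v⁻¹ ∈ Z → α (u * v) * (u * v)⁻¹ ∈ Z := by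
    intro u v hu hv
    have := mul_mem hu (Z_conj u _ hv)
    simpa [mul_assoc] using this
  have ite : ∀ (u : M) (b : Bool), α u * u⁻¹ ∈ Z →
      α (if b then u else 1) * (if b then u else 1)⁻¹ ∈ Z := by
    intro u b hu
    cases b
    · simp
    · simpa using hu
  obtain ⟨c, hc, e⟩ := Q_word x hx
  rw [e]
  refine mul _ _ (mul _ _ (mul _ _ (mul _ _ (ite _ _ h.1) (ite _ _ h.2.2.1)) (ite _ _ h.2.1))
    (ite _ _ h.2.2.2)) ?_
  rw [h.fixZ hc]; simp

theorem Triv.sq {α : MulAut M} (h : Triv α) {x : M} (hx : x ∈ Q) : α (α x) = x := by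
  have hc := h.all hx
  have e : α x = (α x * x⁻¹) * x := by simp
  calc α (α x) = α ((α x * x⁻¹) * x) := by rw [← e]
    _ = (α x * x⁻¹) * ((α x * x⁻¹) * x) := by rw [map_mul, h.fixZ hc, ← e]
    _ = x := by rw [← mul_assoc, Z_sq _ hc, one_mul]

section
variable {S : Type*} [Group S] (φ : M →* S) (hφ : Function.Injective φ)

/-- The automorphism of the model induced by an element normalising the image. -/
noncomputable def aut : normalizer (φ.range : Set S) →* MulAut M :=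
  (MulAut.congr (MonoidHom.ofInjective hφ).symm).toMonoidHom.comp φ.range.normalizerMonoidHom

theorem aut_apply (g : normalizer (φ.range : Set S)) (m : M) :
    φ (aut φ hφ g m) = g * φ m * (g : S)⁻¹ := by
  have : ∀ y : φ.range, φ ((MonoidHom.ofInjective hφ).symm y) = y := fun y =>
    MonoidHom.apply_ofInjective_symm hφ y
  simp only [aut, MonoidHom.comp_apply, MulEquiv.coe_toMonoidHom, MulAut.congr_apply,
    MulEquiv.trans_apply, MulEquiv.symm_symm, this]
  rfl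

include hφ in
theorem core0 [Finite S] (hr : SectionalPRankLE 2 4 S) (g : S) (α : MulAut M)
    (hα : ∀ m, φ (α m) = g * φ m * g⁻¹) (hg : g ∉ φ.range) (hg2 : g * g ∈ φ.range) (h : Triv α) :
    False := by
  obtain ⟨m0, hm0⟩ := hg2
  have hcm : ∀ x ∈ Q, m0 * x = x * m0 := by
    intro x hx
    apply hφ
    have := congrArg φ (h.sq hx)
    rw [hα, hα] at this
    rw [map_mul, map_mul, hm0]
    calc g * g * φ x = g * (g * φ x * g⁻¹) * g⁻¹ * (g * g) := by group
      _ = _ := by rw [this]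
  have hm0Z : m0 ∈ Z := cent_Q m0 (hcm _ (by decide)) (hcm _ (by decide)) (hcm _ (by decide))
    (hcm _ (by decide))
  have ZQ : Z ≤ Q := fun x hx => hx.1.1
  have gm : ∀ m, g * φ m = φ (α m) * g := fun m => by rw [hα]; group
  let R : Subgroup S :=
    { carrier := {x | ∃ q ∈ Q, x = φ q ∨ x = φ q * g}
      one_mem' := ⟨1, one_mem _, Or.inl (map_one φ).symm⟩
      mul_mem' := by
        rintro _ _ ⟨q, hq, rfl | rfl⟩ ⟨r, hr, rfl | rfl⟩
        · exact ⟨q * r, mul_mem hq hr, Or.inl (map_mul φ q r).symm⟩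
        · exact ⟨q * r, mul_mem hq hr, Or.inr (by rw [map_mul, mul_assoc])⟩
        · exact ⟨q * α r, mul_mem hq (Q_map α hr), Or.inr (by
            rw [map_mul, mul_assoc, gm, mul_assoc])⟩
        · refine ⟨q * α r * m0, mul_mem (mul_mem hq (Q_map α hr)) (ZQ hm0Z), Or.inl ?_⟩
          rw [map_mul, map_mul, hm0, hα]; group
      inv_mem' := by
        rintro _ ⟨q, hq, rfl | rfl⟩
        · exact ⟨q⁻¹, inv_mem hq, Or.inl (map_inv φ q).symm⟩
        · refine ⟨m0⁻¹ * α q⁻¹, mul_mem (inv_mem (ZQ hm0Z)) (Q_map α (inv_mem hq)), Or.inr ?_⟩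
          rw [map_mul, map_inv, hm0, hα, map_inv]; group }
  let N : Subgroup S := Z.map φ
  have hsq : ∀ x ∈ R, x ^ 2 ∈ N := by
    rintro _ ⟨q, hq, rfl | rfl⟩
    · exact ⟨q * q, Q_sq q hq, by rw [map_mul, sq]⟩
    · refine ⟨q * α q * m0, mul_mem ?_ hm0Z, ?_⟩
      · have := mul_mem (Z_conj q _ (h.all hq)) (Q_sq q hq)
        simpa [mul_assoc] using this
      · rw [map_mul, map_mul, hm0, hα, sq]; group
  have hcj : ∀ x ∈ R, ∀ n ∈ N, x * n * x⁻¹ ∈ N := by
    rintro _ ⟨q, hq, rfl | rfl⟩ _ ⟨c, hc, rfl⟩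
    · exact ⟨_, Z_conj q c hc, by simp⟩
    · refine ⟨_, Z_conj q _ (Z_map α hc), ?_⟩
      rw [map_mul, map_mul, hα, map_inv]; group
  have hcomm : ⁅R, R⁆ ≤ N := by
    rw [commutator_le]
    intro x hx y hy
    have e : x * y * x⁻¹ * y⁻¹ = (x * y) ^ 2 * (y⁻¹ * (x⁻¹ ^ 2) * y⁻¹⁻¹) * y⁻¹ ^ 2 := by
      simp only [sq]; group
    rw [commutatorElement_def, e]
    exact mul_mem (mul_mem (hsq _ (mul_mem hx hy)) (hcj _ (inv_mem hy) _ (hsq _ (inv_mem hx))))
      (hsq _ (inv_mem hy))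
  have h1 := SecRank.relIndex_le hr hcomm hsq
  have hQR : Q.map φ ≤ R := by
    rintro _ ⟨q, hq, rfl⟩; exact ⟨q, hq, Or.inl rfl⟩
  have hNR : N ≤ R := (map_mono ZQ).trans hQR
  have h2 : Nat.card N * N.relIndex R = Nat.card R := by
    rw [← Nat.card_congr (subgroupOfEquivOfLe hNR).toEquiv]
    exact card_mul_index _
  have h3 : Nat.card N = 4 := by rw [card_map_of_injective hφ, card_Z]
  have h4 : Q.map φ = R := eq_of_le_of_card_ge hQR (by
    rw [card_map_of_injective hφ, card_Q, ← h2, h3]; omega)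
  have h5 : g ∈ R := ⟨1, one_mem _, Or.inr (by simp)⟩
  rw [← h4] at h5
  obtain ⟨q, -, rfl⟩ := h5
  exact hg ⟨q, rfl⟩

theorem core [Finite S] (h2 : IsPGroup 2 S) (hr : SectionalPRankLE 2 4 S)
    (g : normalizer (φ.range : Set S)) (h1 : V1.map (aut φ hφ g).toMonoidHom = V1) :
    (g : S) ∈ φ.range := by
  obtain ⟨k, hk⟩ := h2 (g : S)
  induction k generalizing g with
  | zero => rw [pow_zero, pow_one] at hk; rw [hk]; exact one_mem _
  | succ k ih =>
    have hgg : ((g * g : normalizer (φ.range : Set S)) : S) ∈ φ.range := by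
      refine ih (g * g) ?_ ?_
      · rw [map_mul]
        change V1.map ((aut φ hφ g).toMonoidHom.comp (aut φ hφ g).toMonoidHom) = V1
        rw [← map_map, h1, h1]
      · rw [Subgroup.coe_mul, ← sq, ← pow_mul, ← pow_succ', hk]
    by_contra hg
    have h2' : V2.map (aut φ hφ g).toMonoidHom = V2 := by
      rcases map_cases (aut φ hφ g) with h | h
      · exact h.2
      · exact absurd (h1.symm.trans h.1) V1_ne_V2
    rcases triv_or _ h1 h2' with h | h
    · exact core0 φ hφ hr g _ (aut_apply φ hφ g) hg hgg h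
    · refine core0 φ hφ hr (g * φ tt) _ (fun m => ?_) (fun h' => hg ?_) ?_ h
      · rw [MulAut.mul_apply, aut_apply, MulAut.conj_apply, map_mul, map_mul, map_inv]; group
      · simpa using mul_mem h' (inv_mem (⟨tt, rfl⟩ : φ tt ∈ φ.range))
      · have e : (g : S) * φ tt * (g * φ tt) = φ (aut φ hφ g tt) * (g * g) * φ tt := by
          rw [aut_apply]; group
        rw [e]
        exact mul_mem (mul_mem ⟨_, rfl⟩ hgg) ⟨_, rfl⟩

end

end Cfsg.Agent.FGS.D8Wr
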