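import Mathlib
import Cfsg.Agent.Solv.ExtAction

/-! For a `p`-group `A` acting on a `p'`-group `N`:
`∏_{x ∈ A} |C_N(x)|^p ≤ |C_N(A)|^((p-1)|A|) |N|^|A|`. -/

set_option autoImplicit false

namespace Cfsg.Agent.FixProd

open Subgroup Cfsg.Agent.Solv.Ext

universe u

/-- number of fixed points -/
noncomputable def fc (B N : Type*) [Group B] [Group N] [MulDistribMulAction B N] : ℕ :=
  Nat.card (FixedPoints.subgroup B N)

theorem fc_mul {B N : Type*} [Group B] [Group N] [Finite B] [Finite N] [MulDistribMulAction B N]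
    (M : Subgroup N) [M.Normal] [MulDistribMulAction B M] [MulDistribMulAction B (N ⧸ M)]
    (hs : ∀ (a : B) (x : M), ((a • x : M) : N) = a • (x : N))
    (hq : ∀ (a : B) (x : N), a • (x : N ⧸ M) = ((a • x : N) : N ⧸ M))
    (hcop : (Nat.card B).Coprime (Nat.card M)) (hB : Group.IsSolvable B) :
    fc B N = fc B M * fc B (N ⧸ M) := by
  have hM : Inv B M := fun a x hx => by
    have := (a • (⟨x, hx⟩ : M)).2
    rwa [hs] at this
  let f : FixedPoints.subgroup B N →* FixedPoints.subgroup B (N ⧸ M) :=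
    ((QuotientGroup.mk' M).comp (FixedPoints.subgroup B N).subtype).codRestrict _ (fun x b => by
      show b • ((x : N) : N ⧸ M) = ((x : N) : N ⧸ M)
      rw [hq, x.2 b])
  have hf : Function.Surjective f := by
    intro y
    obtain ⟨c, hc, hcy⟩ := exists_fixed_lift hq hM hcop (Or.inl hB) y.1 y.2
    exact ⟨⟨c, hc⟩, Subtype.ext hcy⟩
  have h1 := card_eq_card_quotient_mul_card_subgroup f.ker
  rw [Nat.card_congr (QuotientGroup.quotientKerEquivOfSurjective f hf).toEquiv] at h1
  unfold fc
  rw [h1, mul_comm]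
  congr 1
  refine Nat.card_congr
    { toFun := fun x => ⟨⟨x.1.1, (QuotientGroup.eq_one_iff _).1 (congrArg Subtype.val x.2)⟩,
        fun b => Subtype.ext (by rw [hs]; exact x.1.2 b)⟩
      invFun := fun x => ⟨⟨x.1.1, fun b => by rw [← hs, x.2 b]⟩,
        Subtype.ext ((QuotientGroup.eq_one_iff _).2 x.1.2)⟩
      left_inv := fun x => rfl
      right_inv := fun x => rfl }

theorem fc_sylow {B N : Type*} [Group B] [Group N] [Finite B] [Finite N] [MulDistribMulAction B N]
    {q : ℕ} [hq : Fact q.Prime] (Q : Sylow q N) [MulDistribMulAction B (Q : Subgroup N)]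
    (hs : ∀ (a : B) (x : (Q : Subgroup N)), ((a • x : (Q : Subgroup N)) : N) = a • (x : N))
    (hcop : (Nat.card B).Coprime (Nat.card N)) (hB : Group.IsSolvable B) :
    fc B (Q : Subgroup N) = q ^ (fc B N).factorization q := by
  have hQ : Inv B (Q : Subgroup N) := fun a x hx => by
    have := (a • (⟨x, hx⟩ : (Q : Subgroup N))).2
    rwa [hs] at this
  set C := FixedPoints.subgroup B N with hC
  have h1 : fc B (Q : Subgroup N) = Nat.card ↥((Q : Subgroup N) ⊓ C) :=
    Nat.card_congr
      { toFun := fun x => ⟨x.1.1, x.1.2, fun b => by rw [← hs, x.2 b]⟩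
        invFun := fun x => ⟨⟨x.1, x.2.1⟩, fun b => Subtype.ext (by rw [hs]; exact x.2.2 b)⟩
        left_inv := fun x => rfl
        right_inv := fun x => rfl }
  obtain ⟨R⟩ : Nonempty (Sylow q C) := inferInstance
  have hR : Nat.card (R : Subgroup C) = q ^ (fc B N).factorization q := R.card_eq_multiplicity
  obtain ⟨Q', hRQ', hQ'⟩ := exists_inv_sylow_ge hcop (Or.inl hB) (U := (R : Subgroup C).map C.subtype)
    (R.isPGroup'.map _) (inv_of_fixed (by rintro a _ ⟨x, -, rfl⟩; exact x.2 a))
  obtain ⟨c, hc, hcQ⟩ := inv_sylow_conj hcop (Or.inl hB) Q' Q hQ' hQ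
  rw [h1, ← hR]
  apply le_antisymm
  · obtain ⟨n, hn⟩ := (Q.isPGroup'.to_inf_left (K := C)).exists_card_eq
    rw [hR, hn]
    refine Nat.pow_le_pow_right hq.out.pos ?_
    refine (hq.out.pow_dvd_iff_le_factorization (Nat.card_pos (α := C)).ne').1 ?_
    rw [← hn]
    exact card_dvd_of_le inf_le_right
  · refine Nat.card_le_card_of_injective (fun x => ⟨c * x.1.1 * c⁻¹, ?_, ?_⟩) ?_
    · rw [← hcQ]
      exact smul_mem_pointwise_smul _ (MulAut.conj c) _ (hRQ' ⟨x.1, x.2, rfl⟩)
    · exact C.mul_mem (C.mul_mem hc x.1.2) (C.inv_mem hc)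
    · intro x y h
      have := congrArg Subtype.val h
      simp only [mul_left_inj, mul_right_inj] at this
      exact Subtype.ext (Subtype.ext this)

theorem indep {A V : Type*} [Group A] [CommGroup V] [MulDistribMulAction A V] {ι : Type*}
    (y : ι → A) (hc : ∀ i j (v : V), y i • y j • v = y j • y i • v)
    (hf : ∀ i j, i ≠ j → ∀ v : V, y i • v = v → y j • v = v → v = 1) (s : Finset ι) :
    ∀ v : ι → V, (∀ i, y i • v i = v i) → ∏ i ∈ s, v i = 1 → ∀ i ∈ s, v i = 1 := by
  classical
  induction s using Finset.induction_on with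
  | empty => simp
  | insert j s hj ih =>
    intro v hv h1
    rw [Finset.prod_insert hj] at h1
    have h2 : ∀ i ∈ s, y j • v i * (v i)⁻¹ = 1 := by
      refine ih (fun i => y j • v i * (v i)⁻¹) (fun i => by rw [smul_mul', smul_inv', hc, hv]) ?_
      have h3 : ∏ i ∈ s, v i = (v j)⁻¹ := eq_inv_of_mul_eq_one_right h1
      rw [Finset.prod_mul_distrib, Finset.prod_inv_distrib, ← Finset.smul_prod', h3, smul_inv', hv,
        mul_inv_cancel]
    have h4 : ∀ i ∈ s, v i = 1 := fun i hi =>
      hf i j (fun h => hj (h ▸ hi)) _ (hv i) (mul_inv_eq_one.1 (h2 i hi))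
    intro i hi
    rcases Finset.mem_insert.1 hi with rfl | hi
    · rwa [Finset.prod_eq_one h4, mul_one] at h1
    · exact h4 i hi

theorem mem_fix_zpowers {A V : Type*} [Group A] [Group V] [MulDistribMulAction A V] {x : A} {v : V} :
    v ∈ FixedPoints.subgroup (zpowers x) V ↔ x • v = v := by
  constructor
  · exact fun h => h ⟨x, mem_zpowers x⟩
  · intro h b
    have : zpowers x ≤ MulAction.stabilizer A v := zpowers_le.2 h
    exact this b.2

/-- The inequality. -/
def Ineq (p : ℕ) (A N : Type*) [Group A] [Fintype A] [Group N] [MulDistribMulAction A N] : Prop :=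
  ∏ x : A, fc (zpowers x) N ^ p ≤ fc A N ^ ((p - 1) * Fintype.card A) * Nat.card N ^ Fintype.card A

theorem ineq_base {p : ℕ} [hp : Fact p.Prime] {A V : Type*} [Group A] [Fintype A] [CommGroup V]
    [Finite V] [MulDistribMulAction A V] (hA : IsPGroup p A)
    (hV : ∀ K : Subgroup V, Inv A K → K = ⊥ ∨ K = ⊤) : Ineq p A V := by
  classical
  unfold Ineq
  by_cases ht : ∀ (a : A) (v : V), a • v = v
  · have h1 : fc A V = Nat.card V := by
      unfold fc
      rw [show FixedPoints.subgroup A V = ⊤ from eq_top_iff.2 fun v _ a => ht a v, card_top]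
    have h2 : ∀ x : A, fc (zpowers x) V = Nat.card V := fun x => by
      unfold fc
      rw [show FixedPoints.subgroup (zpowers x) V = ⊤ from eq_top_iff.2 fun v _ a => ht a v, card_top]
    simp only [h1, h2, Finset.prod_const, Finset.card_univ]
    rw [← pow_mul, ← pow_add]
    apply le_of_eq
    congr 1
    obtain ⟨m, hm⟩ : ∃ m, p = m + 1 := ⟨p - 1, (Nat.succ_pred_eq_of_pos hp.out.pos).symm⟩
    rw [hm, Nat.add_sub_cancel]; ring
  let φ := MulDistribMulAction.toMulAut A V
  have hG : IsPGroup p φ.range := hA.of_surjective _ φ.rangeRestrict_surjective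
  haveI : Finite φ.range := Finite.of_surjective _ φ.rangeRestrict_surjective
  haveI : Nontrivial φ.range := by
    by_contra hn
    rw [not_nontrivial_iff_subsingleton] at hn
    apply ht
    intro a v
    have : (⟨φ a, a, rfl⟩ : φ.range) = 1 := Subsingleton.elim _ _
    exact DFunLike.congr_fun (congrArg Subtype.val this) v
  haveI := hG.center_nontrivial
  obtain ⟨n, hn0, hn⟩ := (hG.to_subgroup (center φ.range)).nontrivial_iff_card.1 inferInstance
  obtain ⟨⟨⟨_, ⟨z, rfl⟩⟩, hzc⟩, hz⟩ := exists_prime_orderOf_dvd_card'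
    (G := center φ.range) p (hn ▸ dvd_pow_self p hn0.ne')
  have hz' : orderOf (φ z) = p := by
    rw [← hz, ← Subgroup.orderOf_coe, ← Subgroup.orderOf_coe]
  have hcomm : ∀ a : A, Commute (φ a) (φ z) := fun a =>
    congrArg Subtype.val (mem_center_iff.1 hzc ⟨φ a, a, rfl⟩)
  have hfix : ∀ v : V, z • v = v → v = 1 := by
    have hK : Inv A (FixedPoints.subgroup (zpowers z) V) := by
      intro a v hv
      rw [mem_fix_zpowers] at hv ⊢
      have := DFunLike.congr_fun (hcomm a).eq v
      change a • z • v = z • a • v at this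
      rw [← this, hv]
    rcases hV _ hK with h | h
    · intro v hv
      have := mem_fix_zpowers.2 hv
      rwa [h] at this
    · exfalso
      have : φ z = 1 := MulEquiv.ext fun v => mem_fix_zpowers.1 (h ▸ mem_top v)
      rw [this, orderOf_one] at hz'
      exact hp.out.one_lt.ne hz'
  have hfix' : ∀ d : ℕ, 0 < d → d < p → ∀ v : V, z ^ d • v = v → v = 1 := by
    intro d hd0 hdp v hv
    apply hfix
    have hcop : d.Coprime (orderOf (φ z)) := hz' ▸ (Nat.coprime_of_lt_prime hd0.ne' hdp hp.out).symm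
    obtain ⟨m, hm⟩ := exists_pow_eq_self_of_coprime hcop
    have h1 : (z ^ d) ^ m • v = v := (MulAction.stabilizer A v).pow_mem hv m
    have h2 : φ ((z ^ d) ^ m) = φ z := by rw [map_pow, map_pow, hm]
    exact (DFunLike.congr_fun h2 v).symm.trans h1
  have key : ∀ x : A, ∏ i : Fin p, fc (zpowers (x * z ^ (i : ℕ))) V ≤ Nat.card V := by
    intro x
    unfold fc
    rw [← Nat.card_pi]
    have hlt : ∀ i j : Fin p, i < j → ∀ v : V, (x * z ^ (i : ℕ)) • v = v →
        (x * z ^ (j : ℕ)) • v = v → v = 1 := by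
      intro i j hij v hi hj
      apply hfix' (j - i) (by omega) (by omega)
      have h1 : (x * z ^ (i : ℕ)) • z ^ ((j : ℕ) - i) • v = (x * z ^ (i : ℕ)) • v := by
        rw [← mul_smul, mul_assoc, ← pow_add, Nat.add_sub_cancel' (le_of_lt hij), hi, hj]
      exact MulAction.injective _ h1
    let f : (∀ i : Fin p, FixedPoints.subgroup (zpowers (x * z ^ (i : ℕ))) V) →* V :=
      { toFun := fun w => ∏ i, (w i : V)
        map_one' := by simp
        map_mul' := fun a b => by simp [Finset.prod_mul_distrib] }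
    refine Nat.card_le_card_of_injective f ((injective_iff_map_eq_one f).2 fun w hw => ?_)
    funext i
    apply Subtype.ext
    show (w i : V) = 1
    refine indep (fun i : Fin p => x * z ^ (i : ℕ)) ?_ ?_ Finset.univ (fun i => (w i : V))
      (fun i => mem_fix_zpowers.1 (w i).2) hw i (Finset.mem_univ _)
    · intro i j v
      have : Commute (φ (x * z ^ (i : ℕ))) (φ (x * z ^ (j : ℕ))) := by
        simp only [map_mul, map_pow]
        exact ((Commute.refl _).mul_right ((hcomm x).pow_right _)).mul_left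
          (((hcomm x).symm.pow_left _).mul_right ((Commute.refl _).pow_pow _ _))
      exact DFunLike.congr_fun this.eq v
    · intro i j hij v hi hj
      rcases lt_or_gt_of_ne hij with h | h
      · exact hlt i j h v hi hj
      · exact hlt j i h v hj hi
  calc ∏ x : A, fc (zpowers x) V ^ p = ∏ i : Fin p, ∏ x : A, fc (zpowers x) V := by
        rw [Finset.prod_pow, Finset.prod_const, Finset.card_univ, Fintype.card_fin]
    _ = ∏ i : Fin p, ∏ x : A, fc (zpowers (x * z ^ (i : ℕ))) V :=
        Finset.prod_congr rfl fun i _ =>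
          (Equiv.prod_comp (Equiv.mulRight (z ^ (i : ℕ))) fun x => fc (zpowers x) V).symm
    _ = ∏ x : A, ∏ i : Fin p, fc (zpowers (x * z ^ (i : ℕ))) V := Finset.prod_comm
    _ ≤ ∏ x : A, Nat.card V := Finset.prod_le_prod' fun x _ => key x
    _ = 1 * Nat.card V ^ Fintype.card A := by
        rw [Finset.prod_const, Finset.card_univ, one_mul]
    _ ≤ _ := Nat.mul_le_mul_right _ (Nat.one_le_pow _ _ Nat.card_pos)

theorem cop_sub {p : ℕ} [hp : Fact p.Prime] {A : Type*} [Group A] [Finite A] (hA : IsPGroup p A)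
    {n : ℕ} (hn : n.Coprime p) : (Nat.card A).Coprime n := by
  obtain ⟨m, hm⟩ := hA.exists_card_eq
  rw [hm]
  exact hn.symm.pow_left m

theorem solv {p : ℕ} [hp : Fact p.Prime] {A : Type*} [Group A] [Finite A] (hA : IsPGroup p A) :
    Group.IsSolvable A := by
  haveI := hA.isNilpotent
  infer_instance

theorem ineq_pgroup {p q : ℕ} [hp : Fact p.Prime] [hq : Fact q.Prime] {A : Type*} [Group A]
    [Fintype A] (hA : IsPGroup p A) (n : ℕ) : ∀ (N : Type u) [Group N] [Finite N]
      [MulDistribMulAction A N], Nat.card N = n → IsPGroup q N → (Nat.card N).Coprime p →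
      Ineq p A N := by
  induction n using Nat.strong_induction_on with
  | _ n ih =>
  intro N _ _ _ hn hN hcop
  by_cases h : ∃ M : Subgroup N, M.Normal ∧ Inv A M ∧ M ≠ ⊥ ∧ M ≠ ⊤
  · obtain ⟨M, hMn, hM, h0, h1⟩ := h
    obtain ⟨_, hs⟩ := exists_subAction hM
    obtain ⟨_, hq⟩ := exists_quotAction hM
    have hcard := card_eq_card_quotient_mul_card_subgroup M
    have hcM : (Nat.card M).Coprime p := hcop.coprime_dvd_left (card_subgroup_dvd_card M)
    have hM1 : 1 < Nat.card M := (one_lt_card_iff_ne_bot M).2 h0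
    have hM2 : 1 < Nat.card (N ⧸ M) := one_lt_index_of_ne_top h1
    have i1 := ih (Nat.card M) (by rw [← hn, hcard]; nlinarith) M rfl (hN.to_subgroup M) hcM
    have i2 := ih (Nat.card (N ⧸ M)) (by rw [← hn, hcard]; nlinarith) (N ⧸ M) rfl
      (hN.to_quotient M) (hcop.coprime_dvd_left (card_quotient_dvd_card M))
    unfold Ineq at i1 i2 ⊢
    rw [fc_mul M hs hq (cop_sub hA hcM) (solv hA), hcard]
    have h2 : ∀ x : A, fc (zpowers x) N = fc (zpowers x) M * fc (zpowers x) (N ⧸ M) := fun x =>
      fc_mul M (fun a y => hs a y) (fun a y => hq a y) (cop_sub (hA.to_subgroup _) hcM)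
        (solv (hA.to_subgroup _))
    simp only [h2, mul_pow, Finset.prod_mul_distrib]
    refine (Nat.mul_le_mul i1 i2).trans (le_of_eq ?_)
    ring
  · push Not at h
    have hc : center N = ⊤ := by
      rcases subsingleton_or_nontrivial N with h1 | h1
      · exact Subsingleton.elim _ _
      · haveI := hN.center_nontrivial
        exact h _ inferInstance (inv_of_characteristic _) ((nontrivial_iff_ne_bot _).1 inferInstance)
    letI : CommGroup N := Group.commGroupOfCenterEqTop hc
    refine ineq_base hA fun K hK => ?_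
    by_cases h0 : K = ⊥
    · exact Or.inl h0
    · exact Or.inr (h K inferInstance hK h0)

theorem ineq {p : ℕ} [hp : Fact p.Prime] {A N : Type*} [Group A] [Fintype A] [Group N] [Finite N]
    [MulDistribMulAction A N] (hA : IsPGroup p A) (hcop : (Nat.card N).Coprime p) :
    Ineq p A N := by
  classical
  have hfac : ∀ m : ℕ, m ∣ Nat.card N →
      m = ∏ q : (Nat.card N).primeFactors, (q : ℕ) ^ m.factorization q := by
    intro m hm
    have h0 : m ≠ 0 := ne_zero_of_dvd_ne_zero Nat.card_pos.ne' hm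
    rw [Finset.prod_coe_sort (Nat.card N).primeFactors (fun q => q ^ m.factorization q)]
    conv_lhs => rw [← Nat.prod_factorization_pow_eq_self h0]
    exact Finsupp.prod_of_support_subset _ (Nat.primeFactors_mono hm Nat.card_pos.ne') _ (by simp)
  have key : ∀ q : (Nat.card N).primeFactors,
      ∏ x : A, ((q : ℕ) ^ (fc (zpowers x) N).factorization q) ^ p ≤
        ((q : ℕ) ^ (fc A N).factorization q) ^ ((p - 1) * Fintype.card A) *
          ((q : ℕ) ^ (Nat.card N).factorization q) ^ Fintype.card A := by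
    intro q
    haveI := Fact.mk (Nat.prime_of_mem_primeFactors q.2)
    obtain ⟨Q, hQ⟩ := exists_inv_sylow (cop_sub hA hcop) (Or.inl (solv hA)) (q : ℕ)
    obtain ⟨_, hs⟩ := exists_subAction hQ
    have i1 := ineq_pgroup hA _ (Q : Subgroup N) rfl Q.isPGroup'
      (hcop.coprime_dvd_left (card_subgroup_dvd_card _))
    unfold Ineq at i1
    rw [fc_sylow Q hs (cop_sub hA hcop) (solv hA), Q.card_eq_multiplicity] at i1
    have h2 : ∀ x : A, fc (zpowers x) (Q : Subgroup N) = (q : ℕ) ^ (fc (zpowers x) N).factorization q :=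
      fun x => fc_sylow Q (fun a y => hs a y) (cop_sub (hA.to_subgroup _) hcop)
        (solv (hA.to_subgroup _))
    simpa only [h2] using i1
  have := Finset.prod_le_prod' (s := Finset.univ) fun q _ => key q
  rw [Finset.prod_comm, Finset.prod_mul_distrib, Finset.prod_pow, Finset.prod_pow,
    ← hfac _ dvd_rfl, ← hfac (fc A N) (card_subgroup_dvd_card _)] at this
  unfold Ineq
  refine le_trans (le_of_eq (Finset.prod_congr rfl fun x _ => ?_)) this
  rw [Finset.prod_pow, ← hfac (fc (zpowers x) N) (card_subgroup_dvd_card _)]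

end Cfsg.Agent.FixProd
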