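import Mathlib
import Cfsg.Agent.Grp.PChain
import Cfsg.Agent.Grp.AutCard

/-!
Automorphisms of `2`-power order of an abelian group of odd order which move only a small subgroup.
-/

namespace Cfsg.Agent.FGS.Gross

open Subgroup
open scoped commutatorElement

variable {A : Type*} [CommGroup A]

/-- The elements inverted by `σ`. -/
def Neg (σ : MulAut A) : Subgroup A := σ.toMonoidHom.eqLocus invMonoidHom

theorem mem_neg {σ : MulAut A} {a : A} : a ∈ Neg σ ↔ σ a = a⁻¹ := Iff.rfl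

theorem neg_apply_mem {σ τ : MulAut A} (h : Commute σ τ) {a : A} (ha : a ∈ Neg σ) : τ a ∈ Neg σ := by
  rw [mem_neg] at ha ⊢
  rw [← MulAut.mul_apply, h.eq, MulAut.mul_apply, ha, map_inv]

theorem fix_apply {σ τ : MulAut A} (h : Commute σ τ) {a : A} (ha : σ a = a) : σ (τ a) = τ a := by
  rw [← MulAut.mul_apply, h.eq, MulAut.mul_apply, ha]

theorem pow_fix {σ : MulAut A} {a : A} (ha : σ a = a) (k : ℕ) : (σ ^ k) a = a := by
  induction k with
  | zero => rfl
  | succ k ih => rw [pow_succ, MulAut.mul_apply, ha, ih]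

section

variable [Finite A] (hA : Odd (Nat.card A))
include hA

theorem eq_one_of_pow {a : A} {j : ℕ} (h : a ^ 2 ^ j = 1) : a = 1 :=
  orderOf_eq_one_iff.mp (Nat.eq_one_of_dvd_coprimes
    ((Nat.coprime_two_left.mpr hA).pow_left j) (orderOf_dvd_of_pow_eq_one h) (orderOf_dvd_natCard a))

theorem eq_one_of_eq_inv {a : A} (h : a = a⁻¹) : a = 1 :=
  eq_one_of_pow hA (j := 1) (by rw [pow_one, sq]; exact mul_eq_one_iff_eq_inv.mpr h)

theorem decomp {z : MulAut A} (hz : z * z = 1) (a : A) : ∃ b c, z b = b ∧ c ∈ Neg z ∧ a = b * c := by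
  obtain ⟨k, hk⟩ := hA
  have h1 : ∀ r, z (z r) = r := fun r => by rw [← MulAut.mul_apply, hz, MulAut.one_apply]
  refine ⟨a ^ (k + 1) * z (a ^ (k + 1)), a ^ (k + 1) * (z (a ^ (k + 1)))⁻¹, ?_, ?_, ?_⟩
  · rw [map_mul, h1, mul_comm]
  · rw [mem_neg, map_mul, map_inv, h1, mul_inv_rev, inv_inv]
  · rw [mul_mul_mul_comm, mul_inv_cancel, mul_one, ← pow_add,
      show k + 1 + (k + 1) = Nat.card A + 1 by omega, pow_succ, pow_card_eq_one', one_mul]

theorem card_neg_mul {z : MulAut A} (hz : z * z = 1) :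
    Nat.card (Neg z) * Nat.card (z.toMonoidHom.eqLocus (MonoidHom.id A)) = Nat.card A := by
  refine IsComplement'.card_mul (isComplement'_of_disjoint_and_mul_eq_univ ?_ ?_)
  · rw [disjoint_def]
    intro a h1 h2
    exact eq_one_of_eq_inv hA ((show z a = a from h2).symm.trans h1)
  · refine Set.eq_univ_of_forall fun a => ?_
    obtain ⟨b, c, hb, hc, rfl⟩ := decomp hA hz a
    exact ⟨c, hc, b, hb, mul_comm c b⟩

end

structure Refl (n : ℕ) (h : MulAut A) : Prop where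
  sq : h ^ 2 ^ n * h ^ 2 ^ n = 1
  fix : ∀ a, (h ^ 2 ^ n) a = a → h a = a
  card : Nat.card (Neg (h ^ 2 ^ n)) = (2 ^ (n + 1) - 1) ^ 2

theorem Refl.conj {n : ℕ} {h : MulAut A} (H : Refl n h) (d : MulAut A) : Refl n (d * h * d⁻¹) where
  sq := by rw [conj_pow, conj_mul, H.sq, mul_one, mul_inv_cancel]
  fix := fun a ha => by
    rw [conj_pow, MulAut.mul_apply, MulAut.mul_apply, ← MulEquiv.eq_symm_apply] at ha
    rw [MulAut.mul_apply, MulAut.mul_apply, H.fix _ ha]
    simp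
  card := by
    rw [← H.card, ← Subgroup.card_map_of_injective (K := Neg (h ^ 2 ^ n)) (f := d.toMonoidHom)
      d.injective]
    refine congrArg (fun K : Subgroup A => Nat.card K) ?_
    ext a
    rw [conj_pow, mem_map_equiv, mem_neg, mem_neg, MulAut.mul_apply, MulAut.mul_apply,
      ← MulEquiv.eq_symm_apply, map_inv]
    rfl

variable [Finite A] (hA : Odd (Nat.card A)) {n : ℕ} {h h' : MulAut A}
include hA

theorem Refl.comm_mem (H : Refl n h) (a : A) : h a * a⁻¹ ∈ Neg (h ^ 2 ^ n) := by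
  obtain ⟨b, c, hb, hc, rfl⟩ := decomp hA H.sq a
  rw [map_mul, H.fix b hb, mul_inv, mul_mul_mul_comm, mul_inv_cancel, one_mul]
  exact mul_mem (neg_apply_mem ((Commute.refl h).pow_left _) hc) (inv_mem hc)

theorem Refl.irr (H : Refl n h) {U : Subgroup A} (hU : U ≤ Neg (h ^ 2 ^ n)) (hinv : ∀ a ∈ U, h a ∈ U) :
    U = ⊥ ∨ U = Neg (h ^ 2 ^ n) := by
  rw [or_iff_not_imp_left]
  intro h0
  have hne : h ^ 2 ^ n ≠ 1 := fun h1 => h0 ((eq_bot_iff_forall _).mpr fun a ha => by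
    have := hU ha
    rw [mem_neg, h1] at this
    exact eq_one_of_eq_inv hA this)
  have hsq : h ^ 2 ^ (n + 1) = 1 := by rw [pow_succ, pow_mul, pow_two, H.sq]
  have ho : orderOf h = 2 ^ (n + 1) := orderOf_eq_prime_pow hne hsq
  have hinv' : ∀ g ∈ zpowers h, ∀ a ∈ U, g a ∈ U := fun g hg a ha => by
    obtain ⟨k, rfl⟩ := (mem_powers_iff_mem_zpowers.mpr hg : g ∈ Submonoid.powers h)
    induction k with
    | zero => exact ha
    | succ k ih => simp only [pow_succ', MulAut.mul_apply]; exact hinv _ (ih (npow_mem_zpowers h k))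
  let _ : MulAction (zpowers h) ((U : Set A) \ {1} : Set A) :=
    { smul := fun g a => ⟨(g : MulAut A) a, hinv' _ g.2 _ a.2.1, fun h1 => a.2.2 (by simpa using h1)⟩
      one_smul := fun _ => rfl
      mul_smul := fun _ _ _ => rfl }
  have hd := Grp.card_dvd_card_of_free (A := zpowers h) (X := ((U : Set A) \ {1} : Set A)) fun a => by
    rw [eq_bot_iff]
    intro g hg
    by_contra hg1
    have h1 : (g : MulAut A) a = a := congrArg Subtype.val hg
    obtain ⟨k, hk⟩ := (mem_powers_iff_mem_zpowers.mpr g.2 : (g : MulAut A) ∈ Submonoid.powers h)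
    simp only at hk
    have hk0 : ¬ 2 ^ (n + 1) ∣ k := fun h2 => hg1 (Subtype.ext (by
      rw [← ho] at h2
      exact hk.symm.trans (orderOf_dvd_iff_pow_eq_one.mp h2)))
    obtain ⟨j, m, hm, rfl⟩ := Nat.exists_eq_two_pow_mul_odd (n := k) (fun h2 => hk0 (h2 ▸ dvd_zero _))
    have hj : j ≤ n := by
      by_contra h2
      exact hk0 ((pow_dvd_pow 2 (by omega)).trans (dvd_mul_right _ _))
    have h2 := pow_fix h1 (2 ^ (n - j))
    obtain ⟨m, rfl⟩ := hm
    rw [← hk, ← pow_mul, mul_right_comm, ← pow_add, Nat.add_sub_cancel' hj, pow_mul, pow_succ, pow_mul,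
      pow_two, H.sq, one_pow, one_mul] at h2
    exact a.2.2 (eq_one_of_eq_inv hA (h2.symm.trans (hU a.2.1)))
  rw [Nat.card_zpowers, ho, Nat.card_coe_set_eq, Set.ncard_diff_singleton_of_mem U.one_mem,
    ← Nat.card_coe_set_eq] at hd
  change _ ∣ Nat.card U - 1 at hd
  obtain ⟨w, hw⟩ := card_dvd_of_le hU
  rw [H.card] at hw
  have h1 : 1 < Nat.card U := (one_lt_card_iff_ne_bot _).mpr h0
  refine eq_of_le_of_card_ge hU ?_
  rw [H.card, hw]
  obtain ⟨m, hm⟩ : ∃ m, 2 ^ (n + 1) = m + 1 := ⟨2 ^ (n + 1) - 1, by have := Nat.two_pow_pos (n + 1); omega⟩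
  have hm1 : 1 ≤ m := by have := Nat.one_lt_pow (Nat.succ_ne_zero n) one_lt_two; omega
  rw [hm] at hd hw
  obtain ⟨c, hc⟩ := hd
  rw [Nat.add_sub_cancel] at hw
  have hU1 : Nat.card U = (m + 1) * c + 1 := by omega
  have hc1 : 1 ≤ c := by
    rcases c with _ | c
    · omega
    · omega
  have hw1 : (m + 1 : ℤ) ∣ w - 1 := by
    have h3 : (m : ℤ) ^ 2 = ((m + 1) * c + 1) * w := by rw [hU1] at hw; exact_mod_cast hw
    exact ⟨m - 1 - c * w, by linear_combination -h3⟩
  by_contra hlt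
  have hw2 : 2 ≤ w := by
    rcases w with _ | _ | w
    · nlinarith
    · omega
    · omega
  have hw3 : (m + 1 : ℤ) ≤ w - 1 := Int.le_of_dvd (by omega) hw1
  have hw4 : m + 2 ≤ w := by omega
  rw [hU1] at hw
  nlinarith

theorem Refl.key (H : Refl (n + 1) h) (H' : Refl (n + 1) h') {z u : MulAut A} (hz : z * z = 1)
    (hz1 : z ≠ 1) (hzh : Commute z h) (hzh' : Commute z h') (hzu : Commute z u)
    (hu : u * h * u⁻¹ = z * h) : Neg (h ^ 2 ^ (n + 1)) = Neg (h' ^ 2 ^ (n + 1)) ∨ Commute h h' := by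
  have h1 : ∀ a ∈ Neg z, h a = a → a = 1 := fun a ha hha => by
    have hb := neg_apply_mem hzu ha
    have h2 : z (h (u a)) = u a := by
      rw [← MulAut.mul_apply, ← hu, MulAut.mul_apply, MulAut.mul_apply, MulAut.inv_apply_self, hha]
    rw [mem_neg.mp (neg_apply_mem hzh hb), inv_eq_iff_eq_inv] at h2
    have h3 : (h ^ 2) (u a) = u a := by rw [pow_two, MulAut.mul_apply, h2, map_inv, h2, inv_inv]
    have h4 := pow_fix h3 (2 ^ n)
    rw [← pow_mul, ← pow_succ'] at h4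
    simpa using eq_one_of_eq_inv hA ((H.fix _ h4).symm.trans h2)
  have hzt : Commute (h ^ 2 ^ (n + 1)) z := (hzh.pow_right _).symm
  have h2 : Neg z ≤ Neg (h ^ 2 ^ (n + 1)) := fun a ha => by
    obtain ⟨b, c, hb, hc, rfl⟩ := decomp hA H.sq a
    rw [mem_neg, map_mul] at ha
    have h3 : z b * b = (z c * c)⁻¹ := by
      rw [eq_inv_iff_mul_eq_one, mul_mul_mul_comm, ha, inv_mul_cancel]
    have h4 : z b * b = 1 := eq_one_of_eq_inv hA (by
      have h5 : (h ^ 2 ^ (n + 1)) (z b * b) = z b * b := by rw [map_mul, fix_apply hzt hb, hb]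
      exact h5.symm.trans (h3 ▸ (inv_mem (mul_mem (neg_apply_mem hzt hc) hc) : _ ∈ Neg _)))
    rw [h1 b (mul_eq_one_iff_eq_inv.mp h4) (H.fix b hb), one_mul]
    exact hc
  have h3 : Neg z = Neg (h ^ 2 ^ (n + 1)) :=
    (H.irr hA h2 fun a ha => neg_apply_mem hzh ha).resolve_left fun h0 => hz1 (by
      ext a
      obtain ⟨b, c, hb, hc, rfl⟩ := decomp hA hz a
      rw [h0, mem_bot] at hc
      rw [hc, mul_one, hb, MulAut.one_apply])
  rcases H'.irr hA (U := Neg z ⊓ Neg (h' ^ 2 ^ (n + 1))) inf_le_right fun a ha =>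
    ⟨neg_apply_mem hzh' ha.1, neg_apply_mem ((Commute.refl h').pow_left _) ha.2⟩ with h4 | h4
  · right
    have h5 : ∀ c ∈ Neg z, h' c = c := fun c hc => mul_inv_eq_one.mp (mem_bot.mp (h4.le
      ⟨(Neg z).mul_mem (neg_apply_mem hzh' hc) ((Neg z).inv_mem hc), H'.comm_mem hA c⟩))
    have h6 : ∀ b, z b = b → h b = b := fun b hb => mul_inv_eq_one.mp (eq_one_of_eq_inv hA (by
      have h7 : z (h b * b⁻¹) = h b * b⁻¹ := by rw [map_mul, map_inv, fix_apply hzh hb, hb]
      exact h7.symm.trans (h3.ge (H.comm_mem hA b))))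
    ext a
    obtain ⟨b, c, hb, hc, rfl⟩ := decomp hA hz a
    simp only [MulAut.mul_apply, map_mul]
    rw [h6 b hb, h6 _ (fix_apply hzh' hb), h5 c hc, h5 _ (neg_apply_mem hzh hc)]
  · left
    exact (eq_of_le_of_card_ge (h3 ▸ inf_eq_right.mp h4) (by rw [H.card, H'.card])).symm

theorem Refl.dichot (H : Refl (n + 1) h) (H' : Refl (n + 1) h')
    (hS : IsPGroup 2 (closure ({h, h'} : Set (MulAut A)))) :
    h ^ 2 ^ (n + 1) = h' ^ 2 ^ (n + 1) ∨ Commute h h' := by
  set S := closure ({h, h'} : Set (MulAut A)) with hSdef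
  have hh : h ∈ S := subset_closure (by simp)
  have hh' : h' ∈ S := subset_closure (by simp)
  have key : Neg (h ^ 2 ^ (n + 1)) = Neg (h' ^ 2 ^ (n + 1)) ∨ Commute h h' := by
    by_cases hc : (⊤ : Subgroup S) ≤ center S
    · exact Or.inr (congrArg Subtype.val (mem_center_iff.mp (hc (mem_top (⟨h', hh'⟩ : S))) ⟨h, hh⟩))
    obtain ⟨u, -, hu, hu2, hu3⟩ := Grp.PChain.exists_central_mod_pow hS ⊤ (center S) hc
    have hz : ∀ g : S, (⁅u, g⁆ : S) * ⁅u, g⁆ = 1 ∧ u * g * u⁻¹ = ⁅u, g⁆ * g := fun g => by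
      have e : u * g * u⁻¹ = ⁅u, g⁆ * g := by rw [commutatorElement_def]; group
      refine ⟨?_, e⟩
      have h1 := mem_center_iff.mp hu2 g
      have h2 := mem_center_iff.mp (hu3 g) u
      have h3 : u * (u * g * u⁻¹) * u⁻¹ = g := by
        rw [show u * (u * g * u⁻¹) * u⁻¹ = u ^ 2 * g * (u ^ 2)⁻¹ by rw [pow_two]; group, ← h1, mul_inv_cancel_right]
      rw [e, ← mul_assoc, h2, mul_assoc, mul_assoc, ← mul_assoc u, e, ← mul_assoc] at h3
      exact mul_eq_right.mp h3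
    have hcm : ∀ g g' : S, Commute ((⁅u, g⁆ : S) : MulAut A) g' := fun g g' =>
      (congrArg Subtype.val (mem_center_iff.mp (hu3 g) g')).symm
    by_cases h1 : (⁅u, ⟨h, hh⟩⁆ : S) = 1
    · by_cases h2 : (⁅u, ⟨h', hh'⟩⁆ : S) = 1
      · refine absurd (mem_center_iff.mpr fun g => Subtype.ext ?_) hu
        have h3 : S ≤ centralizer {(u : MulAut A)} := by
          refine (closure_le _).mpr ?_
          rintro _ (rfl | rfl)
          · exact mem_centralizer_singleton_iff.mpr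
              (congrArg Subtype.val (commutatorElement_eq_one_iff_mul_comm.mp h1)).symm
          · exact mem_centralizer_singleton_iff.mpr
              (congrArg Subtype.val (commutatorElement_eq_one_iff_mul_comm.mp h2)).symm
        exact mem_centralizer_singleton_iff.mp (h3 g.2)
      · exact (H'.key hA H (congrArg Subtype.val (hz ⟨h', hh'⟩).1) (fun h3 => h2 (Subtype.ext h3))
          (hcm _ ⟨h', hh'⟩) (hcm _ ⟨h, hh⟩) (hcm _ u) (congrArg Subtype.val (hz ⟨h', hh'⟩).2)).imp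
          Eq.symm Commute.symm
    · exact H.key hA H' (congrArg Subtype.val (hz ⟨h, hh⟩).1) (fun h3 => h1 (Subtype.ext h3))
        (hcm _ ⟨h, hh⟩) (hcm _ ⟨h', hh'⟩) (hcm _ u) (congrArg Subtype.val (hz ⟨h, hh⟩).2)
  refine key.imp_left fun hN => ?_
  set t := h ^ 2 ^ (n + 1) with ht
  set t' := h' ^ 2 ^ (n + 1) with ht'
  have hmem : ∀ {s : MulAut A}, s * s = 1 → ∀ a, s a * a⁻¹ ∈ Neg s := fun {s} hs a => by
    rw [mem_neg, map_mul, map_inv, ← MulAut.mul_apply, hs, MulAut.one_apply, mul_inv_rev, inv_inv]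
  obtain ⟨j, hj⟩ := hS ⟨t * t', mul_mem (pow_mem hh _) (pow_mem hh' _)⟩
  have hj' : (t * t') ^ 2 ^ j = 1 := congrArg Subtype.val hj
  have h1 : t * t' = 1 := by
    ext a
    set w := (t * t') a * a⁻¹ with hw
    have hwN : w ∈ Neg t := by
      have := mul_mem (hmem H.sq (t' a)) (hN.ge (hmem H'.sq a))
      rwa [mul_assoc, inv_mul_cancel_left] at this
    have hsw : (t * t') w = w := by
      rw [MulAut.mul_apply, mem_neg.mp (hN.le hwN), map_inv, mem_neg.mp hwN, inv_inv]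
    have h2 : ∀ k : ℕ, ((t * t') ^ k) a = w ^ k * a := fun k => by
      induction k with
      | zero => simp
      | succ k ih =>
        rw [pow_succ', MulAut.mul_apply, ih, map_mul, map_pow, hsw, pow_succ, mul_assoc, hw,
          inv_mul_cancel_right]
    have h3 := h2 (2 ^ j)
    rw [hj', MulAut.one_apply, eq_comm, mul_eq_right] at h3
    exact mul_inv_eq_one.mp (eq_one_of_pow hA h3)
  rw [eq_inv_of_mul_eq_one_left h1, inv_eq_of_mul_eq_one_right H'.sq]

theorem Refl.commutator_eq_sq (H : Refl (n + 1) h) {D : Subgroup (MulAut A)} (hD : IsPGroup 2 D)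
    (hn : h ∈ normalizer (D : Set (MulAut A))) {d : MulAut A} (hd : d ∈ D) :
    ∃ c ∈ D, ⁅d, h ^ 2 ^ (n + 1)⁆ = c ^ 2 := by
  have hz : IsPGroup 2 (zpowers h) := IsPGroup.of_card_dvd_pow (n := n + 1 + 1) (by
    rw [Nat.card_zpowers]
    exact orderOf_dvd_of_pow_eq_one (by rw [pow_succ, pow_mul, pow_two, H.sq]))
  have hS : IsPGroup 2 (D ⊔ zpowers h : Subgroup (MulAut A)) :=
    IsPGroup.to_sup_of_normal_left' hD hz (zpowers_le.mpr hn)
  have e : ⁅d, h ^ 2 ^ (n + 1)⁆ = (d * h * d⁻¹) ^ 2 ^ (n + 1) * (h ^ 2 ^ (n + 1))⁻¹ := by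
    rw [conj_pow, commutatorElement_def]
  rcases H.dichot hA (H.conj d) (hS.to_le (by
    rw [closure_le]
    rintro _ (rfl | rfl)
    · exact mem_sup_right (mem_zpowers _)
    · exact mul_mem (mul_mem (mem_sup_left hd) (mem_sup_right (mem_zpowers _)))
        (inv_mem (mem_sup_left hd)))) with h1 | h1
  · exact ⟨1, one_mem _, by rw [e, ← h1, mul_inv_cancel, one_pow]⟩
  · refine ⟨(d * h * d⁻¹ * h⁻¹) ^ 2 ^ n, pow_mem ?_ _, ?_⟩
    · rw [mul_assoc, mul_assoc, ← mul_assoc h]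
      exact mul_mem hd ((mem_normalizer_iff.mp hn _).mp (inv_mem hd))
    · rw [e, ← pow_mul, ← pow_succ, h1.symm.inv_right.mul_pow, inv_pow]

end Cfsg.Agent.FGS.Gross
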