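import Mathlib
import Cfsg.Agent.Class.PSL2Max
import Cfsg.Agent.Class.SmallIso

/-!
# Hall numbers, I: the groups `L₂(p)` without a Hall subgroup of order `m`
-/

set_option autoImplicit false

namespace Cfsg.Agent.FGS.HallNum

open Matrix MatrixGroups Subgroup MulAction
open Cfsg.Agent.Class Cfsg.Agent.Class.Dickson

theorem exists_prime {u v : ℕ} (hc : u.Coprime v) (hu : Odd u) (hv0 : 0 < v)
    (hv : Odd v ∨ 4 ∣ v) :
    ∃ p x y : ℕ, p.Prime ∧ u * v + 2 < p ∧ p = v * x + 1 ∧ p + 1 = 2 * u * y ∧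
      (u * v).Coprime (p * x * y) := by
  have hu0 : 0 < u := hu.pos
  have hco : (v ^ 2).Coprime (u ^ 2) := Nat.Coprime.pow 2 2 hc.symm
  obtain ⟨a, ha1, ha2⟩ := Nat.chineseRemainder hco (1 + v) (u - 1)
  have c1 : a.Coprime (v ^ 2) := by
    have : (1 + v).Coprime (v ^ 2) := Nat.Coprime.pow_right 2 (by simp)
    rw [Nat.Coprime, ha1.gcd_eq]; exact this
  have c2 : a.Coprime (u ^ 2) := by
    have : (u - 1).Coprime (u ^ 2) := by
      apply Nat.Coprime.pow_right 2
      obtain ⟨w, rfl⟩ : ∃ w, u = w + 1 := ⟨u - 1, by omega⟩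
      simp
    rw [Nat.Coprime, ha2.gcd_eq]; exact this
  obtain ⟨p, hp1, hp, hpa⟩ := Nat.forall_exists_prime_gt_and_modEq (u * v + v + u + 2)
    (q := v ^ 2 * u ^ 2) (a := a) (by positivity) (Nat.Coprime.mul_right c1 c2)
  have e1 : p ≡ 1 + v [MOD v ^ 2] := (hpa.of_mul_right _).trans ha1
  have e2 : p ≡ u - 1 [MOD u ^ 2] := (hpa.of_mul_left _).trans ha2
  obtain ⟨s, hs⟩ := (Nat.modEq_iff_dvd' (by omega : 1 + v ≤ p)).1 e1.symm
  obtain ⟨t, ht⟩ := (Nat.modEq_iff_dvd' (by omega : u - 1 ≤ p)).1 e2.symm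
  have hp2 : Odd p := hp.odd_of_ne_two (by omega)
  have h1 : p = v * (1 + v * s) + 1 := by
    have : p = v ^ 2 * s + (1 + v) := by omega
    rw [this]; ring
  have h2 : p + 1 = u * (1 + u * t) := by
    have : p + 1 = u ^ 2 * t + u := by omega
    rw [this]; ring
  have h3 : 2 ∣ 1 + u * t := by
    have : 2 ∣ u * (1 + u * t) := h2 ▸ (hp2.add_one).two_dvd
    rcases (Nat.Prime.dvd_mul Nat.prime_two).1 this with h | h
    · exact absurd h hu.not_two_dvd_nat
    · exact h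
  obtain ⟨y, hy⟩ := h3
  have h4 : p + 1 = 2 * u * y := by rw [h2, hy]; ring
  refine ⟨p, 1 + v * s, y, hp, by omega, h1, h4, ?_⟩
  set x := 1 + v * s with hx
  rw [Nat.coprime_iff_gcd_eq_one]
  by_contra hne
  obtain ⟨r, hr, hrd⟩ := Nat.exists_prime_and_dvd hne
  have r1 : r ∣ u * v := hrd.trans (Nat.gcd_dvd_left _ _)
  have r2 : r ∣ p * x * y := hrd.trans (Nat.gcd_dvd_right _ _)
  have two : r ∣ v * x → r ∣ p + 1 → r = 2 := by
    intro a1 a2
    have : r ∣ 2 := by
      have h5 : p + 1 = v * x + 2 := by omega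
      rw [h5] at a2
      exact (Nat.dvd_add_right a1).1 a2
    exact (Nat.prime_dvd_prime_iff_eq hr Nat.prime_two).1 this
  rcases (Nat.Prime.dvd_mul hr).1 r2 with r3 | r3
  · rcases (Nat.Prime.dvd_mul hr).1 r3 with r4 | r4
    · have := (Nat.prime_dvd_prime_iff_eq hr hp).1 r4
      have := Nat.le_of_dvd (by positivity) r1
      omega
    · rcases (Nat.Prime.dvd_mul hr).1 r1 with r5 | r5
      · have := two (Dvd.dvd.mul_left r4 _) (by rw [h2]; exact Dvd.dvd.mul_right r5 _)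
        subst this
        exact hu.not_two_dvd_nat r5
      · have : r ∣ 1 := (Nat.dvd_add_left (Dvd.dvd.mul_right r5 s)).1 r4
        exact hr.one_lt.ne' (Nat.dvd_one.1 this)
  · rcases (Nat.Prime.dvd_mul hr).1 r1 with r5 | r5
    · have h6 : r ∣ 1 + u * t := by rw [hy]; exact Dvd.dvd.mul_left r3 _
      have : r ∣ 1 := (Nat.dvd_add_left (Dvd.dvd.mul_right r5 t)).1 h6
      exact hr.one_lt.ne' (Nat.dvd_one.1 this)
    · have := two (Dvd.dvd.mul_right r5 _) (by rw [h4]; exact Dvd.dvd.mul_left r3 _)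
      subst this
      rcases hv with hv | hv
      · exact hv.not_two_dvd_nat r5
      · obtain ⟨z, rfl⟩ := r3
        obtain ⟨w, hw⟩ := hv
        have a1 : v * x = 4 * (w * x) := by rw [hw]; ring
        have a2 : 2 * u * (2 * z) = 4 * (u * z) := by ring
        omega

theorem counter {u v : ℕ} (hc : u.Coprime v) (hu : Odd u) (hu1 : 1 < u) (hv2 : 2 < v)
    (hv : Odd v ∨ 4 ∣ v) (h12 : u * v ≠ 12) (h24 : u * v ≠ 24) (h60 : u * v ≠ 60) :
    ∃ (G : Type) (_ : Group G) (_ : Finite G), u * v ∣ Nat.card G ∧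
      (u * v).Coprime (Nat.card G / (u * v)) ∧ ∀ H : Subgroup G, Nat.card H ≠ u * v := by
  obtain ⟨p, x, y, hp, hlt, h1, h2, hco⟩ := exists_prime hc hu (by omega) hv
  haveI : Fact p.Prime := ⟨hp⟩
  have hcard : Fintype.card (ZMod p) = p := ZMod.card p
  have hp2 : Odd p := hp.odd_of_ne_two (by omega)
  have hg : Nat.gcd 2 (p - 1) = 2 := by
    obtain ⟨k, hk⟩ := hp2
    have : p - 1 = 2 * k := by omega
    rw [this]; simp
  have hG : Nat.card PSL(2, ZMod p) = u * v * (p * x * y) := by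
    have h := Class.gcd_mul_card_PSL2 (F := ZMod p)
    rw [hcard, hg] at h
    have h3 : p ^ 2 - 1 = (p + 1) * (p - 1) := by
      rw [← Nat.sq_sub_sq]
    have h4 : p - 1 = v * x := by omega
    rw [h3, h4, h2] at h
    have : 2 * Nat.card PSL(2, ZMod p) = 2 * (u * v * (p * x * y)) := by rw [h]; ring
    omega
  have huv : 0 < u * v := by positivity
  refine ⟨PSL(2, ZMod p), inferInstance, inferInstance, ⟨_, hG⟩, ?_, ?_⟩
  · rw [hG, Nat.mul_div_cancel_left _ huv]; exact hco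
  intro H hH
  have hum : ¬ u ∣ p - 1 := by
    intro h
    have h3 : u ∣ p + 1 := ⟨2 * y, by rw [h2]; ring⟩
    have h4 : p + 1 = (p - 1) + 2 := by omega
    rw [h4] at h3
    have h5 := (Nat.dvd_add_right h).1 h3
    have := Nat.le_of_dvd (by norm_num) h5
    obtain ⟨k, hk⟩ := hu
    omega
  have hvp : ¬ v ∣ p + 1 := by
    intro h
    have h4 : p + 1 = v * x + 2 := by omega
    rw [h4] at h
    have h5 := (Nat.dvd_add_right (Dvd.intro _ rfl)).1 h
    have := Nat.le_of_dvd (by norm_num) h5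
    omega
  have hup : u.Coprime p := by
    have : (u * v).Coprime p :=
      Nat.Coprime.coprime_dvd_right (⟨x * y, by ring⟩ : p ∣ p * x * y) hco
    exact Nat.Coprime.coprime_mul_right this
  rcases dickson_cases H with ⟨z, hz⟩ | ⟨h | h, -⟩ | ⟨⟨e⟩⟩ | ⟨⟨e⟩⟩ | ⟨⟨e⟩⟩ | h | ⟨L, m, hm, hL, -⟩
  · have h3 := gcd_mul_card_stabilizer z
    rw [Nat.card_eq_fintype_card, hcard] at h3
    have h4 : Nat.card H ∣ p * (p - 1) := by
      rw [← h3]; exact Dvd.dvd.mul_left (Subgroup.card_dvd_of_le hz) _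
    rw [hH] at h4
    exact hum (hup.dvd_of_dvd_mul_left ((Dvd.intro _ rfl : u ∣ u * v).trans h4))
  · rw [hcard, hg, hH, Nat.mul_div_cancel' (hp2.add_one).two_dvd] at h
    exact hvp ((Dvd.intro_left _ rfl : v ∣ u * v).trans h)
  · have h3 : 2 ∣ p - 1 := by obtain ⟨k, hk⟩ := hp2; exact ⟨k, by omega⟩
    rw [hcard, hg, hH, Nat.mul_div_cancel' h3] at h
    exact hum ((Dvd.intro _ rfl : u ∣ u * v).trans h)
  · exact h12 (by rw [← hH, Nat.card_congr e.toEquiv, card_alt4])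
  · exact h24 (by rw [← hH, Nat.card_congr e.toEquiv, card_sym4])
  · exact h60 (by rw [← hH, Nat.card_congr e.toEquiv, card_alt5])
  · rw [h, Subgroup.card_top, hG] at hH
    have h3 : p * x * y = 1 := by
      have := Nat.eq_of_mul_eq_mul_left huv (hH.trans (mul_one _).symm)
      exact this
    have : p ∣ 1 := ⟨x * y, by rw [← h3]; ring⟩
    exact hp.one_lt.ne' (Nat.dvd_one.1 this)
  · rw [hcard] at hL
    have := Nat.Prime.eq_one_of_pow (hL ▸ hp)
    omega

theorem counter' {m : ℕ} (hm : 2 ≤ m) (h1 : ¬ IsPrimePow m) (h2 : m % 4 ≠ 2) (h12 : m ≠ 12)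
    (h24 : m ≠ 24) (h60 : m ≠ 60) :
    ∃ (G : Type) (_ : Group G) (_ : Finite G), m ∣ Nat.card G ∧
      m.Coprime (Nat.card G / m) ∧ ∀ H : Subgroup G, Nat.card H ≠ m := by
  have hr : m.minFac.Prime := Nat.minFac_prime (by omega)
  set r := m.minFac with hrdef
  have hrm : r ∣ m := Nat.minFac_dvd m
  obtain ⟨a, u, hru, hmu⟩ := Nat.exists_eq_pow_mul_and_not_dvd (by omega : m ≠ 0) r hr.ne_one
  have ha : a ≠ 0 := by
    rintro rfl
    rw [pow_zero, one_mul] at hmu
    exact hru (hmu ▸ hrm)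
  have hc : u.Coprime (r ^ a) :=
    Nat.Coprime.pow_right a ((Nat.Prime.coprime_iff_not_dvd hr).2 hru).symm
  have hu1 : 1 < u := by
    rcases u with _ | _ | u
    · simp at hru
    · exact absurd ⟨r, a, hr.prime, Nat.pos_of_ne_zero ha, by rw [hmu]; simp⟩ h1
    · omega
  have hm' : m = u * r ^ a := by rw [mul_comm]; exact hmu
  have key : Odd u ∧ 2 < r ^ a ∧ (Odd (r ^ a) ∨ 4 ∣ r ^ a) := by
    by_cases h : r = 2
    · have hu : Odd u := by
        rw [← Nat.not_even_iff_odd, even_iff_two_dvd, ← h]; exact hru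
      have ha2 : 2 ≤ a := by
        by_contra hlt
        have : a = 1 := by omega
        rw [this, h, pow_one] at hmu
        obtain ⟨k, hk⟩ := hu
        omega
      have h4 : 4 ∣ r ^ a := by
        rw [h]; exact (pow_dvd_pow 2 ha2 : 2 ^ 2 ∣ 2 ^ a)
      refine ⟨hu, ?_, Or.inr h4⟩
      have := Nat.le_of_dvd (pow_pos hr.pos a) h4
      omega
    · have hro : Odd r := hr.odd_of_ne_two h
      have hmo : ¬ 2 ∣ m := by
        intro h2m
        have := Nat.minFac_le_of_dvd le_rfl h2m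
        have := hr.two_le
        omega
      refine ⟨?_, ?_, Or.inl hro.pow⟩
      · rw [← Nat.not_even_iff_odd, even_iff_two_dvd]
        intro h2u
        exact hmo (hm' ▸ Dvd.dvd.mul_right h2u _)
      · have := Nat.le_self_pow ha r
        have := hr.two_le
        omega
  obtain ⟨k1, k2, k3⟩ := key
  have := counter hc k1 hu1 k2 k3 (hm' ▸ h12) (hm' ▸ h24) (hm' ▸ h60)
  rwa [← hm'] at this

end Cfsg.Agent.FGS.HallNum
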