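import Mathlib
import Cfsg.Prelude.Def_OddOrderLocal
import Cfsg.Agent.FGS.Pairing
import Cfsg.Agent.Grp.Card

/-! Metacyclic `p`-groups for odd `p`: coordinates `c : G → (ZMod (p^n))²` (a crossed homomorphism
with kernel `Z(G)`, `p^n = |G'|`) under which commuting is the vanishing of the determinant. -/

set_option autoImplicit false

namespace Cfsg.Agent.FGS.MC

open Cfsg Subgroup
open scoped commutatorElement

/-! ### geometric sums -/

/-- `1 + K + ⋯ + K^(j-1)` for `K = 1 + t`. -/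
def phi (t j : ℕ) : ℕ := ∑ i ∈ Finset.range j, (1 + t) ^ i

theorem phi_zero (t : ℕ) : phi t 0 = 0 := by simp [phi]

theorem phi_succ (t j : ℕ) : phi t (j + 1) = phi t j + (1 + t) ^ j := Finset.sum_range_succ _ _

theorem one_add_pow (t j : ℕ) : (1 + t) ^ j = 1 + t * phi t j := by
  induction j with
  | zero => simp [phi_zero]
  | succ j ih => rw [phi_succ, pow_succ, ih]; ring

theorem phi_add (t j r : ℕ) : phi t (j + r) = phi t j + (1 + t) ^ j * phi t r := by
  induction r with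
  | zero => simp [phi_zero]
  | succ r ih => rw [← add_assoc, phi_succ, phi_succ, ih, pow_add]; ring

theorem phi_mul (t j r : ℕ) : phi t (j * r) = phi t j * phi (t * phi t j) r := by
  induction r with
  | zero => simp [phi_zero]
  | succ r ih => rw [Nat.mul_succ, add_comm (j * r), phi_add, phi_succ, ih, ← one_add_pow,
      ← pow_mul]
                 have := phi_add t j (j * r)
                 have h2 := phi_add t (j * r) j
                 rw [add_comm (j * r)] at h2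
                 rw [← ih, ← this, h2, mul_add, ← ih]; ring

theorem phi_eq (t j : ℕ) : ∃ c, phi t j = j + t * j.choose 2 + t ^ 2 * c := by
  have h : ∀ j, ∃ c, phi t j = j + t * c := by
    intro j
    induction j with
    | zero => exact ⟨0, by simp [phi_zero]⟩
    | succ j ih =>
      obtain ⟨c, hc⟩ := ih
      exact ⟨c + phi t j, by rw [phi_succ, one_add_pow, hc]; ring⟩
  induction j with
  | zero => exact ⟨0, by simp [phi_zero]⟩
  | succ j ih =>
    obtain ⟨c, hc⟩ := ih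
    obtain ⟨d, hd⟩ := h j
    refine ⟨c + d, ?_⟩
    rw [phi_succ, one_add_pow, Nat.choose_succ_succ' j 1, Nat.choose_one_right]
    nth_rewrite 2 [hd]
    rw [hc]; ring

variable {p : ℕ} [hp : Fact p.Prime]

theorem phi_prime_pow (hp2 : p ≠ 2) {t : ℕ} (ht : p ∣ t) (g : ℕ) :
    ∃ c, phi t (p ^ g) = p ^ g * (1 + t * c) := by
  induction g with
  | zero => exact ⟨0, by simp [phi]⟩
  | succ g ih =>
    obtain ⟨c, hc⟩ := ih
    obtain ⟨d, hd⟩ := phi_eq (t * phi t (p ^ g)) p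
    obtain ⟨e, he⟩ : p ∣ p.choose 2 := hp.out.dvd_choose_self (by norm_num)
      (lt_of_le_of_ne hp.out.two_le (Ne.symm hp2))
    obtain ⟨s, rfl⟩ := ht
    rw [pow_succ, phi_mul, hd, he]
    set u := phi (p * s) (p ^ g)
    refine ⟨c + (1 + p * s * c) * (u * e + s * u ^ 2 * d), ?_⟩
    nth_rewrite 1 [hc]
    ring

theorem phi_eq_mul_unit (hp2 : p ≠ 2) {t : ℕ} (ht : p ∣ t) (g : ℕ) {M : ℕ} (hM : ¬ p ∣ M) :
    ∃ u, ¬ p ∣ u ∧ phi t (p ^ g * M) = p ^ g * u := by
  obtain ⟨c, hc⟩ := phi_prime_pow hp2 ht g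
  obtain ⟨d, hd⟩ := phi_eq (t * phi t (p ^ g)) M
  refine ⟨(1 + t * c) * phi (t * phi t (p ^ g)) M, fun h => ?_, by
    rw [phi_mul]; nth_rewrite 1 [hc]; ring⟩
  rcases (Nat.Prime.dvd_mul hp.out).1 h with h | h
  · exact hp.out.one_lt.ne' (Nat.dvd_one.1 ((Nat.dvd_add_left (ht.mul_right c)).1 h))
  · apply hM
    rw [hd, add_assoc] at h
    refine (Nat.dvd_add_left ?_).1 h
    exact dvd_add ((ht.mul_right _).mul_right _) (((ht.mul_right _).pow two_ne_zero).mul_right _)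

theorem pow_dvd_phi_iff (hp2 : p ≠ 2) {t : ℕ} (ht : p ∣ t) (s N : ℕ) :
    p ^ s ∣ phi t N ↔ p ^ s ∣ N := by
  rcases Nat.eq_zero_or_pos N with rfl | hN
  · simp [phi_zero]
  obtain ⟨g, M, hM, rfl⟩ := Nat.exists_eq_pow_mul_and_not_dvd hN.ne' p hp.out.ne_one
  obtain ⟨u, hu, e⟩ := phi_eq_mul_unit hp2 ht g hM
  rw [e, (Nat.Coprime.pow_left s ((Nat.Prime.coprime_iff_not_dvd hp.out).2 hu)).dvd_mul_right,
    (Nat.Coprime.pow_left s ((Nat.Prime.coprime_iff_not_dvd hp.out).2 hM)).dvd_mul_right]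

theorem isUnit_one_add {t : ℕ} (ht : p ∣ t) (n : ℕ) : IsUnit ((1 + t : ℕ) : ZMod (p ^ n)) := by
  rw [ZMod.isUnit_iff_coprime]
  refine Nat.Coprime.pow_right n (Nat.Coprime.symm ((Nat.Prime.coprime_iff_not_dvd hp.out).2 ?_))
  exact fun h => hp.out.one_lt.ne' (Nat.dvd_one.1 ((Nat.dvd_add_left ht).1 h))

theorem phi_surjective (hp2 : p ≠ 2) {t : ℕ} (ht : p ∣ t) (n : ℕ) (x : ZMod (p ^ n)) :
    ∃ j : ℕ, (phi t j : ZMod (p ^ n)) = x := by
  haveI : NeZero (p ^ n) := ⟨pow_ne_zero _ hp.out.ne_zero⟩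
  have key : ∀ x y : ZMod (p ^ n), x.val ≤ y.val →
      (phi t x.val : ZMod (p ^ n)) = phi t y.val → x = y := by
    intro x y hle h
    obtain ⟨r, hr⟩ := Nat.exists_eq_add_of_le hle
    rw [hr, phi_add] at h
    push_cast at h
    have h2 : ((1 + t : ℕ) : ZMod (p ^ n)) ^ x.val * (phi t r : ZMod (p ^ n)) = 0 := by
      push_cast; exact left_eq_add.1 h
    rw [((isUnit_one_add ht n).pow _).mul_right_eq_zero, ZMod.natCast_eq_zero_iff,
      pow_dvd_phi_iff hp2 ht] at h2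
    have h3 := ZMod.val_lt y
    have : r = 0 := Nat.eq_zero_of_dvd_of_lt h2 (by omega)
    exact ZMod.val_injective _ (by omega)
  have hinj : Function.Injective fun x : ZMod (p ^ n) => (phi t x.val : ZMod (p ^ n)) := by
    intro x y h
    rcases le_total x.val y.val with h' | h'
    · exact key x y h' h
    · exact (key y x h' h.symm).symm
  obtain ⟨y, hy⟩ := Finite.injective_iff_surjective.1 hinj x
  exact ⟨_, hy⟩

/-! ### the determinant form on `(ZMod q)²` -/

/-- The orthogonal of a subgroup for the determinant form. -/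
def perp {q : ℕ} (W : AddSubgroup (ZMod q × ZMod q)) : AddSubgroup (ZMod q × ZMod q) where
  carrier := {v | ∀ w ∈ W, w.1 * v.2 = v.1 * w.2}
  zero_mem' := by intro w _; simp
  add_mem' := by
    intro a b ha hb w hw
    simp only [Prod.snd_add, Prod.fst_add, mul_add, add_mul, ha w hw, hb w hw]
  neg_mem' := by
    intro a ha w hw
    simp only [Prod.snd_neg, Prod.fst_neg, mul_neg, neg_mul, ha w hw]

theorem card_mul_card_perp {q : ℕ} [NeZero q] (W : AddSubgroup (ZMod q × ZMod q)) :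
    Nat.card W * Nat.card (perp W) = q ^ 2 := by
  let β : Multiplicative W →* Multiplicative (ZMod q × ZMod q) →* Multiplicative (ZMod q) :=
    MonoidHom.mk' (fun w => MonoidHom.mk' (fun v => Multiplicative.ofAdd
      ((w.toAdd : ZMod q × ZMod q).1 * v.toAdd.2 - v.toAdd.1 * (w.toAdd : ZMod q × ZMod q).2))
      (fun a b => by
        rw [← ofAdd_add]; congr 1
        simp only [toAdd_mul, Prod.snd_add, Prod.fst_add]; ring))
      (fun a b => MonoidHom.ext fun v => by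
        simp only [MonoidHom.mk'_apply, MonoidHom.mul_apply, ← ofAdd_add, toAdd_mul,
          AddSubgroup.coe_add, Prod.snd_add, Prod.fst_add]
        all_goals (congr 1; ring))
  have h := FGS.index_ker_eq_index_ker_flip β
  have h1 : β.ker = ⊥ := by
    rw [eq_bot_iff]
    intro w hw
    have e1 := DFunLike.congr_fun (MonoidHom.mem_ker.1 hw) (Multiplicative.ofAdd (0, 1))
    have e2 := DFunLike.congr_fun (MonoidHom.mem_ker.1 hw) (Multiplicative.ofAdd (1, 0))
    simp [β] at e1 e2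
    rw [mem_bot]
    exact Multiplicative.toAdd.injective (Subtype.ext (Prod.ext e1 e2))
  have h2 : β.flip.ker = (perp W).toSubgroup := by
    ext v
    rw [MonoidHom.mem_ker]
    constructor
    · intro hv w hw
      have := DFunLike.congr_fun hv (Multiplicative.ofAdd ⟨w, hw⟩)
      exact sub_eq_zero.1 (ofAdd_eq_one.1 this)
    · intro hv
      refine MonoidHom.ext fun w => ?_
      have := sub_eq_zero.2 (hv _ w.toAdd.2)
      exact congrArg Multiplicative.ofAdd this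
  rw [h1, h2, index_bot, AddSubgroup.index_toSubgroup] at h
  have h3 := (perp W).card_mul_index
  rw [← h, Nat.card_prod, Nat.card_zmod] at h3
  rw [mul_comm, sq, ← h3]
  rfl

theorem exists_eq_pow_smul_iff {n s : ℕ} (hs : s ≤ n) (x : ZMod (p ^ n)) :
    (∃ y, x = p ^ s • y) ↔ p ^ (n - s) • x = 0 := by
  haveI : NeZero (p ^ n) := ⟨pow_ne_zero _ hp.out.ne_zero⟩
  constructor
  · rintro ⟨y, rfl⟩
    rw [smul_smul, ← pow_add, Nat.sub_add_cancel hs, nsmul_eq_mul, ZMod.natCast_self, zero_mul]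
  · intro h
    rw [← ZMod.natCast_zmod_val x, nsmul_eq_mul, ← Nat.cast_mul, ZMod.natCast_eq_zero_iff] at h
    nth_rewrite 1 [← Nat.sub_add_cancel hs] at h
    rw [pow_add] at h
    obtain ⟨y, hy⟩ := Nat.dvd_of_mul_dvd_mul_left (pow_pos hp.out.pos _) h
    exact ⟨y, by rw [← ZMod.natCast_zmod_val x, hy, nsmul_eq_mul, Nat.cast_mul]⟩

theorem card_torsion {n i : ℕ} (hi : i ≤ n) :
    Nat.card {x : ZMod (p ^ n) × ZMod (p ^ n) // p ^ i • x = 0} = p ^ (2 * i) := by
  haveI : NeZero (p ^ n) := ⟨pow_ne_zero _ hp.out.ne_zero⟩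
  have h1 : Nat.card {x : ZMod (p ^ n) // p ^ i • x = 0} = p ^ i := by
    have := IsAddCyclic.card_nsmulAddMonoidHom_ker (ZMod (p ^ n)) (p ^ i)
    rw [Nat.card_zmod, Nat.gcd_eq_right (pow_dvd_pow p hi)] at this
    exact this
  rw [two_mul, pow_add]
  nth_rewrite 2 [← h1]
  nth_rewrite 3 [← h1]
  rw [← Nat.card_prod]
  refine Nat.card_congr ⟨fun x => (⟨x.1.1, congrArg Prod.fst x.2⟩, ⟨x.1.2, congrArg Prod.snd x.2⟩),
    fun x => ⟨(x.1.1, x.2.1), Prod.ext x.1.2 x.2.2⟩, fun _ => rfl, fun _ => rfl⟩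

/-! ### presentation data -/

/-- Generators and relation of a metacyclic `p`-group. -/
structure Data (p : ℕ) (G : Type*) [Group G] where
  /-- generator of the cyclic normal subgroup -/
  a : G
  /-- generator of the cyclic quotient -/
  b : G
  /-- `b a b⁻¹ = a ^ (1 + t)` -/
  t : ℕ
  /-- the derived subgroup has order `p ^ n` -/
  n : ℕ
  dvd : p ∣ t
  conj : b * a * b⁻¹ = a ^ (1 + t)
  gen : ∀ g : G, ∃ i j : ℕ, g = a ^ i * b ^ j
  ord : orderOf (a ^ t) = p ^ n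

variable {G : Type*} [Group G]

theorem conj_pow_of_conj {a b : G} {k : ℕ} (h : b * a * b⁻¹ = a ^ k) (j s : ℕ) :
    b ^ j * a ^ s = a ^ (s * k ^ j) * b ^ j := by
  induction j generalizing s with
  | zero => simp
  | succ j ih =>
    have : b * a ^ s = a ^ (s * k) * b := by
      rw [mul_comm s k, pow_mul, ← h, conj_pow]; simp
    rw [pow_succ, mul_assoc, this, ← mul_assoc, ih, mul_assoc, pow_succ', mul_assoc s]

theorem exists_data [Finite G] (hG : IsPGroup p G) (hmc : IsMetacyclic G) :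
    Nonempty (Data p G) := by
  obtain ⟨N, hN, h1, h2⟩ := hmc
  obtain ⟨a, ha⟩ := (Subgroup.isCyclic_iff_exists_zpowers_eq_top N).1 h1
  obtain ⟨β, hβ⟩ := h2.exists_monoid_generator
  obtain ⟨b, rfl⟩ := QuotientGroup.mk_surjective β
  have hgen : ∀ g : G, ∃ i j : ℕ, g = a ^ i * b ^ j := by
    intro g
    obtain ⟨j, hj⟩ := hβ (QuotientGroup.mk g)
    have h3 : g * (b ^ j)⁻¹ ∈ N := by
      rw [← QuotientGroup.eq_one_iff, QuotientGroup.mk_mul, QuotientGroup.mk_inv,
        QuotientGroup.mk_pow, ← hj]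
      simp
    rw [← ha, ← mem_powers_iff_mem_zpowers] at h3
    obtain ⟨i, hi⟩ := h3
    exact ⟨i, j, by simp only at hi; rw [hi]; simp⟩
  have hc : b * a * b⁻¹ ∈ N := hN.conj_mem _ (ha ▸ mem_zpowers a) b
  rw [← ha, ← mem_powers_iff_mem_zpowers] at hc
  obtain ⟨k, hk⟩ := hc
  simp only at hk
  by_cases ha1 : a = 1
  · exact ⟨⟨a, b, 0, 0, dvd_zero _, by simp [ha1], hgen, by simp⟩⟩
  obtain ⟨e, he⟩ := hG b
  obtain ⟨m, hm⟩ := IsPGroup.iff_orderOf.1 hG a
  have hm0 : m ≠ 0 := by rintro rfl; exact ha1 (by simpa using hm)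
  have h4 := conj_pow_of_conj hk.symm (p ^ e) 1
  rw [he, one_mul, mul_one, one_mul, pow_eq_pow_iff_modEq, hm] at h4
  have h5 : (k : ZMod p) = 1 := by
    have := (ZMod.natCast_eq_natCast_iff _ _ _).2 (h4.of_dvd (dvd_pow_self p hm0))
    push_cast at this
    rw [ZMod.pow_card_pow] at this
    exact this.symm
  have hk0 : k ≠ 0 := by rintro rfl; simp at h5
  obtain ⟨t, rfl⟩ : ∃ t, k = 1 + t := ⟨k - 1, by omega⟩
  obtain ⟨n, hn⟩ := IsPGroup.iff_orderOf.1 hG (a ^ t)
  refine ⟨⟨a, b, t, n, ?_, hk.symm, hgen, hn⟩⟩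
  rw [← ZMod.natCast_eq_zero_iff]
  push_cast at h5
  exact add_eq_left.1 h5

namespace Data

variable (D : Data p G)

instance neZero : NeZero (p ^ D.n) := ⟨pow_ne_zero _ hp.out.ne_zero⟩

theorem mul_eq (i j s r : ℕ) : D.a ^ i * D.b ^ j * (D.a ^ s * D.b ^ r) =
    D.a ^ (i + s * (1 + D.t) ^ j) * D.b ^ (j + r) := by
  rw [mul_assoc, ← mul_assoc (D.b ^ j), conj_pow_of_conj D.conj, pow_add, pow_add]
  simp only [mul_assoc]

theorem d_pow_eq_iff (x y : ℕ) :
    (D.a ^ D.t) ^ x = (D.a ^ D.t) ^ y ↔ (x : ZMod (p ^ D.n)) = y := by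
  rw [pow_eq_pow_iff_modEq, D.ord, ZMod.natCast_eq_natCast_iff]

theorem comm_iff_aux (i j s r : ℕ) :
    D.a ^ i * D.b ^ j * (D.a ^ s * D.b ^ r) = D.a ^ s * D.b ^ r * (D.a ^ i * D.b ^ j) ↔
      (i : ZMod (p ^ D.n)) * phi D.t r = s * phi D.t j := by
  rw [mul_eq, mul_eq, add_comm r j, mul_left_inj, one_add_pow, one_add_pow,
    show i + s * (1 + D.t * phi D.t j) = (i + s) + D.t * (s * phi D.t j) by ring,
    show s + i * (1 + D.t * phi D.t r) = (i + s) + D.t * (i * phi D.t r) by ring,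
    pow_add _ (i + s), pow_add _ (i + s), mul_right_inj, pow_mul D.a D.t, pow_mul D.a D.t,
    d_pow_eq_iff]
  push_cast
  exact eq_comm

/-- The coordinates of an element. -/
noncomputable def c (g : G) : ZMod (p ^ D.n) × ZMod (p ^ D.n) :=
  ((D.gen g).choose, phi D.t (D.gen g).choose_spec.choose)

theorem c_eq (i j : ℕ) : D.c (D.a ^ i * D.b ^ j) = ((i : ZMod (p ^ D.n)), (phi D.t j : ZMod _)) := by
  unfold c
  have h := (D.gen (D.a ^ i * D.b ^ j)).choose_spec.choose_spec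
  set i' := (D.gen (D.a ^ i * D.b ^ j)).choose
  set j' := (D.gen (D.a ^ i * D.b ^ j)).choose_spec.choose
  have e1 : ∀ i j : ℕ, D.a ^ i * D.b ^ j * D.a * (D.a ^ i * D.b ^ j)⁻¹ =
      D.a * (D.a ^ D.t) ^ phi D.t j := by
    intro i j
    have := conj_pow_of_conj D.conj j 1
    rw [pow_one, one_mul, one_add_pow, pow_add, pow_one, pow_mul] at this
    rw [mul_assoc (D.a ^ i), this, ← pow_mul, ← pow_succ']
    group
  have e2 : ∀ i j : ℕ, D.b * (D.a ^ i * D.b ^ j) * D.b⁻¹ * (D.a ^ i * D.b ^ j)⁻¹ =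
      (D.a ^ D.t) ^ i := by
    intro i j
    have := conj_pow_of_conj D.conj 1 i
    rw [pow_one, pow_one] at this
    rw [← mul_assoc, this, ← pow_mul, mul_add, mul_one, mul_comm i, add_comm i, pow_add]
    group
  refine Prod.ext ?_ ?_
  · apply (D.d_pow_eq_iff _ _).1
    rw [← e2 i' j', ← h, e2]
  · apply (D.d_pow_eq_iff _ _).1
    apply mul_left_cancel (a := D.a)
    rw [← e1 i' j', ← h, e1]

theorem comm_iff (g h : G) : g * h = h * g ↔ (D.c g).1 * (D.c h).2 = (D.c h).1 * (D.c g).2 := by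
  obtain ⟨i, j, rfl⟩ := D.gen g
  obtain ⟨s, r, rfl⟩ := D.gen h
  rw [comm_iff_aux, c_eq, c_eq]

theorem c_mul (g h : G) : D.c (g * h) = D.c g + (1 + D.t * (D.c g).2) • D.c h := by
  obtain ⟨i, j, rfl⟩ := D.gen g
  obtain ⟨s, r, rfl⟩ := D.gen h
  rw [mul_eq, c_eq, c_eq, c_eq, phi_add, one_add_pow]
  refine Prod.ext ?_ ?_
  · simp only [Prod.fst_add, Prod.smul_fst, smul_eq_mul]; push_cast; ring
  · simp only [Prod.snd_add, Prod.smul_snd, smul_eq_mul]; push_cast; ring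

theorem c_one : D.c 1 = 0 := by
  have := D.c_eq 0 0
  simp only [pow_zero, mul_one, phi_zero, Nat.cast_zero] at this
  exact this

theorem chi_eq (g : G) : (1 + D.t * (D.c g).2 : ZMod (p ^ D.n)) =
    ((1 + D.t * (D.c g).2.val : ℕ) : ZMod (p ^ D.n)) := by
  push_cast; rw [ZMod.natCast_zmod_val]

theorem isUnit_chi (g : G) : IsUnit (1 + D.t * (D.c g).2 : ZMod (p ^ D.n)) := by
  rw [chi_eq]; exact isUnit_one_add (D.dvd.mul_right _) _

theorem c_pow (g : G) (m : ℕ) :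
    D.c (g ^ m) = (phi (D.t * (D.c g).2.val) m : ZMod (p ^ D.n)) • D.c g := by
  induction m with
  | zero => simp [phi_zero, c_one]
  | succ m ih =>
    rw [pow_succ', c_mul, ih, add_comm m 1, phi_add, chi_eq, smul_smul, pow_one]
    push_cast
    rw [add_smul]
    simp [phi]

theorem c_surjective (hp2 : p ≠ 2) : Function.Surjective D.c := by
  rintro ⟨x, y⟩
  obtain ⟨j, rfl⟩ := phi_surjective hp2 D.dvd D.n y
  exact ⟨D.a ^ x.val * D.b ^ j, by rw [c_eq, ZMod.natCast_zmod_val]⟩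

theorem mem_center_iff' (hp2 : p ≠ 2) {g : G} : g ∈ center G ↔ D.c g = 0 := by
  rw [mem_center_iff]
  constructor
  · intro h
    obtain ⟨x, hx⟩ := D.c_surjective hp2 (1, 0)
    obtain ⟨y, hy⟩ := D.c_surjective hp2 (0, 1)
    have e1 := (D.comm_iff _ _).1 (h x)
    have e2 := (D.comm_iff _ _).1 (h y)
    rw [hx] at e1
    rw [hy] at e2
    exact Prod.ext (by simpa using e2.symm) (by simpa using e1)
  · intro h x
    rw [D.comm_iff, h]; simp

theorem c_eq_iff (hp2 : p ≠ 2) {g h : G} : D.c g = D.c h ↔ g⁻¹ * h ∈ center G := by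
  have := D.c_mul g (g⁻¹ * h)
  rw [mul_inv_cancel_left] at this
  rw [D.mem_center_iff' hp2, this, left_eq_add, (D.isUnit_chi g).smul_eq_zero]

theorem smul_mem (W : AddSubgroup (ZMod (p ^ D.n) × ZMod (p ^ D.n))) (x : ZMod (p ^ D.n))
    {v : ZMod (p ^ D.n) × ZMod (p ^ D.n)} (hv : v ∈ W) : x • v ∈ W := by
  rw [← ZMod.natCast_zmod_val x, Nat.cast_smul_eq_nsmul]
  exact nsmul_mem hv _

/-- The preimage of an additive subgroup under the coordinate map. -/
def pre (W : AddSubgroup (ZMod (p ^ D.n) × ZMod (p ^ D.n))) : Subgroup G where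
  carrier := {g | D.c g ∈ W}
  one_mem' := by show D.c 1 ∈ W; rw [c_one]; exact zero_mem _
  mul_mem' := by
    intro g h hg hh
    show D.c (g * h) ∈ W
    rw [c_mul]; exact add_mem hg (D.smul_mem W _ hh)
  inv_mem' := by
    intro g hg
    show D.c g⁻¹ ∈ W
    have := D.c_mul g g⁻¹
    rw [mul_inv_cancel, c_one] at this
    obtain ⟨u, hu⟩ := D.isUnit_chi g
    have h2 : D.c g⁻¹ = (↑u⁻¹ : ZMod (p ^ D.n)) • (-D.c g) := by
      rw [neg_eq_of_add_eq_zero_right this.symm, ← hu, smul_smul]; simp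
    rw [h2]; exact D.smul_mem W _ (neg_mem hg)

theorem mem_pre {W : AddSubgroup (ZMod (p ^ D.n) × ZMod (p ^ D.n))} {g : G} :
    g ∈ D.pre W ↔ D.c g ∈ W := Iff.rfl

theorem exists_c_pow (hp2 : p ≠ 2) (g : G) (x : ZMod (p ^ D.n)) :
    ∃ m : ℕ, D.c (g ^ m) = x • D.c g := by
  obtain ⟨m, rfl⟩ := phi_surjective hp2 (D.dvd.mul_right (D.c g).2.val) D.n x
  exact ⟨m, D.c_pow g m⟩

/-- The image of a subgroup under the coordinate map. -/
def img (hp2 : p ≠ 2) (H : Subgroup G) : AddSubgroup (ZMod (p ^ D.n) × ZMod (p ^ D.n)) where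
  carrier := {v | ∃ h ∈ H, D.c h = v}
  zero_mem' := ⟨1, one_mem _, D.c_one⟩
  add_mem' := by
    rintro _ _ ⟨g, hg, rfl⟩ ⟨h, hh, rfl⟩
    obtain ⟨u, hu⟩ := D.isUnit_chi g
    obtain ⟨m, hm⟩ := D.exists_c_pow hp2 h (↑u⁻¹ : ZMod (p ^ D.n))
    exact ⟨g * h ^ m, mul_mem hg (pow_mem hh m), by rw [c_mul, hm, ← hu, smul_smul]; simp⟩
  neg_mem' := by
    rintro _ ⟨g, hg, rfl⟩
    obtain ⟨m, hm⟩ := D.exists_c_pow hp2 g (-1)
    exact ⟨g ^ m, pow_mem hg m, by rw [hm]; simp⟩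

theorem pre_img (hp2 : p ≠ 2) (H : Subgroup G) : D.pre (D.img hp2 H) = H ⊔ center G := by
  ext g
  rw [mem_sup_of_normal_right]
  constructor
  · rintro ⟨h, hh, e⟩
    exact ⟨h, hh, h⁻¹ * g, (D.c_eq_iff hp2).1 e, by simp⟩
  · rintro ⟨h, hh, z, hz, rfl⟩
    exact ⟨h, hh, (D.c_eq_iff hp2).2 (by simpa using hz)⟩

theorem centralizer_eq (hp2 : p ≠ 2) (H : Subgroup G) :
    centralizer (H : Set G) = D.pre (perp (D.img hp2 H)) := by
  ext g
  constructor
  · rintro hg _ ⟨h, hh, rfl⟩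
    exact (D.comm_iff _ _).1 (hg h hh)
  · intro hg h hh
    exact (D.comm_iff _ _).2 (hg _ ⟨h, hh, rfl⟩)

theorem card_c_mem (hp2 : p ≠ 2) (S : Set (ZMod (p ^ D.n) × ZMod (p ^ D.n))) :
    Nat.card {g : G // D.c g ∈ S} = Nat.card S * Nat.card (center G) := by
  choose s hs using D.c_surjective hp2
  rw [← Nat.card_prod]
  symm
  have key : ∀ v (z : center G), D.c (s v * z) = v := fun v z => by
    rw [← (D.c_eq_iff hp2).2 (show (s v)⁻¹ * (s v * z) ∈ center G by simp), hs]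
  refine Nat.card_eq_of_bijective (fun x => ⟨s x.1 * x.2, by rw [key]; exact x.1.2⟩) ⟨?_, ?_⟩
  · rintro ⟨v, z⟩ ⟨w, y⟩ e
    have e1 : s v * z = s w * y := congrArg Subtype.val e
    have e2 : v = w := Subtype.ext (by rw [← key v z, e1, key])
    subst e2
    exact Prod.ext rfl (Subtype.ext (mul_left_cancel e1))
  · rintro ⟨g, hg⟩
    exact ⟨(⟨_, hg⟩, ⟨(s (D.c g))⁻¹ * g, (D.c_eq_iff hp2).1 (hs _)⟩), Subtype.ext (by simp)⟩

theorem card_pre (hp2 : p ≠ 2) (W : AddSubgroup (ZMod (p ^ D.n) × ZMod (p ^ D.n))) :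
    Nat.card (D.pre W) = Nat.card W * Nat.card (center G) := D.card_c_mem hp2 W

theorem card_eq (hp2 : p ≠ 2) : Nat.card G = p ^ (2 * D.n) * Nat.card (center G) := by
  have := D.card_c_mem hp2 Set.univ
  rw [Nat.card_univ, Nat.card_prod, Nat.card_zmod, ← pow_add, ← two_mul] at this
  rw [← this]
  simp

include D in
theorem card_sup_mul_card_centralizer (hp2 : p ≠ 2) (H : Subgroup G) :
    Nat.card (H ⊔ center G : Subgroup G) * Nat.card (centralizer (H : Set G)) =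
      Nat.card G * Nat.card (center G) := by
  rw [← D.pre_img hp2, D.centralizer_eq hp2, card_pre _ hp2, card_pre _ hp2, D.card_eq hp2,
    mul_comm 2, pow_mul, ← card_mul_card_perp (D.img hp2 H)]
  ring

theorem commutator_eq : commutator G = zpowers (D.a ^ D.t) := by
  apply le_antisymm
  · rw [commutator_def, commutator_le]
    intro g _ h _
    obtain ⟨i, j, rfl⟩ := D.gen g
    obtain ⟨s, r, rfl⟩ := D.gen h
    rw [commutatorElement_def, mul_assoc, ← mul_inv_rev, mul_eq, mul_eq, add_comm r j,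
      one_add_pow, one_add_pow,
      show i + s * (1 + D.t * phi D.t j) = D.t * (s * phi D.t j) + (i + s) by ring,
      show s + i * (1 + D.t * phi D.t r) = D.t * (i * phi D.t r) + (i + s) by ring,
      pow_add _ _ (i + s), pow_add _ _ (i + s), pow_mul D.a D.t, pow_mul D.a D.t]
    simp only [mul_inv_rev, mul_assoc, mul_inv_cancel_left]
    exact mul_mem (pow_mem (mem_zpowers _) _) (inv_mem (pow_mem (mem_zpowers _) _))
  · rw [zpowers_le]
    have : D.a ^ D.t = ⁅D.b, D.a⁆ := by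
      rw [commutatorElement_def, D.conj, add_comm, pow_succ]; simp
    rw [this]
    exact commutator_mem_commutator (mem_top _) (mem_top _)

theorem card_commutator : Nat.card (commutator G) = p ^ D.n := by
  rw [D.commutator_eq, Nat.card_zpowers, D.ord]

theorem index_centralizer [Finite G] (hp2 : p ≠ 2) (g : G) :
    (centralizer ({g} : Set G)).index = addOrderOf (D.c g) := by
  have h1 := D.card_sup_mul_card_centralizer hp2 (zpowers g)
  have h2 : D.img hp2 (zpowers g) = AddSubgroup.zmultiples (D.c g) := by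
    apply le_antisymm
    · rintro _ ⟨h, hh, rfl⟩
      rw [← mem_powers_iff_mem_zpowers] at hh
      obtain ⟨m, rfl⟩ := hh
      simp only
      rw [c_pow]
      exact D.smul_mem _ _ (AddSubgroup.mem_zmultiples _)
    · rw [AddSubgroup.zmultiples_le]
      exact ⟨g, mem_zpowers g, rfl⟩
  rw [← D.pre_img hp2, card_pre _ hp2, h2, Nat.card_zmultiples, zpowers_eq_closure,
    centralizer_closure, ← (centralizer ({g} : Set G)).card_mul_index] at h1
  apply Nat.eq_of_mul_eq_mul_left (Nat.card_pos (α := centralizer ({g} : Set G)))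
  apply Nat.eq_of_mul_eq_mul_left (Nat.card_pos (α := center G))
  linarith

theorem mem_agemo_iff (hp2 : p ≠ 2) {s : ℕ} (hs : s ≤ D.n) (g : G) :
    g ∈ closure {x : G | ∃ y : G, y ^ p ^ s = x} ↔ p ^ (D.n - s) • D.c g = 0 := by
  constructor
  · intro hg
    have : closure {x : G | ∃ y : G, y ^ p ^ s = x} ≤
        D.pre (nsmulAddMonoidHom (p ^ (D.n - s))).ker := by
      rw [closure_le]
      rintro _ ⟨y, rfl⟩
      show p ^ (D.n - s) • D.c (y ^ p ^ s) = 0
      obtain ⟨u, hu⟩ := phi_prime_pow hp2 (D.dvd.mul_right (D.c y).2.val) s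
      rw [c_pow, hu, ← Nat.cast_smul_eq_nsmul (ZMod (p ^ D.n)), smul_smul, ← Nat.cast_mul,
        ← mul_assoc, ← pow_add, Nat.sub_add_cancel hs, Nat.cast_mul, ZMod.natCast_self]
      simp
    exact this hg
  · intro hg
    obtain ⟨i, j, rfl⟩ := D.gen g
    rw [c_eq] at hg
    have key : ∀ x : ℕ, p ^ (D.n - s) • (x : ZMod (p ^ D.n)) = 0 → p ^ s ∣ x := by
      intro x h
      rw [nsmul_eq_mul, ← Nat.cast_mul, ZMod.natCast_eq_zero_iff] at h
      nth_rewrite 1 [← Nat.sub_add_cancel hs] at h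
      rw [pow_add] at h
      exact Nat.dvd_of_mul_dvd_mul_left (pow_pos hp.out.pos _) h
    obtain ⟨i, rfl⟩ := key i (congrArg Prod.fst hg)
    obtain ⟨j, rfl⟩ := (pow_dvd_phi_iff hp2 D.dvd _ _).1 (key _ (congrArg Prod.snd hg))
    rw [pow_mul, pow_mul]
    refine mul_mem (pow_mem (Subgroup.subset_closure ?_) _) (pow_mem (Subgroup.subset_closure ?_) _)
    exacts [⟨_, rfl⟩, ⟨_, rfl⟩]

theorem exists_addOrderOf (v : ZMod (p ^ D.n) × ZMod (p ^ D.n)) :
    ∃ k ≤ D.n, addOrderOf v = p ^ k := by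
  refine (Nat.dvd_prime_pow hp.out).1 (addOrderOf_dvd_of_nsmul_eq_zero ?_)
  rw [← Nat.cast_smul_eq_nsmul (ZMod (p ^ D.n)), ZMod.natCast_self, zero_smul]

theorem nsmul_eq_zero_iff (v : ZMod (p ^ D.n) × ZMod (p ^ D.n)) (k : ℕ) :
    p ^ k • v = 0 ↔ addOrderOf v ≤ p ^ k := by
  rw [← addOrderOf_dvd_iff_nsmul_eq_zero]
  obtain ⟨j, -, hj⟩ := D.exists_addOrderOf v
  rw [hj, Nat.pow_dvd_pow_iff_le_right hp.out.one_lt, Nat.pow_le_pow_iff_right hp.out.one_lt]

end Data

end Cfsg.Agent.FGS.MC
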