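import Mathlib
import Cfsg.Agent.FGS.Metacyclic
import Cfsg.Agent.Grp.CardProduct
import Cfsg.Agent.Grp.PFrattini

/-! Metacyclic `p`-groups for odd `p`, second part: `|L| |Z(L)| = |G : G'|²` for every
non-abelian subgroup `L`, abelian and maximal abelian subgroups. -/

set_option autoImplicit false

namespace Cfsg.Agent.FGS.MC

open Cfsg Subgroup

variable {G : Type*} [Group G] {p : ℕ} [hp : Fact p.Prime]

theorem isMetacyclic_subgroup (hmc : IsMetacyclic G) (K : Subgroup G) : IsMetacyclic K := by
  obtain ⟨N, hN, h1, h2⟩ := hmc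
  let f : K →* G ⧸ N := (QuotientGroup.mk' N).comp K.subtype
  refine ⟨f.ker, inferInstance, ?_,
    isCyclic_of_injective (QuotientGroup.kerLift f) (QuotientGroup.kerLift_injective f)⟩
  refine isCyclic_of_injective ((K.subtype.comp f.ker.subtype).codRestrict N
    (fun x => (QuotientGroup.eq_one_iff _).1 x.2)) ?_
  intro x y h
  have h' := congrArg (fun z : N => (z : G)) h
  exact Subtype.ext (Subtype.ext h')

theorem Data.n_ne_zero (D : Data p G) (hp2 : p ≠ 2) (hna : ¬ IsMulCommutative G) : D.n ≠ 0 := by
  intro h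
  apply hna
  refine ⟨⟨fun x y => (D.comm_iff x y).2 ?_⟩⟩
  haveI : Subsingleton (ZMod (p ^ D.n)) := by rw [h, pow_zero]; infer_instance
  exact Subsingleton.elim _ _

theorem Data.agemo_eq_center (D : Data p G) (hp2 : p ≠ 2) :
    closure {x : G | ∃ y : G, y ^ p ^ D.n = x} = center G := by
  ext g
  rw [D.mem_agemo_iff hp2 le_rfl, D.mem_center_iff' hp2, Nat.sub_self, pow_zero, one_smul]

variable [Finite G]

theorem index_center (hp2 : p ≠ 2) (hG : IsPGroup p G) (hmc : IsMetacyclic G) :
    (center G).index = Nat.card (commutator G) ^ 2 := by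
  obtain ⟨D⟩ := exists_data hG hmc
  have h := D.card_eq hp2
  rw [← (center G).index_mul_card] at h
  rw [D.card_commutator, ← pow_mul, mul_comm]
  exact Nat.eq_of_mul_eq_mul_right Nat.card_pos h

theorem card_mul_card_center (hp2 : p ≠ 2) (hG : IsPGroup p G) (hmc : IsMetacyclic G) :
    Nat.card G * Nat.card (center G) = (commutator G).index ^ 2 := by
  have h1 := index_center hp2 hG hmc
  have h2 := (center G).index_mul_card
  have h3 := (commutator G).index_mul_card
  rw [h1] at h2
  apply Nat.eq_of_mul_eq_mul_left (pow_pos (Nat.card_pos (α := commutator G)) 2)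
  rw [← mul_pow, mul_comm _ (commutator G).index, h3, mul_left_comm, h2, sq]

theorem card_sup_mul (hp2 : p ≠ 2) (hG : IsPGroup p G) (hmc : IsMetacyclic G) (H : Subgroup G) :
    Nat.card (H ⊔ center G : Subgroup G) * Nat.card (centralizer (H : Set G)) =
      Nat.card G * Nat.card (center G) := by
  obtain ⟨D⟩ := exists_data hG hmc
  exact D.card_sup_mul_card_centralizer hp2 H

theorem center_le_frattini (hp2 : p ≠ 2) (hG : IsPGroup p G) (hmc : IsMetacyclic G)
    (hna : ¬ IsMulCommutative G) : center G ≤ frattini G := by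
  obtain ⟨D⟩ := exists_data hG hmc
  rw [← D.agemo_eq_center hp2, closure_le]
  rintro _ ⟨y, rfl⟩
  obtain ⟨m, hm⟩ := Nat.exists_eq_succ_of_ne_zero (D.n_ne_zero hp2 hna)
  rw [hm, pow_succ, pow_mul]
  exact Grp.PFrattini.pow_mem_frattini hG _

theorem centralizer_le_of_isCoatom (hp2 : p ≠ 2) (hG : IsPGroup p G) (hmc : IsMetacyclic G)
    {M : Subgroup G} (hM : IsCoatom M) (hna : ¬ IsMulCommutative M) :
    center G ≤ M ∧ centralizer (M : Set G) ≤ M := by
  have hna' : ¬ IsMulCommutative G := fun h => hna inferInstance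
  have hZ : center G ≤ M := (center_le_frattini hp2 hG hmc hna').trans (frattini_le_coatom hM)
  refine ⟨hZ, ?_⟩
  intro x hx
  by_contra hxM
  have hsup : M ⊔ zpowers x = ⊤ := hM.2 _ (lt_of_le_of_ne le_sup_left fun h =>
    hxM (h ▸ (le_sup_right : zpowers x ≤ M ⊔ zpowers x) (mem_zpowers x)))
  apply hxM
  apply hZ
  have : (⊤ : Subgroup G) ≤ centralizer {x} := by
    rw [← hsup, sup_le_iff, zpowers_le]
    exact ⟨fun m hm => mem_centralizer_singleton_iff.2 (hx m hm), mem_centralizer_singleton_iff.2 rfl⟩
  exact mem_center_iff.2 fun g => mem_centralizer_singleton_iff.1 (this (mem_top g))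

theorem card_mul_card_center_of_isCoatom (hp2 : p ≠ 2) (hG : IsPGroup p G) (hmc : IsMetacyclic G)
    {M : Subgroup G} (hM : IsCoatom M) (hna : ¬ IsMulCommutative M) :
    Nat.card M * Nat.card (center M) = Nat.card G * Nat.card (center G) := by
  obtain ⟨h1, h2⟩ := centralizer_le_of_isCoatom hp2 hG hmc hM hna
  rw [← card_sup_mul hp2 hG hmc M, sup_eq_left.2 h1, Grp.card_center_eq, inf_eq_right.2 h2]

theorem card_mul_card_center_of_not_comm (hp2 : p ≠ 2) (hG : IsPGroup p G) (hmc : IsMetacyclic G)
    (L : Subgroup G) (hna : ¬ IsMulCommutative L) :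
    Nat.card L * Nat.card (center L) = Nat.card G * Nat.card (center G) := by
  induction L using WellFoundedGT.induction with
  | ind L ih =>
    by_cases hL : L = ⊤
    · subst hL
      rw [Grp.card_center_eq, top_inf_eq, card_top, coe_top, centralizer_univ]
    obtain ⟨K, hK, -⟩ := exists_covBy_le_of_lt (lt_top_iff_ne_top.2 hL)
    have e := subgroupOfEquivOfLe hK.le
    have hna2 : ¬ IsMulCommutative (L.subgroupOf K) := fun h =>
      hna ⟨⟨fun x y => e.symm.injective (by rw [map_mul, map_mul, mul_comm'])⟩⟩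
    have hco : IsCoatom (L.subgroupOf K) := by
      refine ⟨fun h => hK.lt.not_ge (subgroupOf_eq_top.1 h), fun T hT => ?_⟩
      have h1 : L < T.map K.subtype := by
        rw [← map_subtype_lt_map_subtype, subgroupOf_map_subtype, inf_eq_left.2 hK.le] at hT
        exact hT
      have h2 := (hK.eq_or_eq h1.le (map_subtype_le T)).resolve_left h1.ne'
      apply map_injective K.subtype_injective
      rw [h2, ← MonoidHom.range_eq_map, range_subtype]
    rw [← ih K hK.lt (fun h => hna (by
      haveI := h
      exact ⟨⟨fun x y => Subtype.ext (setLike_mul_comm (hK.le x.2) (hK.le y.2))⟩⟩)),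
      ← card_mul_card_center_of_isCoatom hp2 (hG.to_subgroup K) (isMetacyclic_subgroup hmc K)
      hco hna2, Nat.card_congr e.toEquiv, Nat.card_congr (centerCongr e).toEquiv]

theorem sq_card_le_of_comm (hp2 : p ≠ 2) (hG : IsPGroup p G) (hmc : IsMetacyclic G)
    (L : Subgroup G) (h : IsMulCommutative L) : Nat.card L ≤ (commutator G).index := by
  have h1 := card_sup_mul hp2 hG hmc L
  rw [card_mul_card_center hp2 hG hmc] at h1
  have h2 : Nat.card L ≤ Nat.card (L ⊔ center G : Subgroup G) := card_le_of_le le_sup_left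
  have h3 : Nat.card L ≤ Nat.card (centralizer (L : Set G)) := card_le_of_le (le_centralizer L)
  rw [← Nat.pow_le_pow_iff_left two_ne_zero, ← h1, sq]
  exact Nat.mul_le_mul h2 h3

theorem comm_iff_card_le (hp2 : p ≠ 2) (hG : IsPGroup p G) (hmc : IsMetacyclic G)
    (L : Subgroup G) : IsMulCommutative L ↔ Nat.card L ≤ (commutator G).index := by
  refine ⟨sq_card_le_of_comm hp2 hG hmc L, fun h => ?_⟩
  by_contra hna
  have h1 := card_mul_card_center_of_not_comm hp2 hG hmc L hna
  rw [card_mul_card_center hp2 hG hmc] at h1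
  have h2 : Nat.card (center L) < Nat.card L := by
    rw [← card_top (G := L)]
    refine Grp.card_lt_card_of_lt (lt_top_iff_ne_top.2 fun h => hna ⟨⟨fun x y => ?_⟩⟩)
    exact mem_center_iff.1 (h ▸ mem_top y) x
  have h3 : 0 < Nat.card L := Nat.card_pos
  nlinarith

theorem maximal_comm_iff (hp2 : p ≠ 2) (hG : IsPGroup p G) (hmc : IsMetacyclic G)
    (L : Subgroup G) : Maximal (fun K : Subgroup G => IsMulCommutative K) L ↔
      Nat.card L = (commutator G).index := by
  constructor
  · intro h
    haveI := h.1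
    have key : ∀ x ∈ centralizer (L : Set G), x ∈ L := by
      intro x hx
      have h1 : IsMulCommutative (closure (insert x (L : Set G))) := by
        refine ⟨⟨fun a b => ?_⟩⟩
        letI := closureCommGroupOfComm (k := insert x (L : Set G)) (by
          rintro u (rfl | hu) v (rfl | hv)
          · rfl
          · exact (hx v hv).symm
          · exact hx u hu
          · exact setLike_mul_comm hu hv)
        exact mul_comm a b
      exact h.2 h1 (fun y hy => Subgroup.subset_closure (Or.inr hy))
        (Subgroup.subset_closure (Or.inl rfl))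
    have h1 := card_sup_mul hp2 hG hmc L
    rw [card_mul_card_center hp2 hG hmc, le_antisymm key (le_centralizer L),
      sup_eq_left.2 fun x hx => key x (center_le_centralizer _ hx), ← sq] at h1
    exact Nat.pow_left_injective two_ne_zero h1
  · intro h
    refine ⟨(comm_iff_card_le hp2 hG hmc L).2 h.le, fun K hK hle => ?_⟩
    exact (eq_of_le_of_card_ge hle (h ▸ sq_card_le_of_comm hp2 hG hmc K hK)).ge

end Cfsg.Agent.FGS.MC
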