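import Mathlib
import Cfsg.Agent.FGS.ClassSize
import Cfsg.Agent.Grp.NormalRankOne
import Cfsg.Agent.Grp.CyclicIndexP
import Cfsg.Agent.Misc.Four
import Cfsg.Agent.PLocal.Amb
import Cfsg.Agent.S0111
import Cfsg.Agent.S0205

/-! A perfect group acting coprimely on a finite vector space with all orbits of `p`-power length
acts trivially. -/

set_option autoImplicit false

namespace Cfsg.Agent.FGS.PPO

open Polynomial Subgroup

section Lin

variable {q : ℕ} [hq : Fact q.Prime] {V : Type*} [AddCommGroup V] [Module (ZMod q) V]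

theorem semiconj_aeval {φ φ' ψ : Module.End (ZMod q) V} (h : ψ * φ = φ' * ψ) (f : (ZMod q)[X]) :
    ψ * aeval φ f = aeval φ' f * ψ := by
  induction f using Polynomial.induction_on' with
  | add f g hf hg => simp only [map_add, mul_add, add_mul, hf, hg]
  | monomial n a =>
    have : ψ * φ ^ n = φ' ^ n * ψ := (SemiconjBy.pow_right h n)
    simp only [aeval_monomial, Algebra.algebraMap_eq_smul_one, smul_mul_assoc, one_mul,
      mul_smul_comm, this]

/-- An irreducible element of order `2 ^ (m + 1) ≥ 4` conjugate to its inverse lives in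
dimension at most two. -/
theorem finrank_le_two [Finite V] [Nontrivial V] (hq2 : q ≠ 2) {φ ψ : Module.End (ZMod q) V}
    {m : ℕ} (hm : 1 ≤ m) (hφ : orderOf φ = 2 ^ (m + 1)) (hψ : Function.Injective ψ)
    (h : ψ * φ = φ ^ (2 ^ (m + 1) - 1) * ψ)
    (hirr : ∀ U : Submodule (ZMod q) V, (∀ u ∈ U, φ u ∈ U) → U = ⊥ ∨ U = ⊤) :
    Module.finrank (ZMod q) V ≤ 2 := by
  have : Nontrivial (Module.AEval' φ) := (Module.AEval'.of φ).symm.toEquiv.nontrivial
  have : IsSimpleModule (ZMod q)[X] (Module.AEval' φ) := by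
    rw [isSimpleModule_iff]
    refine ⟨fun W => ?_⟩
    rcases hirr ((W.restrictScalars (ZMod q)).comap (Module.AEval'.of φ).toLinearMap)
      (fun u hu => by
        have := W.smul_mem X (show Module.AEval'.of φ u ∈ W from hu)
        rwa [Module.AEval'.X_smul_of] at this) with h | h
    · refine Or.inl (eq_bot_iff.2 fun w hw => ?_)
      obtain ⟨m, rfl⟩ := (Module.AEval'.of φ).surjective w
      have : m ∈ (⊥ : Submodule (ZMod q) V) := h ▸ hw
      rw [(Submodule.mem_bot _).1 this, map_zero]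
      exact zero_mem _
    · refine Or.inr (eq_top_iff.2 fun w _ => ?_)
      obtain ⟨m, rfl⟩ := (Module.AEval'.of φ).surjective w
      exact (h ▸ Submodule.mem_top :
        m ∈ (W.restrictScalars (ZMod q)).comap (Module.AEval'.of φ).toLinearMap)
  obtain ⟨I, hI, ⟨e⟩⟩ := isSimpleModule_iff_quot_maximal.1 this
  let _ := Ideal.Quotient.field I
  have hc : Nat.card V = Nat.card ((ZMod q)[X] ⧸ I) :=
    Nat.card_congr ((Module.AEval'.of φ).toEquiv.trans e.toEquiv)
  have : Finite ((ZMod q)[X] ⧸ I) := Nat.finite_of_card_ne_zero (hc ▸ Nat.card_pos.ne')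
  have key : ∀ f : (ZMod q)[X], Ideal.Quotient.mk I f = 0 ↔ aeval φ f = 0 := by
    intro f
    constructor
    · intro h
      ext m
      apply (Module.AEval'.of φ).injective
      apply e.injective
      have : Module.AEval'.of φ (aeval φ f m) = f • Module.AEval'.of φ m :=
        Module.AEval.of_aeval_smul φ f m
      rw [this, map_smul, LinearMap.zero_apply, map_zero, map_zero, Algebra.smul_def]
      exact mul_eq_zero_of_left h _
    · intro h
      obtain ⟨m, hm⟩ := (Module.AEval'.of φ).surjective (e.symm 1)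
      have : Module.AEval'.of φ (aeval φ f m) = f • Module.AEval'.of φ m :=
        Module.AEval.of_aeval_smul φ f m
      rw [h, hm, LinearMap.zero_apply, map_zero, ← map_smul, eq_comm, e.symm.map_eq_zero_iff,
        Algebra.smul_def, mul_one] at this
      exact this
  set N := 2 ^ (m + 1) with hN
  set ζ := Ideal.Quotient.mk I X with hζ
  have hpow : ∀ k : ℕ, ζ ^ k = 1 ↔ N ∣ k := by
    intro k
    rw [← hφ, orderOf_dvd_iff_pow_eq_one]
    have := key (X ^ k - 1)
    rw [map_sub, map_pow, map_one, sub_eq_zero, map_sub, map_pow, map_one, sub_eq_zero,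
      aeval_X] at this
    exact this
  have haev : ∀ f : (ZMod q)[X], aeval ζ f = Ideal.Quotient.mk I f := by
    intro f
    have : (aeval ζ : (ZMod q)[X] →ₐ[ZMod q] _) = Ideal.Quotient.mkₐ (ZMod q) I := by
      ext; simp [hζ]
    rw [this]; rfl
  let σ : ((ZMod q)[X] ⧸ I) →ₐ[ZMod q] ((ZMod q)[X] ⧸ I) :=
    Ideal.Quotient.liftₐ I (aeval (ζ ^ (N - 1))) (fun f hf => by
      have h1 : aeval φ f = 0 := (key f).1 (Ideal.Quotient.eq_zero_iff_mem.2 hf)
      have h2 := semiconj_aeval h f
      rw [h1, mul_zero] at h2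
      have h3 : aeval (φ ^ (N - 1)) f = 0 := by
        ext v
        obtain ⟨w, rfl⟩ := (Finite.injective_iff_surjective.1 hψ) v
        exact (LinearMap.congr_fun h2 w).symm
      have h4 : aeval φ (f.comp (X ^ (N - 1))) = 0 := by rw [aeval_comp]; simpa using h3
      have h5 := (key _).2 h4
      rw [← haev, aeval_comp] at h5
      simpa using h5)
  have hσ : σ ζ = ζ ^ (N - 1) := by
    change aeval (ζ ^ (N - 1)) (X : (ZMod q)[X]) = _
    rw [aeval_X]
  obtain ⟨j, hj⟩ := FiniteField.exists_forall_apply_eq_pow (ZMod q) q ((ZMod q)[X] ⧸ I)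
    (AlgEquiv.ofBijective σ (Finite.injective_iff_bijective.1 σ.toRingHom.injective))
  have hj' : ζ ^ (N - 1) = ζ ^ q ^ j := by
    have := hj ζ
    rwa [AlgEquiv.ofBijective_apply, hσ, Nat.card_zmod] at this
  have hN1 : 1 ≤ N := Nat.one_le_two_pow
  have hdvd : N ∣ q ^ j + 1 := by
    rw [← hpow, pow_succ, ← hj', ← pow_succ, Nat.sub_add_cancel hN1, hpow]
  have hqodd : Odd q := hq.out.odd_of_ne_two hq2
  have hjodd : Odd j := by
    by_contra hev
    obtain ⟨i, rfl⟩ := Nat.not_odd_iff_even.1 hev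
    have h4 : 4 ∣ q ^ (i + i) + 1 := by
      refine Dvd.dvd.trans ?_ hdvd
      obtain ⟨m', rfl⟩ := Nat.exists_eq_add_of_le' hm
      exact ⟨2 ^ m', by rw [hN]; ring⟩
    obtain ⟨t, ht⟩ : Odd (q ^ i) := hqodd.pow
    rw [pow_add, ht] at h4
    have : (2 * t + 1) * (2 * t + 1) + 1 = 4 * (t * t + t) + 2 := by ring
    omega
  have hdvd2 : N ∣ q + 1 := by
    have h1 : ∀ k : ℕ, ∃ c : ℤ, Odd c ∧ (q : ℤ) ^ (2 * k + 1) + 1 = (q + 1) * c := by
      intro k
      have hq' : Odd (q : ℤ) := by exact_mod_cast hqodd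
      induction k with
      | zero => exact ⟨1, odd_one, by ring⟩
      | succ k ih =>
        obtain ⟨c, hc, hc'⟩ := ih
        refine ⟨q ^ 2 * c - (q - 1), (hq'.pow.mul hc).sub_even (hq'.sub_odd odd_one), ?_⟩
        linear_combination (q : ℤ) ^ 2 * hc'
    obtain ⟨k, rfl⟩ := hjodd
    obtain ⟨c, hc, hc'⟩ := h1 k
    have h2 : (N : ℤ) ∣ (q + 1) * c := by rw [← hc']; exact_mod_cast hdvd
    have h3 : IsCoprime (N : ℤ) c := by
      rw [hN]; push_cast
      exact (Int.isCoprime_two_left.2 hc).pow_left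
    exact_mod_cast h3.dvd_of_dvd_mul_right h2
  have hζ2 : ζ ^ q ^ 2 = ζ := by
    have : ζ ^ (q ^ 2 - 1) = 1 := by
      rw [hpow]
      exact hdvd2.trans ⟨q - 1, by
        have := hq.out.one_le
        zify [this, Nat.one_le_pow 2 q this]
        ring⟩
    calc ζ ^ q ^ 2 = ζ ^ (q ^ 2 - 1 + 1) := by
          rw [Nat.sub_add_cancel (Nat.one_le_pow 2 q hq.out.pos)]
      _ = ζ := by rw [pow_succ, this, one_mul]
  have hch : CharP ((ZMod q)[X] ⧸ I) q := charP_of_injective_algebraMap
    (algebraMap (ZMod q) ((ZMod q)[X] ⧸ I)).injective q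
  have hall : ∀ x : (ZMod q)[X] ⧸ I, x ^ q ^ 2 = x := by
    intro x
    obtain ⟨f, rfl⟩ := Ideal.Quotient.mk_surjective x
    rw [← haev]
    induction f using Polynomial.induction_on' with
    | add f g hf hg => rw [map_add, add_pow_char_pow, hf, hg]
    | monomial n a =>
      rw [aeval_monomial, mul_pow, ← map_pow, ZMod.pow_card_pow, ← pow_mul, mul_comm n, pow_mul,
        hζ2]
  have hcard : Nat.card ((ZMod q)[X] ⧸ I) ≤ q ^ 2 := by
    classical
    have := Fintype.ofFinite ((ZMod q)[X] ⧸ I)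
    have h1 : 1 < q ^ 2 := Nat.one_lt_pow (by norm_num) hq.out.one_lt
    have h2 := card_le_degree_of_subset_roots
      (p := (X ^ q ^ 2 - X : ((ZMod q)[X] ⧸ I)[X])) (Z := Finset.univ) (fun x _ => by
        rw [mem_roots (FiniteField.X_pow_card_pow_sub_X_ne_zero _ (by norm_num) hq.out.one_lt)]
        simp [hall x])
    rw [FiniteField.X_pow_card_pow_sub_X_natDegree_eq _ (by norm_num) hq.out.one_lt] at h2
    simpa using h2
  rw [← hc, Module.natCard_eq_pow_finrank (K := ZMod q), Nat.card_zmod] at hcard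
  exact (Nat.pow_le_pow_iff_right hq.out.one_lt).1 hcard

/-- In dimension at most two an endomorphism of determinant one fixing a nonzero vector is
unipotent. -/
theorem sub_one_sq [Finite V] (h2 : Module.finrank (ZMod q) V ≤ 2) {f : Module.End (ZMod q) V}
    (hd : LinearMap.det f = 1) {v : V} (hv : v ≠ 0) (hf : f v = v) : (f - 1) ^ 2 = 0 := by
  have : Nontrivial V := ⟨v, 0, hv⟩
  have hpos : 0 < Module.finrank (ZMod q) V := Module.finrank_pos
  by_cases h1 : Module.finrank (ZMod q) V = 1
  · have : f = 1 := by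
      ext w
      obtain ⟨c, rfl⟩ := (finrank_eq_one_iff_of_nonzero' v hv).1 h1 w
      simp [hf]
    simp [this]
  have h2' : Module.finrank (ZMod q) V = 2 := by omega
  let b := Module.finBasisOfFinrankEq (ZMod q) V h2'
  set M := LinearMap.toMatrix b b f with hM
  have hdM : M.det = 1 := by rw [hM, LinearMap.det_toMatrix, hd]
  have hch : f * f - (M 0 0 + M 1 1) • f + 1 = 0 := by
    apply (LinearMap.toMatrixAlgEquiv b).injective
    rw [map_add, map_sub, map_mul, map_smul, map_one, map_zero]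
    have : LinearMap.toMatrixAlgEquiv b f = M := rfl
    rw [this]
    rw [Matrix.det_fin_two] at hdM
    ext i j
    fin_cases i <;> fin_cases j <;> simp [Matrix.mul_apply, Fin.sum_univ_two] <;>
      first | linear_combination -hdM | ring
  have ht : M 0 0 + M 1 1 = 2 := by
    have := LinearMap.congr_fun hch v
    simp only [LinearMap.add_apply, LinearMap.sub_apply, Module.End.mul_apply, hf,
      LinearMap.smul_apply, Module.End.one_apply, LinearMap.zero_apply] at this
    have h3 : (2 - (M 0 0 + M 1 1)) • v = 0 := by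
      rw [sub_smul, two_smul, ← this]; abel
    exact (sub_eq_zero.1 ((smul_eq_zero.1 h3).resolve_right hv)).symm
  rw [← hch, ht, two_smul]
  noncomm_ring

end Lin

section Grp

universe u v

variable {q : ℕ} [hq : Fact q.Prime] {V : Type u} [AddCommGroup V] [Module (ZMod q) V]
  {D : Type v} [Group D]

/-- The stabilizer of a vector. -/
def stab (ρ : Representation (ZMod q) D V) (v : V) : Subgroup D where
  carrier := {d | ρ d v = v}
  one_mem' := by simp
  mul_mem' := by
    intro a b ha hb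
    simp only [Set.mem_ofPred_eq, map_mul, Module.End.mul_apply] at *
    rw [hb, ha]
  inv_mem' := by
    intro a ha
    simp only [Set.mem_ofPred_eq] at *
    conv_lhs => rw [← ha]
    rw [← Module.End.mul_apply, ← map_mul, inv_mul_cancel, map_one, Module.End.one_apply]

theorem mem_stab {ρ : Representation (ZMod q) D V} {v : V} {d : D} : d ∈ stab ρ v ↔ ρ d v = v :=
  Iff.rfl

theorem rep_inj (ρ : Representation (ZMod q) D V) (d : D) : Function.Injective (ρ d) := by
  intro a b h
  have := congrArg (ρ d⁻¹) h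
  simpa [← Module.End.mul_apply, ← map_mul] using this

theorem index_ne_two (hperf : commutator D = ⊤) (K : Subgroup D) : K.index ≠ 2 := by
  intro h
  have hn : K.Normal := normal_of_index_eq_two h
  have hc : IsCyclic (D ⧸ K) := isCyclic_of_prime_card (p := 2) h
  have : commutator D ≤ K := by
    rw [← Subgroup.Normal.quotient_commutative_iff_commutator_le]
    exact IsCyclic.isMulCommutative
  rw [hperf, top_le_iff] at this
  rw [this, index_top] at h
  omega

theorem subsingleton_of_solvable (hperf : commutator D = ⊤) (hs : Group.IsSolvable D) (d : D) :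
    d = 1 := by
  by_contra hd
  have : Nontrivial D := ⟨d, 1, hd⟩
  exact (Group.IsSolvable.commutator_lt_top_of_nontrivial D).ne hperf

variable [Finite V] [Finite D]

omit [Finite V] in
/-- If the orbits of `D` are those of `P`, subgroups of index at most two in `P` are
irreducible. -/
theorem irr_of_index_two (hperf : commutator D = ⊤) {ρ : Representation (ZMod q) D V}
    (hirr : ∀ U : Submodule (ZMod q) V, (∀ d, ∀ u ∈ U, ρ d u ∈ U) → U = ⊥ ∨ U = ⊤)
    {P M : Subgroup D} (hP : ∀ d v, ∃ u ∈ P, ρ d v = ρ u v)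
    (hM : ∀ g ∈ P, ∀ h ∈ P, g ∉ M → h ∉ M → g⁻¹ * h ∈ M) (U : Submodule (ZMod q) V)
    (hU : ∀ d ∈ P, d ∈ M → ∀ u ∈ U, ρ d u ∈ U) : U = ⊥ ∨ U = ⊤ := by
  obtain ⟨s, hsP, hs⟩ : ∃ s ∈ P, ∀ g ∈ P, g ∈ M ∨ s⁻¹ * g ∈ M := by
    by_cases h : ∃ s ∈ P, s ∉ M
    · obtain ⟨s, hs, hs'⟩ := h
      exact ⟨s, hs, fun g hg => or_iff_not_imp_left.2 fun h => hM s hs g hg hs' h⟩
    · push Not at h
      exact ⟨1, P.one_mem, fun g hg => Or.inl (h g hg)⟩
  have h1 : ∀ d, ∀ v ∈ U, ρ d v ∈ U ∨ ρ (s⁻¹ * d) v ∈ U := by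
    intro d v hv
    obtain ⟨u, hu, hu'⟩ := hP d v
    rcases hs u hu with h | h
    · exact Or.inl (hu' ▸ hU u hu h v hv)
    · right
      have := hU _ (P.mul_mem (P.inv_mem hsP) hu) h v hv
      rwa [map_mul, Module.End.mul_apply, ← hu', ← Module.End.mul_apply, ← map_mul] at this
  have h2 : ∀ d, (∀ v ∈ U, ρ d v ∈ U) ∨ ∀ v ∈ U, ρ (s⁻¹ * d) v ∈ U := by
    intro d
    by_contra hc
    push Not at hc
    obtain ⟨⟨a, ha, ha'⟩, b, hb, hb'⟩ := hc
    have ha2 := (h1 d a ha).resolve_left ha'
    have hb2 := (h1 d b hb).resolve_right hb'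
    rcases h1 d (a + b) (U.add_mem ha hb) with h | h
    · rw [map_add] at h; exact ha' ((U.add_mem_iff_left hb2).1 h)
    · rw [map_add] at h; exact hb' ((U.add_mem_iff_right ha2).1 h)
  let K : Subgroup D :=
    { carrier := {d | ∀ v ∈ U, ρ d v ∈ U}
      one_mem' := fun v hv => by simpa using hv
      mul_mem' := fun {a b} ha hb v hv => by
        rw [map_mul, Module.End.mul_apply]; exact ha _ (hb v hv)
      inv_mem' := fun {a} ha v hv => by
        have hk : ∀ k : ℕ, ρ (a ^ k) v ∈ U := by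
          intro k
          induction k with
          | zero => simpa using hv
          | succ k ih => rw [pow_succ', map_mul, Module.End.mul_apply]; exact ha _ ih
        have : a⁻¹ = a ^ (orderOf a - 1) := by
          rw [inv_eq_iff_mul_eq_one, ← pow_succ', Nat.sub_add_cancel (orderOf_pos a),
            pow_orderOf_eq_one]
        rw [this]; exact hk _ }
  by_cases hsK : s⁻¹ ∈ K
  · refine hirr U fun d => ?_
    rcases h2 d with h | h
    · exact h
    · exact (K.mul_mem_cancel_left hsK).1 (show s⁻¹ * d ∈ K from h)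
  · exfalso
    refine index_ne_two hperf K (index_eq_two_iff'.2 ⟨s⁻¹, fun b => ?_⟩)
    rcases h2 b with h | h
    · exact Or.inr ⟨h, fun h' => hsK ((K.mul_mem_cancel_right (show b ∈ K from h)).1 h')⟩
    · exact Or.inl ⟨h, fun h' => hsK ((K.mul_mem_cancel_right h').1 (show s⁻¹ * b ∈ K from h))⟩

omit [Finite V] [Finite D] in
theorem eq_one_of_unipotent (hcop : ¬ q ∣ Nat.card D) (ρ : Representation (ZMod q) D V) (d : D)
    (h : (ρ d - 1) ^ 2 = 0) : ρ d = 1 := by
  have h1 : ∀ k : ℕ, ρ d ^ k = 1 + (k : ZMod q) • (ρ d - 1) := by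
    intro k
    induction k with
    | zero => simp
    | succ k ih =>
      have h2 : (ρ d - 1) * ρ d = ρ d - 1 := by
        have : (ρ d - 1) * ρ d = (ρ d - 1) ^ 2 + (ρ d - 1) := by noncomm_ring
        rw [this, h, zero_add]
      rw [pow_succ, ih, add_mul, one_mul, smul_mul_assoc, h2, Nat.cast_succ, add_smul, one_smul]
      abel
  have h2 := h1 (Nat.card D)
  rw [← map_pow, pow_card_eq_one', map_one, left_eq_add, smul_eq_zero,
    ZMod.natCast_eq_zero_iff] at h2
  exact sub_eq_zero.1 (h2.resolve_left hcop)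

theorem core_irr_faithful (hperf : commutator D = ⊤) (hcop : ¬ q ∣ Nat.card D)
    {ρ : Representation (ZMod q) D V} (hρ : Function.Injective ρ)
    (hirr : ∀ U : Submodule (ZMod q) V, (∀ d, ∀ u ∈ U, ρ d u ∈ U) → U = ⊥ ∨ U = ⊤)
    {p : ℕ} (hp : p.Prime) (horb : ∀ v, ∃ k, (stab ρ v).index = p ^ k) (d₀ : D) : d₀ = 1 := by
  by_contra hd₀
  have heven : Even (Nat.card D) := by
    by_contra h
    exact hd₀ (subsingleton_of_solvable hperf (S0205.result (Nat.not_even_iff_odd.1 h)) d₀)
  have hq2 : q ≠ 2 := by rintro rfl; exact hcop heven.two_dvd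
  have h2ne : (2 : ZMod q) ≠ 0 := by
    intro h
    have : ((2 : ℕ) : ZMod q) = 0 := by exact_mod_cast h
    rw [ZMod.natCast_eq_zero_iff] at this
    exact hq2 ((Nat.prime_dvd_prime_iff_eq hq.out Nat.prime_two).1 this)
  have hneg : ∀ v : V, -v = v → v = 0 := by
    intro v hv
    have : (2 : ZMod q) • v = 0 := by
      rw [two_smul]; nth_rewrite 1 [← hv]; exact neg_add_cancel v
    exact (smul_eq_zero.1 this).resolve_left h2ne
  have hone : ∀ d, (∀ v, ρ d v = v) → d = 1 := fun d h =>
    hρ (by rw [map_one]; exact LinearMap.ext h)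
  have hsq : ∀ t : D, t * t = 1 → ∀ v, ρ t (ρ t v) = v := fun t ht v => by
    rw [← Module.End.mul_apply, ← map_mul, ht, map_one, Module.End.one_apply]
  have hV : Nontrivial V := by
    by_contra h
    rw [not_nontrivial_iff_subsingleton] at h
    exact hd₀ (hone d₀ fun v => Subsingleton.elim _ _)
  obtain rfl : p = 2 := by
    obtain ⟨t, ht⟩ := exists_prime_orderOf_dvd_card' (G := D) 2 heven.two_dvd
    have htt : t * t = 1 := by rw [← sq, ← ht, pow_orderOf_eq_one]
    obtain ⟨u, hu⟩ : ∃ u, ρ t u ≠ u := by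
      by_contra h
      push Not at h
      rw [hone t h] at ht
      simp at ht
    have hv : ρ t (ρ t u - u) = -(ρ t u - u) := by rw [map_sub, hsq t htt, neg_sub]
    have htS : t ∉ stab ρ (ρ t u - u) := fun h =>
      hu (sub_eq_zero.1 (hneg _ (hv.symm.trans h)))
    have hti : t⁻¹ = t := inv_eq_of_mul_eq_one_right htt
    have hn : t ∈ normalizer (stab ρ (ρ t u - u) : Set D) := by
      have h1 : ∀ x ∈ stab ρ (ρ t u - u), t * x * t⁻¹ ∈ stab ρ (ρ t u - u) := by
        intro x hx
        rw [mem_stab] at hx ⊢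
        rw [hti, map_mul, map_mul, Module.End.mul_apply, Module.End.mul_apply, hv, map_neg, hx,
          map_neg, hv, neg_neg]
      refine mem_normalizer_iff.2 fun x => ⟨h1 x, fun hx => ?_⟩
      have := h1 _ hx
      rwa [hti, show t * (t * x * t) * t = (t * t) * x * (t * t) by group, htt, one_mul,
        mul_one] at this
    have hc := Misc.card_sup_zpowers_two htt htS hn
    obtain ⟨k, hk⟩ := horb (ρ t u - u)
    have h3 : (stab ρ (ρ t u - u)).relIndex (stab ρ (ρ t u - u) ⊔ zpowers t) = 2 := by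
      have h4 := Grp.card_mul_relIndex
        (le_sup_left : stab ρ (ρ t u - u) ≤ stab ρ (ρ t u - u) ⊔ zpowers t)
      rw [hc, mul_comm 2] at h4
      exact Nat.eq_of_mul_eq_mul_left Nat.card_pos h4
    have h5 : 2 ∣ p ^ k := hk ▸ h3 ▸ relIndex_dvd_index_of_le le_sup_left
    exact ((Nat.prime_dvd_prime_iff_eq Nat.prime_two hp).1 (Nat.prime_two.dvd_of_dvd_pow h5)).symm
  obtain ⟨P⟩ : Nonempty (Sylow 2 D) := inferInstance
  have hP : ∀ d v, ∃ u ∈ (P : Subgroup D), ρ d v = ρ u v := by
    intro d v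
    obtain ⟨k, hk⟩ := horb v
    obtain ⟨u, hu, c, hc, rfl⟩ := exists_sylow_mul_of_index_eq_pow hk P d
    exact ⟨u, hu, by rw [map_mul, Module.End.mul_apply, mem_stab.1 hc]⟩
  -- involutions with a centralizer of index at most two in `P` act as `-1`
  have hinv : ∀ z : D, orderOf z = 2 →
      (∀ g ∈ (P : Subgroup D), ∀ h ∈ (P : Subgroup D), g ∉ centralizer {z} → h ∉ centralizer {z} →
        g⁻¹ * h ∈ centralizer ({z} : Set D)) → ∀ v, ρ z v = -v := by
    intro z hz hM v
    have hzz : z * z = 1 := by rw [← sq, ← hz, pow_orderOf_eq_one]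
    rcases irr_of_index_two hperf hirr hP hM (LinearMap.ker (ρ z - 1)) (fun d _ hd u hu => by
      rw [LinearMap.mem_ker, LinearMap.sub_apply, sub_eq_zero, Module.End.one_apply] at hu ⊢
      rw [← Module.End.mul_apply, ← map_mul, ← mem_centralizer_singleton_iff.1 hd, map_mul,
        Module.End.mul_apply, hu]) with h | h
    · have : ρ z v + v ∈ LinearMap.ker (ρ z - 1) := by
        rw [LinearMap.mem_ker, LinearMap.sub_apply, map_add, hsq z hzz, Module.End.one_apply]
        abel
      rw [h, Submodule.mem_bot] at this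
      exact eq_neg_of_add_eq_zero_left this
    · exfalso
      have : z = 1 := hone z fun v => by
        have : v ∈ LinearMap.ker (ρ z - 1) := h ▸ Submodule.mem_top
        rwa [LinearMap.mem_ker, LinearMap.sub_apply, sub_eq_zero] at this
      rw [this] at hz
      simp at hz
  have hnk : ∀ U : Subgroup P, U.Normal → ¬ IsKleinFour U := by
    intro U hUn hU
    have hU1 : U ≠ ⊥ := by
      rintro rfl
      have := hU.card_four
      simp at this
    obtain ⟨z, hzU, hzc, hz1⟩ : ∃ z ∈ U, z ∈ center P ∧ z ≠ 1 := by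
      by_contra h
      push Not at h
      have := PLocal.Amb.inf_centralizer_ne_bot (T := ⊤) (P.2.to_subgroup ⊤) (P.2.to_subgroup U)
        (by rw [normalizer_eq_top]) hU1
      exact this ((eq_bot_iff_forall _).2 fun x hx => h x hx.1
        (mem_center_iff.2 fun g => hx.2 g trivial))
    obtain ⟨e, heU, he1, hze, hUe⟩ := Misc.exists_eq_closure_pair_of_isKleinFour hU hzU hz1
    have hsq' := (Misc.isKleinFour_iff.1 hU).2
    have hzz : z * z = 1 := by rw [← sq]; exact hsq' z hzU
    have hee : e * e = 1 := by rw [← sq]; exact hsq' e heU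
    have hcz : ∀ g : P, g * z = z * g := mem_center_iff.1 hzc
    have hz : ∀ v, ρ z v = -v := hinv z
      (by rw [Subgroup.orderOf_coe]; exact orderOf_eq_prime (hsq' z hzU) hz1)
      (fun g hg _ _ h _ => absurd (mem_centralizer_singleton_iff.2
        (congrArg Subtype.val (hcz ⟨g, hg⟩))) h)
    have hconj : ∀ g : P, (g : D) ∉ centralizer ({(e : D)} : Set D) → g * e * g⁻¹ = z * e := by
      intro g hg
      have := hUn.conj_mem e heU g
      rw [hUe, Misc.mem_closure_pair_iff hzz hee (hcz e).symm] at this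
      rcases this with h | h | h | h
      · exact absurd (by simpa using h) he1
      · exfalso
        apply hze
        have : e = g⁻¹ * z * g := by rw [← h]; group
        rw [this, hcz]; group
      · exact absurd (mem_centralizer_singleton_iff.2
          (congrArg Subtype.val (mul_inv_eq_iff_eq_mul.1 h))) hg
      · exact h
    have he : ∀ v, ρ e v = -v := hinv e
      (by rw [Subgroup.orderOf_coe]; exact orderOf_eq_prime (hsq' e heU) he1)
      (fun g hg h hh h1 h2 => by
        have a : g * e * g⁻¹ = h * e * h⁻¹ :=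
          congrArg Subtype.val ((hconj ⟨g, hg⟩ h1).trans (hconj ⟨h, hh⟩ h2).symm)
        rw [mem_centralizer_singleton_iff]
        calc g⁻¹ * h * e = g⁻¹ * (h * e * h⁻¹) * h := by group
          _ = e * (g⁻¹ * h) := by rw [← a]; group)
    exact hze (Subtype.ext (hρ (LinearMap.ext fun v => (hz v).trans (he v).symm)))
  obtain ⟨A, hAn, hAc, hAC, hAi⟩ := Grp.NR1.exists_cyclic_index_le_two P.2 hnk
  have hAi2 : A.index = 2 := by
    have h0 : A.index ≠ 0 := index_ne_zero_of_finite
    have h1 : A.index ≠ 1 := by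
      intro h
      rw [index_eq_one] at h
      subst h
      obtain ⟨H, hH⟩ := Inv.exists_index_two_of_cyclic_sylow heven P
        (topEquiv.isCyclic.1 hAc)
      exact index_ne_two hperf H hH
    omega
  obtain ⟨n, hn⟩ := P.2.exists_card_eq
  obtain ⟨n, rfl⟩ : ∃ n', n = n' + 1 := by
    refine ⟨n - 1, (Nat.sub_add_cancel (Nat.pos_of_ne_zero ?_)).symm⟩
    rintro rfl
    have := A.index_dvd_card
    rw [hAi2, hn] at this
    omega
  obtain ⟨a, b, rfl, ha, hb, hba, hb2, hne⟩ := Grp.CycIdx.exists_gens hn A hAc hAi2 (by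
    by_contra h
    push Not at h
    have : A = ⊤ := by
      rw [← hAC, eq_top_iff]
      exact fun x _ y _ => h y x
    rw [this, index_top] at hAi2
    omega)
  obtain ⟨m, rfl, hm⟩ : ∃ m, n = m + 1 ∧ 1 ≤ m := by
    by_contra hcon
    have hn1 : n ≤ 1 := by
      by_contra h
      exact hcon ⟨n - 1, by omega, by omega⟩
    have haa : a * a = 1 := by
      rw [← sq, ← orderOf_dvd_iff_pow_eq_one, ha]
      interval_cases n <;> simp
    rcases (Misc.mem_zpowers_two haa).1 hba with h | h
    · have : a = 1 := by simpa using h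
      exact hne (by simp [this])
    · exact hne h
  have hmem : ∀ g : P, (g : D) ∈ zpowers (a : D) ↔ g ∈ zpowers a := fun g => by
    have := MonoidHom.map_zpowers P.1.subtype a
    rw [← mem_map_iff_mem (K := zpowers a) P.1.subtype_injective, this]
    rfl
  have hMA : ∀ g ∈ (P : Subgroup D), ∀ h ∈ (P : Subgroup D), g ∉ zpowers (a : D) →
      h ∉ zpowers (a : D) → g⁻¹ * h ∈ zpowers (a : D) := by
    intro g hg h hh h1 h2
    refine (hmem ((⟨g, hg⟩ : P)⁻¹ * ⟨h, hh⟩)).2 ?_
    rw [mul_mem_iff_of_index_two hAi2, inv_mem_iff, ← hmem, ← hmem]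
    exact iff_of_false h1 h2
  obtain ⟨i, c, hc, hcases⟩ := Grp.CycIdx.exists_two_cases hm ha hba hb2 hne
  have hcA : c ∉ zpowers a := hc ▸ Grp.CycIdx.zpow_mul_not_mem i hb
  have hc2 : c ^ 2 ≠ 1 := by
    intro h
    have hc1 : c ≠ 1 := by rintro rfl; exact hcA (one_mem _)
    have hco : orderOf (c : D) = 2 := by
      rw [Subgroup.orderOf_coe]; exact orderOf_eq_prime h hc1
    have hrel : (zpowers (a : D)).relIndex (P : Subgroup D) = 2 := by
      refine Eq.trans ?_ hAi2
      rw [relIndex]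
      congr 1
      ext g
      exact hmem g
    rcases S0111.result P (zpowers (a : D)) (zpowers_le.2 a.2) hrel c hco c.2
      (fun h => hcA ((hmem c).1 h)) with ⟨M, -, hM, -⟩ | ⟨g, hg⟩
    · exact index_ne_two hperf M hM
    · have hle : zpowers (a : D) ≤ centralizer {g * c * g⁻¹} := by
        rw [zpowers_le, mem_centralizer_singleton_iff]
        obtain ⟨k, hk⟩ := hg
        rw [← hk]
        exact (Commute.refl _).zpow_right k
      have h1 := hinv (g * c * g⁻¹) (((MulAut.conj g).orderOf_eq (c : D)).trans hco)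
        (fun x hx y hy h1 h2 => hle (hMA x hx y hy (fun h => h1 (hle h)) fun h => h2 (hle h)))
      have h2 : (c : D) = g * c * g⁻¹ := by
        refine hρ (LinearMap.ext fun v => ?_)
        apply rep_inj ρ g
        have := h1 (ρ g v)
        rw [h1 v, map_neg, ← this]
        simp only [← Module.End.mul_apply, ← map_mul, inv_mul_cancel_right]
      exact hcA ((hmem c).1 (h2 ▸ hg))
  have hca : c * a * c⁻¹ = a⁻¹ := by
    rcases hcases with h | h | h | h
    · exact absurd h.1 hc2
    · exact h.2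
    · exact absurd h.2.1 hc2
    · exact absurd h.2.1 hc2
  have hfin : Module.finrank (ZMod q) V ≤ 2 := by
    refine finrank_le_two hq2 (φ := ρ a) (ψ := ρ c) hm ?_ (rep_inj ρ _) ?_ fun U hU => ?_
    · rw [orderOf_injective ρ hρ, Subgroup.orderOf_coe, ha]
    · rw [← map_pow, ← map_mul, ← map_mul]
      congr 1
      have h1 : a ^ (2 ^ (m + 1) - 1) = a⁻¹ := by
        rw [eq_inv_iff_mul_eq_one, ← pow_succ, Nat.sub_add_cancel Nat.one_le_two_pow, ← ha,
          pow_orderOf_eq_one]
      have h2 : c * a = a ^ (2 ^ (m + 1) - 1) * c := by rw [h1, ← hca]; group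
      exact congrArg Subtype.val h2
    · refine irr_of_index_two hperf hirr hP hMA U fun d _ hd u hu => ?_
      obtain ⟨k, rfl⟩ : ∃ k : ℕ, (a : D) ^ k = d := mem_powers_iff_mem_zpowers.2 hd
      induction k with
      | zero => simpa using hu
      | succ k ih =>
        rw [pow_succ', map_mul, Module.End.mul_apply]
        exact hU _ (ih (pow_mem a.2 k) (pow_mem (mem_zpowers _) k))
  have hdet : ∀ d, LinearMap.det (ρ d) = 1 := by
    intro d
    let f : D →* (ZMod q)ˣ := (LinearMap.det.comp ρ).toHomUnits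
    have h1 : commutator D ≤ f.ker := Abelianization.commutator_subset_ker f
    have h2 : f d = 1 := h1 (hperf ▸ mem_top d)
    exact congrArg Units.val h2
  obtain ⟨v, hv⟩ := exists_ne (0 : V)
  have hst : stab ρ v = ⊥ := by
    rw [eq_bot_iff_forall]
    intro d hd
    have h1 := sub_one_sq hfin (hdet d) hv hd
    exact hρ (by rw [map_one]; exact eq_one_of_unipotent hcop ρ d h1)
  obtain ⟨k, hk⟩ := horb v
  rw [hst, index_bot] at hk
  have : Group.IsNilpotent D := (IsPGroup.of_card hk).isNilpotent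
  exact hd₀ (subsingleton_of_solvable hperf inferInstance d₀)

theorem core_irr (hperf : commutator D = ⊤) (hcop : ¬ q ∣ Nat.card D)
    {ρ : Representation (ZMod q) D V}
    (hirr : ∀ U : Submodule (ZMod q) V, (∀ d, ∀ u ∈ U, ρ d u ∈ U) → U = ⊥ ∨ U = ⊤)
    {p : ℕ} (hp : p.Prime) (horb : ∀ v, ∃ k, (stab ρ v).index = p ^ k) (d₀ : D) : ρ d₀ = 1 := by
  let ρ' : Representation (ZMod q) (D ⧸ MonoidHom.ker ρ) V :=
    QuotientGroup.lift _ ρ fun _ h => h
  have hs := QuotientGroup.mk'_surjective (MonoidHom.ker ρ)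
  have h := core_irr_faithful (ρ := ρ') (D := D ⧸ MonoidHom.ker ρ)
    (by rw [← map_top_of_surjective _ hs, ← hperf, map_commutator_eq,
      MonoidHom.range_eq_top.2 hs]; rfl)
    (fun h => hcop (h.trans (card_quotient_dvd_card _)))
    (by
      rw [injective_iff_map_eq_one]
      intro x hx
      obtain ⟨y, rfl⟩ := hs x
      exact (QuotientGroup.eq_one_iff y).2 hx)
    (fun U hU => hirr U fun d => hU (QuotientGroup.mk d)) hp
    (fun v => by
      obtain ⟨k, hk⟩ := horb v
      refine ⟨k, ?_⟩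
      rw [← hk, ← index_comap_of_surjective _ hs]
      rfl) (QuotientGroup.mk d₀)
  exact (QuotientGroup.eq_one_iff d₀).1 h

omit [Finite V] in
theorem core (hperf : commutator D = ⊤) (hcop : ¬ q ∣ Nat.card D) {p : ℕ} (hp : p.Prime) (n : ℕ) :
    ∀ (V : Type u) [AddCommGroup V] [Module (ZMod q) V] [Finite V]
      (ρ : Representation (ZMod q) D V), Module.finrank (ZMod q) V = n →
      (∀ v, ∃ k, (stab ρ v).index = p ^ k) → ∀ d₀ : D, ρ d₀ = 1 := by
  induction n using Nat.strong_induction_on with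
  | _ n ih =>
  intro V _ _ _ ρ hn horb d₀
  by_cases hirr : ∀ U : Submodule (ZMod q) V, (∀ d, ∀ u ∈ U, ρ d u ∈ U) → U = ⊥ ∨ U = ⊤
  · exact core_irr hperf hcop hirr hp horb d₀
  push Not at hirr
  obtain ⟨U, hU, hU0, hU1⟩ := hirr
  have hle : ∀ d, U ≤ U.comap (ρ d) := fun d u hu => hU d u hu
  have hsum := U.finrank_quotient_add_finrank
  have hlt : Module.finrank (ZMod q) U < n := hn ▸ Submodule.finrank_lt hU1
  have hpos : Module.finrank (ZMod q) U ≠ 0 := fun h => hU0 (Submodule.finrank_eq_zero.1 h)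
  have h1 := ih _ hlt U (ρ.subrepresentation U hle) rfl (fun v => by
    obtain ⟨k, hk⟩ := horb v
    refine ⟨k, ?_⟩
    rw [← hk]
    congr 1
    ext d
    exact Subtype.ext_iff) d₀
  have : Finite (V ⧸ U) := Finite.of_surjective _ U.mkQ_surjective
  have h2 := ih _ (by omega) (V ⧸ U) (ρ.quotient U hle) rfl (fun v => by
    obtain ⟨w, rfl⟩ := U.mkQ_surjective v
    obtain ⟨k, hk⟩ := horb w
    have : stab ρ w ≤ stab (ρ.quotient U hle) (U.mkQ w) := fun d hd => by
      change U.mkQ (ρ d w) = U.mkQ w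
      rw [mem_stab.1 hd]
    have h3 := index_dvd_of_le this
    rw [hk] at h3
    obtain ⟨j, -, hj⟩ := (Nat.dvd_prime_pow hp).1 h3
    exact ⟨j, hj⟩) d₀
  refine eq_one_of_unipotent hcop ρ d₀ (LinearMap.ext fun v => ?_)
  have h3 : ρ d₀ v - v ∈ U := by
    rw [← Submodule.Quotient.eq]
    exact LinearMap.congr_fun h2 (U.mkQ v)
  have h4 := congrArg Subtype.val (LinearMap.congr_fun h1 ⟨_, h3⟩)
  rw [sq, Module.End.mul_apply, LinearMap.zero_apply, LinearMap.sub_apply, sub_eq_zero]
  exact h4

end Grp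

end Cfsg.Agent.FGS.PPO
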