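import Mathlib

/-!
# Fixed-point-free operators of prime order on `𝔽_p`-spaces and primitive roots
-/

set_option autoImplicit false

namespace Cfsg.Agent.FGS

open Polynomial

theorem semiconj_aeval {R V : Type*} [CommRing R] [AddCommGroup V] [Module R V]
    {σ S T : Module.End R V} (h : ∀ v, σ (T v) = S (σ v)) (f : R[X]) (v : V) :
    σ (aeval T f v) = aeval S f (σ v) := by
  have hp : ∀ (n : ℕ) (v : V), σ ((T ^ n) v) = (S ^ n) (σ v) := by
    intro n
    induction n with
    | zero => intro v; simp
    | succ n ih => intro v; rw [pow_succ, pow_succ, Module.End.mul_apply, Module.End.mul_apply, ih, h]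
  induction f using Polynomial.induction_on' with
  | add f g hf hg => simp [hf, hg]
  | monomial n a => simp [aeval_monomial, hp]

theorem aeval_cyclotomic_eq_zero {R V : Type*} [CommRing R] [AddCommGroup V] [Module R V] {q : ℕ}
    [Fact q.Prime] {T : Module.End R V} (hT : T ^ q = 1) (hf : ∀ v, T v = v → v = 0) :
    aeval T (cyclotomic q R) = 0 := by
  ext v
  apply hf
  have h := congrArg (fun f => aeval T f v) (cyclotomic_prime_mul_X_sub_one R q)
  simp only [mul_comm (cyclotomic q R), map_mul, map_sub, aeval_X, map_one, map_pow, hT, sub_self,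
    Module.End.mul_apply, LinearMap.sub_apply, Module.End.one_apply] at h
  simpa [sub_eq_zero] using h

theorem exists_irreducible_kill {F V : Type*} [Field F] [AddCommGroup V] [Module F V]
    (T : Module.End F V) (g : F[X]) (hg : g ≠ 0) (v : V) (hv : v ≠ 0) (h : aeval T g v = 0) :
    ∃ f : F[X], Irreducible f ∧ f ∣ g ∧ ∃ w : V, w ≠ 0 ∧ aeval T f w = 0 := by
  induction g using WfDvdMonoid.induction_on_irreducible generalizing v with
  | zero => exact absurd rfl hg
  | unit u hu =>
    obtain ⟨c, hc, rfl⟩ := Polynomial.isUnit_iff.1 hu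
    simp only [aeval_C, Module.algebraMap_end_apply, smul_eq_zero] at h
    exact absurd (h.resolve_left hc.ne_zero) hv
  | mul a i ha hi ih =>
    by_cases h1 : aeval T a v = 0
    · obtain ⟨f, hf, hfa, hw⟩ := ih ha v hv h1
      exact ⟨f, hf, hfa.mul_left _, hw⟩
    · exact ⟨i, hi, dvd_mul_right _ _, aeval T a v, h1, by simpa using h⟩

/-- If semilinear symmetries permute the non-zero vectors transitively and realise all powers
of `T`, then `p` is a primitive root modulo `q`. -/
theorem orderOf_eq_of_transitive {p q : ℕ} [hp : Fact p.Prime] [hq : Fact q.Prime] (hpq : p ≠ q)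
    {V : Type*} [AddCommGroup V] [Module (ZMod p) V] [Finite V] [Nontrivial V]
    {T : Module.End (ZMod p) V} (hT : T ^ q = 1) (hf : ∀ v, T v = v → v = 0)
    (h1 : ∀ v w : V, v ≠ 0 → w ≠ 0 → ∃ (σ : Module.End (ZMod p) V) (k : ℕ), Function.Injective σ ∧
      σ v = w ∧ ∀ u, σ (T u) = (T ^ k) (σ u))
    (h2 : ∀ k : ℕ, 0 < k → k < q → ∃ σ : Module.End (ZMod p) V, Function.Injective σ ∧
      ∀ u, σ (T u) = (T ^ k) (σ u)) :
    orderOf (p : ZMod q) = q - 1 := by
  have hc0 := aeval_cyclotomic_eq_zero hT hf
  obtain ⟨v1, hv1⟩ := exists_ne (0 : V)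
  obtain ⟨f, hfi, ⟨g, hg⟩, v, hv, hfv⟩ := exists_irreducible_kill T (cyclotomic q (ZMod p))
    (cyclotomic_ne_zero _ _) v1 hv1 (by rw [hc0]; rfl)
  have hndvd : ¬ p ∣ q := fun h => hpq ((Nat.prime_dvd_prime_iff_eq hp.out hq.out).1 h)
  haveI : NeZero ((q : ℕ) : ZMod p) := ⟨by rwa [Ne, ZMod.natCast_eq_zero_iff]⟩
  have hcop : IsCoprime f g := by
    have := separable_cyclotomic q (ZMod p)
    rw [hg] at this
    exact this.isCoprime
  have comm : ∀ (a b : (ZMod p)[X]) (u : V), aeval T a (aeval T b u) = aeval T (a * b) u := by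
    intro a b u; simp
  -- cyclic submodules
  let M : V → Set V := fun u => Set.range fun h : (ZMod p)[X] => aeval T h u
  have hf0 : ∀ w, aeval T f w = 0 := by
    intro w
    by_contra hw
    set w' := aeval T f w with hw'
    have hgw : aeval T g w' = 0 := by
      rw [hw', comm, mul_comm, ← hg, hc0]; rfl
    obtain ⟨a, b, hab⟩ := hcop
    have e1 : aeval T (b * g) (v + w') = v := by
      have : aeval T (a * f + b * g) v = v := by rw [hab]; simp
      rw [map_add, LinearMap.add_apply, ← comm, hfv, map_zero, zero_add] at this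
      rw [map_add, this, ← comm, hgw, map_zero, add_zero]
    have e2 : aeval T (a * f) (v + w') = w' := by
      have : aeval T (a * f + b * g) w' = w' := by rw [hab]; simp
      rw [map_add, LinearMap.add_apply, ← comm b g, hgw, map_zero, add_zero] at this
      rw [map_add, this, ← comm, hfv, map_zero, zero_add]
    have hu : v + w' ≠ 0 := fun h => hv (by rw [← e1, h, map_zero])
    obtain ⟨σ, k, hσ, hσu, hσT⟩ := h1 (v + w') v hu hv
    have hsub : M v ⊆ M (v + w') := by
      rintro _ ⟨h, rfl⟩
      exact ⟨h * (b * g), by simp only; rw [← comm, e1]⟩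
    have himg : σ '' M (v + w') ⊆ M v := by
      rintro _ ⟨_, ⟨h, rfl⟩, rfl⟩
      refine ⟨h.comp (X ^ k), ?_⟩
      simp only
      rw [semiconj_aeval hσT, hσu, aeval_comp]
      simp
    have hcard : (M (v + w')).ncard ≤ (M v).ncard := by
      rw [← Set.ncard_image_of_injective _ hσ]
      exact Set.ncard_le_ncard himg
    have heq : M v = M (v + w') := Set.eq_of_subset_of_ncard_le hsub hcard
    have : w' ∈ M v := heq ▸ ⟨a * f, e2⟩
    obtain ⟨h, hh⟩ := this
    simp only at hh
    have hfw : aeval T f w' = 0 := by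
      rw [← hh, comm, mul_comm, ← comm, hfv, map_zero]
    apply hw
    have : aeval T (a * f + b * g) w' = w' := by rw [hab]; simp
    rw [map_add, LinearMap.add_apply, ← comm b g, hgw, map_zero, add_zero, ← comm, hfw,
      map_zero] at this
    exact this.symm
  haveI := Fact.mk hfi
  let K := AdjoinRoot f
  let ζ : K := AdjoinRoot.root f
  haveI : NeZero ((q : ℕ) : K) := NeZero.of_injective (algebraMap (ZMod p) K).injective
  have hζ : IsPrimitiveRoot ζ q := by
    rw [← isRoot_cyclotomic_iff, ← map_cyclotomic q (algebraMap (ZMod p) K), IsRoot.def,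
      eval_map_algebraMap, hg, map_mul, AdjoinRoot.aeval_eq, AdjoinRoot.mk_self, zero_mul]
  have hroot : ∀ k, 0 < k → k < q → aeval (ζ ^ k) f = 0 := by
    intro k hk0 hk
    obtain ⟨σ, hσ, hσT⟩ := h2 k hk0 hk
    have e : aeval T (f.comp (X ^ k)) (σ v) = 0 := by
      have := semiconj_aeval hσT f v
      rw [hfv, map_zero] at this
      rw [aeval_comp]
      simpa using this.symm
    have hd : f ∣ f.comp (X ^ k) := by
      by_contra hn
      obtain ⟨a, b, hab⟩ := (hfi.coprime_iff_not_dvd).2 hn
      have : aeval T (a * f + b * f.comp (X ^ k)) (σ v) = σ v := by rw [hab]; simp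
      rw [map_add, LinearMap.add_apply, ← comm, ← comm, e, hf0, map_zero, map_zero,
        add_zero] at this
      exact hv (hσ (by rw [← this, map_zero]))
    have := (AdjoinRoot.mk_eq_zero (f := f)).2 hd
    rw [← AdjoinRoot.aeval_eq, aeval_comp] at this
    simpa using this
  have hdeg : q - 1 ≤ f.natDegree := by
    classical
    have hne : f.map (algebraMap (ZMod p) K) ≠ 0 := Polynomial.map_ne_zero hfi.ne_zero
    have := Polynomial.card_le_degree_of_subset_roots (p := f.map (algebraMap (ZMod p) K))
      (Z := (Finset.Ico 1 q).image fun k => ζ ^ k) (fun y hy => by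
        simp only [Finset.mem_val, Finset.mem_image, Finset.mem_Ico] at hy
        obtain ⟨k, hk, rfl⟩ := hy
        rw [mem_roots hne, IsRoot.def, eval_map_algebraMap]
        exact hroot k hk.1 hk.2)
    rw [Finset.card_image_of_injOn (fun i hi j hj e => hζ.pow_inj
      (Finset.mem_Ico.1 hi).2 (Finset.mem_Ico.1 hj).2 e), natDegree_map] at this
    simpa using this
  have hco : p.Coprime q := hp.out.coprime_iff_not_dvd.2 hndvd
  have hd := Polynomial.natDegree_of_dvd_cyclotomic_of_irreducible (K := ZMod p) (f := 1) (p := p)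
    (by simp) hco ⟨g, hg⟩ hfi
  rw [← orderOf_units, ZMod.coe_unitOfCoprime, pow_one] at hd
  rw [hd] at hdeg
  refine le_antisymm (Nat.le_of_dvd (by have := hq.out.two_le; omega) ?_) hdeg
  refine orderOf_dvd_of_pow_eq_one (ZMod.pow_card_sub_one_eq_one ?_)
  rw [Ne, ZMod.natCast_eq_zero_iff]
  exact fun h => hpq ((Nat.prime_dvd_prime_iff_eq hq.out hp.out).1 h).symm

/-- If `p` is a primitive root modulo `q`, the centralizer of `T` is transitive on non-zero vectors
and `T` is conjugate to `T ^ p`. -/
theorem exists_equiv_of_orderOf_eq {p q : ℕ} [hp : Fact p.Prime] [hq : Fact q.Prime] (hpq : p ≠ q)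
    (ho : orderOf (p : ZMod q) = q - 1)
    {V : Type*} [AddCommGroup V] [Module (ZMod p) V] [Finite V]
    {T : Module.End (ZMod p) V} (hT : T ^ q = 1) (hf : ∀ v, T v = v → v = 0) :
    (∀ v w : V, v ≠ 0 → w ≠ 0 → ∃ σ : V ≃+ V, σ v = w ∧ ∀ u, σ (T u) = T (σ u)) ∧
      ∃ σ : V ≃+ V, ∀ u, σ (T u) = (T ^ p) (σ u) := by
  have hc0 := aeval_cyclotomic_eq_zero hT hf
  have hndvd : ¬ p ∣ q := fun h => hpq ((Nat.prime_dvd_prime_iff_eq hp.out hq.out).1 h)
  have hirr : Irreducible (cyclotomic q (ZMod p)) := by
    refine ZMod.irreducible_of_dvd_cyclotomic_of_natDegree hndvd dvd_rfl ?_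
    rw [natDegree_cyclotomic, Nat.totient_prime hq.out, ← orderOf_units, ZMod.coe_unitOfCoprime, ho]
  haveI := Fact.mk hirr
  let K := AdjoinRoot (cyclotomic q (ZMod p))
  let ρ : K →+* Module.End (ZMod p) V :=
    Ideal.Quotient.lift (Ideal.span {cyclotomic q (ZMod p)}) (aeval T).toRingHom (by
      intro a ha
      obtain ⟨b, rfl⟩ := Ideal.mem_span_singleton'.1 ha
      simp [hc0])
  letI : Module K V := Module.compHom V ρ
  let ζ : K := AdjoinRoot.root _
  have hζ : ∀ u : V, ζ • u = T u := by
    intro u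
    change ρ ζ u = T u
    have : ρ ζ = aeval T (X : (ZMod p)[X]) := rfl
    rw [this, aeval_X]
  have hζn : ∀ (n : ℕ) (u : V), ζ ^ n • u = (T ^ n) u := by
    intro n
    induction n with
    | zero => intro u; simp
    | succ n ih => intro u; rw [pow_succ, pow_succ, mul_smul, hζ, ih, Module.End.mul_apply]
  haveI : Module.Finite K V := Module.Finite.of_finite
  constructor
  · intro v w hv hw
    obtain ⟨σ, hσ⟩ := Submodule.exists_linearEquiv_restrict_eq
      ((LinearEquiv.toSpanNonzeroSingleton K V v hv).symm.trans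
        (LinearEquiv.toSpanNonzeroSingleton K V w hw))
    refine ⟨σ.toAddEquiv, ?_, fun u => ?_⟩
    · have := hσ ⟨v, Submodule.mem_span_singleton_self v⟩
      rw [LinearEquiv.trans_apply, ← LinearEquiv.toSpanNonzeroSingleton_one K V v hv,
        LinearEquiv.symm_apply_apply, LinearEquiv.toSpanNonzeroSingleton_one,
        LinearEquiv.toSpanNonzeroSingleton_one] at this
      exact this.symm
    · simp only [LinearEquiv.coe_toAddEquiv, LinearEquiv.coe_addEquiv_apply]
      rw [← hζ, ← hζ, map_smul]
  · haveI : Module.Finite (ZMod p) K :=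
      (AdjoinRoot.powerBasis (cyclotomic_ne_zero q (ZMod p))).finite
    haveI : Finite K := Module.finite_of_finite (ZMod p)
    haveI : CharP K p := charP_of_injective_algebraMap (algebraMap (ZMod p) K).injective p
    let b := Module.finBasis K V
    let φ : K ≃+* K := frobeniusEquiv K p
    refine ⟨b.equivFun.toAddEquiv.trans ((AddEquiv.piCongrRight fun _ => φ.toAddEquiv).trans
      b.equivFun.symm.toAddEquiv), fun u => ?_⟩
    rw [← hζ, ← hζn]
    simp only [AddEquiv.trans_apply, LinearEquiv.coe_toAddEquiv, LinearEquiv.coe_addEquiv_apply]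
    rw [← map_smul]
    congr 1
    ext i
    simp [φ, frobenius_def, mul_pow]

end Cfsg.Agent.FGS
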