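import Mathlib
import Cfsg.Agent.FGS.LieAut

/-!
# Lie rings: nilpotent action of solvable subrings, and a generalised Kreknin theorem
-/

set_option autoImplicit false

open scoped TensorProduct

namespace Cfsg.Agent.FGS.Shum

open GradedLie

universe u

section Basic

variable {L : Type*} [LieRing L]

/-- The bracket of two additive subgroups. -/
def bra (X Y : AddSubgroup L) : AddSubgroup L :=
  AddSubgroup.closure {z | ∃ x ∈ X, ∃ y ∈ Y, z = ⁅x, y⁆}

theorem lie_mem_bra {X Y : AddSubgroup L} {x y : L} (hx : x ∈ X) (hy : y ∈ Y) :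
    ⁅x, y⁆ ∈ bra X Y :=
  AddSubgroup.subset_closure ⟨x, hx, y, hy, rfl⟩

theorem bra_le {X Y Z : AddSubgroup L} (h : ∀ x ∈ X, ∀ y ∈ Y, ⁅x, y⁆ ∈ Z) : bra X Y ≤ Z := by
  refine (AddSubgroup.closure_le _).2 ?_
  rintro z ⟨x, hx, y, hy, rfl⟩
  exact h x hx y hy

theorem bra_mono {X Y X' Y' : AddSubgroup L} (hX : X ≤ X') (hY : Y ≤ Y') :
    bra X Y ≤ bra X' Y' :=
  bra_le fun _ hx _ hy => lie_mem_bra (hX hx) (hY hy)

theorem bra_comm_le (X Y : AddSubgroup L) : bra X Y ≤ bra Y X :=
  bra_le fun x hx y hy => by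
    rw [← lie_skew]
    exact neg_mem (lie_mem_bra hy hx)

theorem bra_closure_le {S T : Set L} {Z : AddSubgroup L} (h : ∀ x ∈ S, ∀ y ∈ T, ⁅x, y⁆ ∈ Z) :
    bra (AddSubgroup.closure S) (AddSubgroup.closure T) ≤ Z := by
  refine bra_le fun x hx y hy => ?_
  induction hx using AddSubgroup.closure_induction with
  | mem x hx =>
    induction hy using AddSubgroup.closure_induction with
    | mem y hy => exact h x hx y hy
    | zero => simp
    | add a b _ _ ha hb => rw [lie_add]; exact add_mem ha hb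
    | neg a _ ha => rw [lie_neg]; exact neg_mem ha
  | zero => simp
  | add a b _ _ ha hb => rw [add_lie]; exact add_mem ha hb
  | neg a _ ha => rw [neg_lie]; exact neg_mem ha

theorem bra_iSup_le {ι κ : Sort*} {X : ι → AddSubgroup L} {Y : κ → AddSubgroup L}
    {Z : AddSubgroup L} (h : ∀ i j, bra (X i) (Y j) ≤ Z) : bra (⨆ i, X i) (⨆ j, Y j) ≤ Z := by
  rw [AddSubgroup.iSup_eq_closure, AddSubgroup.iSup_eq_closure]
  refine bra_closure_le fun x hx y hy => ?_
  obtain ⟨i, hi⟩ := Set.mem_iUnion.1 hx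
  obtain ⟨j, hj⟩ := Set.mem_iUnion.1 hy
  exact h i j (lie_mem_bra hi hj)

theorem bra_iSup_left_le {ι : Sort*} {X : ι → AddSubgroup L} {Y Z : AddSubgroup L}
    (h : ∀ i, bra (X i) Y ≤ Z) : bra (⨆ i, X i) Y ≤ Z := by
  have := bra_iSup_le (X := X) (Y := fun _ : Unit => Y) (Z := Z) fun i _ => h i
  rwa [iSup_const] at this

theorem bra_sup_left_le {X X' Y Z : AddSubgroup L} (h : bra X Y ≤ Z) (h' : bra X' Y ≤ Z) :
    bra (X ⊔ X') Y ≤ Z := by
  refine bra_le fun x hx y hy => ?_
  obtain ⟨a, ha, b, hb, rfl⟩ := AddSubgroup.mem_sup.1 hx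
  rw [add_lie]
  exact add_mem (h (lie_mem_bra ha hy)) (h' (lie_mem_bra hb hy))

theorem bra_sup_right_le {X Y Y' Z : AddSubgroup L} (h : bra X Y ≤ Z) (h' : bra X Y' ≤ Z) :
    bra X (Y ⊔ Y') ≤ Z :=
  (bra_comm_le _ _).trans
    (bra_sup_left_le ((bra_comm_le _ _).trans h) ((bra_comm_le _ _).trans h'))

theorem bra_bot_left (Y : AddSubgroup L) : bra ⊥ Y = ⊥ :=
  le_bot_iff.1 (bra_le fun x hx y _ => by
    rw [AddSubgroup.mem_bot] at hx
    simp [hx])

theorem bra_bot_right (X : AddSubgroup L) : bra X ⊥ = ⊥ :=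
  le_bot_iff.1 ((bra_comm_le _ _).trans (bra_bot_left X).le)

theorem bra_bra_le (W Y Y' : AddSubgroup L) :
    bra (bra W Y) Y' ≤ bra (bra W Y') Y ⊔ bra W (bra Y Y') := by
  have : bra (bra W Y) Y' = bra (bra W Y) (AddSubgroup.closure Y') := by
    rw [AddSubgroup.closure_eq]
  rw [this]
  refine bra_closure_le ?_
  rintro _ ⟨w, hw, y, hy, rfl⟩ y' hy'
  have e : ⁅⁅w, y⁆, y'⁆ = ⁅⁅w, y'⁆, y⁆ + ⁅w, ⁅y, y'⁆⁆ := by
    rw [leibniz_lie w y y', ← lie_skew y ⁅w, y'⁆]; abel
  rw [e]
  exact AddSubgroup.add_mem_sup (lie_mem_bra (lie_mem_bra hw hy') hy)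
    (lie_mem_bra hw (lie_mem_bra hy hy'))

/-- The iterated bracket `[X, Y, ..., Y]`. -/
def it (X Y : AddSubgroup L) (n : ℕ) : AddSubgroup L := (fun Z => bra Z Y)^[n] X

theorem it_zero (X Y : AddSubgroup L) : it X Y 0 = X := rfl

theorem it_succ (X Y : AddSubgroup L) (n : ℕ) : it X Y (n + 1) = bra (it X Y n) Y :=
  Function.iterate_succ_apply' _ _ _

theorem it_succ' (X Y : AddSubgroup L) (n : ℕ) : it X Y (n + 1) = it (bra X Y) Y n :=
  Function.iterate_succ_apply _ _ _

theorem it_add (X Y : AddSubgroup L) (m n : ℕ) : it X Y (m + n) = it (it X Y n) Y m :=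
  Function.iterate_add_apply _ _ _ _

theorem it_mono {X Y X' Y' : AddSubgroup L} (hX : X ≤ X') (hY : Y ≤ Y') (n : ℕ) :
    it X Y n ≤ it X' Y' n := by
  induction n with
  | zero => exact hX
  | succ n ih => rw [it_succ, it_succ]; exact bra_mono ih hY

theorem it_le_of_le {X Y Z : AddSubgroup L} (hX : X ≤ Z) (hZ : bra Z Y ≤ Z) (n : ℕ) :
    it X Y n ≤ Z := by
  induction n with
  | zero => exact hX
  | succ n ih => rw [it_succ]; exact (bra_mono ih le_rfl).trans hZ

theorem it_le_of_le_of_le {X Y Z : AddSubgroup L} {m n : ℕ} (hX : it X Y m ≤ Z)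
    (hZ : bra Z Y ≤ Z) (h : m ≤ n) : it X Y n ≤ Z := by
  obtain ⟨k, rfl⟩ := Nat.exists_eq_add_of_le' h
  rw [it_add]
  exact it_le_of_le hX hZ k

theorem it_iSup_le {ι : Sort*} (X : ι → AddSubgroup L) (Y : AddSubgroup L) (n : ℕ) :
    it (⨆ i, X i) Y n ≤ ⨆ i, it (X i) Y n := by
  induction n with
  | zero => exact le_rfl
  | succ n ih =>
    rw [it_succ]
    refine (bra_mono ih le_rfl).trans (bra_iSup_left_le fun i => ?_)
    rw [← it_succ]
    exact le_iSup (fun i => it (X i) Y (n + 1)) i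

theorem it_sup_left_le (X X' Y : AddSubgroup L) (n : ℕ) :
    it (X ⊔ X') Y n ≤ it X Y n ⊔ it X' Y n := by
  induction n with
  | zero => exact le_rfl
  | succ n ih =>
    rw [it_succ, it_succ, it_succ]
    exact (bra_mono ih le_rfl).trans (bra_sup_left_le le_sup_left le_sup_right)

theorem it_bra_le {X Z Y Y' W : AddSubgroup L} (hX : bra X Y' ≤ X) (hZ : bra Z Y' ≤ Z)
    (hc : bra X (bra Y Y') ≤ Z) (hW : W ≤ X) (b : ℕ) :
    it (bra W Y) Y' b ≤ bra (it W Y' b) Y ⊔ Z := by
  induction b with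
  | zero => exact le_sup_left
  | succ b ih =>
    rw [it_succ, it_succ]
    refine (bra_mono ih le_rfl).trans (bra_sup_left_le ?_ (hZ.trans le_sup_right))
    refine (bra_bra_le _ _ _).trans (sup_le_sup_left ?_ _)
    exact (bra_mono (it_le_of_le hW hX b) le_rfl).trans hc

theorem it_sup_le {X Z Y Y' : AddSubgroup L} (hX : bra X Y ≤ X) (hX' : bra X Y' ≤ X)
    (hZ : bra Z Y ≤ Z) (hZ' : bra Z Y' ≤ Z) (hc : bra X (bra Y Y') ≤ Z) (n : ℕ) :
    ∀ a b : ℕ, a + b = n → ∀ W ≤ X, it W Y a ≤ Z → it W Y' b ≤ Z → it W (Y ⊔ Y') n ≤ Z := by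
  induction n with
  | zero =>
    intro a b hab W _ ha _
    obtain rfl : a = 0 := by omega
    exact ha
  | succ n ih =>
    intro a b hab W hW ha hb
    rcases a with _ | a
    · exact it_le_of_le ha (bra_sup_right_le hZ hZ') _
    rcases b with _ | b
    · exact it_le_of_le hb (bra_sup_right_le hZ hZ') _
    rw [it_succ']
    refine (it_mono (bra_sup_right_le (Z := bra W Y ⊔ bra W Y') le_sup_left le_sup_right)
      le_rfl n).trans ((it_sup_left_le _ _ _ _).trans (sup_le ?_ ?_))
    · refine ih a (b + 1) (by omega) _ ((bra_mono hW le_rfl).trans hX) (by rwa [← it_succ']) ?_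
      exact (it_bra_le hX' hZ' hc hW _).trans (sup_le ((bra_mono hb le_rfl).trans hZ) le_rfl)
    · refine ih (a + 1) b (by omega) _ ((bra_mono hW le_rfl).trans hX') ?_ (by rwa [← it_succ'])
      exact (it_bra_le hX hZ ((bra_mono le_rfl (bra_comm_le _ _)).trans hc) hW _).trans
        (sup_le ((bra_mono ha le_rfl).trans hZ') le_rfl)

theorem it_finsup_le {ι : Type*} {X Z K : AddSubgroup L} (hX : bra X K ≤ X) (hZ : bra Z K ≤ Z)
    (hc : bra X (bra K K) ≤ Z) (Y : ι → AddSubgroup L) (hY : ∀ l, Y l ≤ K) {m : ℕ}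
    (hm : ∀ l, it X (Y l) m ≤ Z) (s : Finset ι) : it X (s.sup Y) (s.card * m + 1) ≤ Z := by
  classical
  induction s using Finset.induction_on with
  | empty =>
    simp only [Finset.sup_empty, Finset.card_empty, zero_mul, zero_add]
    rw [it_succ, bra_bot_right]
    exact bot_le
  | insert a s ha ih =>
    have hs : s.sup Y ≤ K := Finset.sup_le fun l _ => hY l
    rw [Finset.sup_insert, Finset.card_insert_of_notMem ha]
    refine it_sup_le ((bra_mono le_rfl (hY a)).trans hX) ((bra_mono le_rfl hs).trans hX)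
      ((bra_mono le_rfl (hY a)).trans hZ) ((bra_mono le_rfl hs).trans hZ)
      ((bra_mono le_rfl (bra_mono (hY a) hs)).trans hc) _ m (s.card * m + 1) (by ring) X le_rfl
      (hm a) ih

/-- The derived series of an additive subgroup. -/
def der (X : AddSubgroup L) (n : ℕ) : AddSubgroup L := (fun Z => bra Z Z)^[n] X

theorem der_zero (X : AddSubgroup L) : der X 0 = X := rfl

theorem der_succ (X : AddSubgroup L) (n : ℕ) : der X (n + 1) = bra (der X n) (der X n) :=
  Function.iterate_succ_apply' _ _ _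

theorem der_succ' (X : AddSubgroup L) (n : ℕ) : der X (n + 1) = der (bra X X) n :=
  Function.iterate_succ_apply _ _ _

theorem der_mono {X X' : AddSubgroup L} (hX : X ≤ X') (n : ℕ) : der X n ≤ der X' n := by
  induction n with
  | zero => exact hX
  | succ n ih => rw [der_succ, der_succ]; exact bra_mono ih ih

/-- A solvable subring all of whose derived terms are spanned by boundedly many nilpotently
acting pieces acts nilpotently. -/
theorem it_top_eq_bot {ι : Type*} [Finite ι] {t m : ℕ} (ht : Nat.card ι ≤ t)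
    (h : ι → AddSubgroup L) (hm : ∀ l, it ⊤ (h l) m = ⊥) (good : AddSubgroup L → Prop)
    (hg1 : ∀ K, good K → K ≤ ⨆ l, K ⊓ h l) (hg2 : ∀ K, good K → good (bra K K)) (s : ℕ) :
    ∀ K, good K → bra K K ≤ K → der K s = ⊥ → it ⊤ K ((t * m + 1) ^ s) = ⊥ := by
  classical
  have := Fintype.ofFinite ι
  induction s with
  | zero =>
    intro K _ _ hK
    rw [der_zero] at hK
    rw [hK, pow_zero]
    exact (it_succ _ _ 0).trans (bra_bot_right _)
  | succ s ih =>
    intro K hK hKK hs
    rw [der_succ'] at hs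
    have h1 := ih _ (hg2 K hK) (bra_mono hKK hKK) hs
    have h2 : ∀ j, bra (it ⊤ (bra K K) j) K ≤ it ⊤ (bra K K) j := by
      intro j
      induction j with
      | zero => exact le_top
      | succ j ih =>
        rw [it_succ]
        exact (bra_bra_le _ _ _).trans (sup_le (bra_mono ih le_rfl)
          (bra_mono le_rfl (bra_mono hKK le_rfl)))
    have h3 : ∀ j, it ⊤ K ((t * m + 1) * j) ≤ it ⊤ (bra K K) j := by
      intro j
      induction j with
      | zero => exact le_top
      | succ j ih =>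
        rw [mul_add, mul_one, add_comm, it_add]
        refine (it_mono ih le_rfl _).trans ?_
        have h4 := it_finsup_le (h2 j) (h2 (j + 1)) (it_succ _ _ _).ge (fun l => K ⊓ h l)
          (fun l => inf_le_left) (m := m)
          (fun l => (it_mono le_top inf_le_right m).trans ((hm l).le.trans bot_le)) Finset.univ
        have h5 : K ≤ Finset.univ.sup fun l => K ⊓ h l := by
          rw [Finset.sup_univ_eq_iSup]; exact hg1 K hK
        refine it_le_of_le_of_le ((it_mono le_rfl h5 _).trans h4) (h2 (j + 1)) ?_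
        rw [Finset.card_univ, ← Nat.card_eq_fintype_card]
        have := Nat.mul_le_mul_right m ht
        omega
    rw [pow_succ']
    exact le_bot_iff.1 ((h3 _).trans h1.le)

theorem Gam_le_it (n : ℕ) : Gam L n ≤ it ⊤ ⊤ n := by
  induction n with
  | zero => exact le_top
  | succ n ih =>
    rw [it_succ]
    refine (AddSubgroup.closure_le _).2 ?_
    rintro z ⟨x, hx, y, rfl⟩
    exact lie_mem_bra (ih hx) (AddSubgroup.mem_top y)

end Basic

section Kreknin

variable {L : Type*} [LieRing L] {n : ℕ} [NeZero n]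

/-- The bound in the generalised Kreknin theorem. -/
def kf (m : ℕ) : ℕ → ℕ
  | 0 => 0
  | k + 1 => kf m k + (kf m k + 1) * m

theorem gen_lie_zero {ι : Type*} [AddCommGroup ι] {A : ι → AddSubgroup L} (hA : D A ≤ A)
    {S : Set ι} {j : ι} {y : L} (hy : Gen A S j y) {x : L} (hx : x ∈ A 0) : Gen A S j ⁅y, x⁆ := by
  induction hy with
  | base ht hz => exact Gen.base ht (lie_mem_of_br_le hA hz hx (add_zero _))
  | zero s => rw [zero_lie]; exact Gen.zero s
  | add _ _ h1 h2 => rw [add_lie]; exact Gen.add h1 h2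
  | neg _ h1 => rw [neg_lie]; exact Gen.neg h1
  | @lie j1 j2 k a b ha hb hk h1 h2 =>
    have e : ⁅⁅a, b⁆, x⁆ = ⁅a, ⁅b, x⁆⁆ + ⁅⁅a, x⁆, b⁆ := by
      rw [lie_lie, ← lie_skew ⁅a, x⁆ b]; abel
    rw [e]
    exact Gen.add (Gen.lie ha h2 hk) (Gen.lie h1 hb hk)

theorem kreknin_gen_aux (m k : ℕ) : ∀ A : ZMod n → AddSubgroup L, D A ≤ A →
    (∀ i, it (A i) (A 0) m = ⊥) → D^[kf m k] A ≤ gen A {s | k ≤ s.val} := by
  induction k with
  | zero =>
    intro A _ _ s x hx
    exact Gen.base (Nat.zero_le _) hx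
  | succ k ih =>
    intro A hA h0
    have hsub : ∀ M : ZMod n → AddSubgroup L, M ≤ A → ∀ i, it (M i) (M 0) m = ⊥ :=
      fun M hM i => le_bot_iff.1 ((it_mono (hM i) (hM 0) m).trans (h0 i).le)
    have key : ∀ j, ∀ s : ZMod n, s.val = k →
        (D^[(kf m k + 1) * j] A) s ≤ gen A {s | k + 1 ≤ s.val} s ⊔ it (A s) (A 0) j := by
      intro j s hs
      induction j with
      | zero => exact le_sup_right
      | succ j ihj =>
        rw [mul_add, mul_one, add_comm ((kf m k + 1) * j), Function.iterate_add_apply]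
        set M := D^[(kf m k + 1) * j] A with hM
        have hMA : M ≤ A := (D_iter_le hA _).1
        have hMM : D M ≤ M := (D_iter_le hA _).2
        intro z hz
        rw [Function.iterate_succ_apply'] at hz
        have hz' : z ∈ br M (gen M {s | k ≤ s.val}) s :=
          br_mono (D_iter_le hMM _).1 (ih M hMM (hsub M hMA)) s hz
        refine br_induction
          (P := fun z => z ∈ gen A {s | k + 1 ≤ s.val} s ⊔ it (A s) (A 0) (j + 1)) ?_ (zero_mem _)
          (fun _ _ => add_mem) (fun _ => neg_mem) hz'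
        intro i j' x y hx hy hij
        refine lie_gen_mem hMM (W := gen A {s | k + 1 ≤ s.val} s ⊔ it (A s) (A 0) (j + 1)) ?_
          hy i hij x hx
        intro t ht i hi x hx z hz
        have ht' : k ≤ t.val := ht
        by_cases hts : t = s
        · have : i = 0 := by rw [hts] at hi; simpa using hi
          subst this
          rw [hts] at hz
          obtain ⟨a, ha, b, hb, rfl⟩ := AddSubgroup.mem_sup.1 (ihj hz)
          rw [← lie_skew, add_lie, it_succ]
          exact neg_mem (AddSubgroup.add_mem_sup (gen_lie_zero hA ha (hMA 0 hx))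
            (lie_mem_bra hb (hMA 0 hx)))
        · have ht2 : k + 1 ≤ t.val := by
            have : t.val ≠ s.val := fun h => hts (ZMod.val_injective n h)
            omega
          have hi2 : k + 1 ≤ i.val := by
            have h1 := ZMod.val_add i t
            rw [hi, hs] at h1
            have h2 := ZMod.val_lt i
            have h3 := ZMod.val_lt t
            by_cases h4 : i.val + t.val < n
            · rw [Nat.mod_eq_of_lt h4] at h1; omega
            · rw [Nat.mod_eq_sub_mod (by omega), Nat.mod_eq_of_lt (by omega)] at h1; omega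
          exact AddSubgroup.mem_sup_left
            (Gen.lie (Gen.base hi2 (hMA _ hx)) (Gen.base ht2 (hMA _ hz)) hi)
    change D^[kf m k + (kf m k + 1) * m] A ≤ _
    rw [Function.iterate_add_apply]
    set M := D^[(kf m k + 1) * m] A with hM
    have hMA : M ≤ A := (D_iter_le hA _).1
    refine (ih M (D_iter_le hA _).2 (hsub M hMA)).trans (gen_le (gen_closed _ _) fun s hs => ?_)
    by_cases hs' : k + 1 ≤ s.val
    · exact fun z hz => Gen.base hs' (hMA s hz)
    · have hsk : s.val = k := by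
        have : k ≤ s.val := hs
        omega
      have := key m s hsk
      rwa [h0, sup_bot_eq] at this

/-- The generalised Kreknin theorem. -/
theorem kreknin_gen {m : ℕ} {A : ZMod n → AddSubgroup L} (hA : D A ≤ A)
    (h0 : ∀ i, it (A i) (A 0) m = ⊥) : D^[kf m n] A = ⊥ := by
  refine le_bot_iff.1 ((kreknin_gen_aux m n A hA h0).trans (gen_le ?_ ?_))
  · refine br_le fun i j x y hx _ => ?_
    have : x = 0 := hx
    subst this
    simp
  · intro s hs
    have : n ≤ s.val := hs
    have := ZMod.val_lt s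
    omega

end Kreknin

theorem mem_of_smul_mem {M : Type*} [AddCommGroup M] {e q : ℕ} (h : e.Coprime q)
    (he : ∀ x : M, e • x = 0) {X : AddSubgroup M} {x : M} (hx : q • x ∈ X) : x ∈ X := by
  obtain ⟨a, b, hab⟩ := (Nat.isCoprime_iff_coprime.2 h)
  have : x = a • ((e : ℤ) • x) + b • ((q : ℤ) • x) := by
    rw [smul_smul, smul_smul, ← add_smul, hab, one_smul]
  rw [this, natCast_zsmul, natCast_zsmul, he, smul_zero, zero_add]
  exact zsmul_mem hx b

section Ext

variable {K R : Type} [CommRing K] [CommRing R] [Algebra K R] {L : Type u} [LieRing L]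
  [LieAlgebra K L]

theorem der_top_eq_bot_aux {p : ℕ} [Fact p.Prime] {m : ℕ}
    {d : ℕ} (b : Module.Basis (Fin d) K R) (i₀ : Fin d) (hb : b i₀ = 1) (ω : R)
    (hω : ∑ i ∈ Finset.range p, ω ^ i = 0)
    (φ : L →ₗ[K] L) (hφ : ∀ x y, φ ⁅x, y⁆ = ⁅φ x, φ y⁆) (hφp : φ ^ p = 1) (e : ℕ)
    (hep : e.Coprime p) (he : ∀ x : L, e • x = 0) (C : AddSubgroup L)
    (hC : ∀ x, φ x = x → x ∈ C) (hm : it ⊤ C m = ⊥) : der (⊤ : AddSubgroup L) (kf m p) = ⊥ := by
  classical
  have hp : p.Prime := Fact.out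
  have : NeZero p := ⟨hp.ne_zero⟩
  have hωp : ω ^ p = 1 := by
    have := mul_geom_sum ω p
    rw [hω, mul_zero] at this
    exact (sub_eq_zero.1 this.symm)
  let χ : AddChar (ZMod p) R := AddChar.zmodChar p hωp
  have hχ : ∑ s : ZMod p, χ s = 0 := by
    rw [← hω]
    refine Finset.sum_bij (fun s _ => s.val) (fun s _ => Finset.mem_range.2 (ZMod.val_lt s))
      (fun s _ t _ h => ZMod.val_injective p h)
      (fun i hi => ⟨(i : ZMod p), Finset.mem_univ _, ZMod.val_cast_of_lt (Finset.mem_range.1 hi)⟩)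
      (fun s _ => rfl)
  let ψ : Module.End R (R ⊗[K] L) := LinearMap.baseChange R φ
  have hψp : ψ ^ p = 1 := by
    simp only [ψ]
    rw [← LinearMap.baseChange_pow, hφp, LinearMap.baseChange_one]
  have hψ : ∀ x y, ψ ⁅x, y⁆ = ⁅ψ x, ψ y⁆ := by
    intro x y
    induction x using TensorProduct.induction_on with
    | zero => simp
    | add a b ha hb => simp [add_lie, ha, hb]
    | tmul r a =>
      induction y using TensorProduct.induction_on with
      | zero => simp
      | add a b ha hb => simp only [lie_add, map_add, ha, hb]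
      | tmul s b => simp [ψ, hφ]
  let A : ZMod p → AddSubgroup (R ⊗[K] L) := fun i =>
    { carrier := {x | ψ x = χ i • x}
      zero_mem' := by simp
      add_mem' := by
        intro a b ha hb
        simp only [Set.mem_ofPred_eq] at ha hb ⊢
        rw [map_add, ha, hb, smul_add]
      neg_mem' := by
        intro a ha
        simp only [Set.mem_ofPred_eq] at ha ⊢
        rw [map_neg, ha, smul_neg] }
  have hA : ∀ i j x y, x ∈ A i → y ∈ A j → ⁅x, y⁆ ∈ A (i + j) := by
    intro i j x y hx hy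
    change ψ x = χ i • x at hx
    change ψ y = χ j • y at hy
    change ψ ⁅x, y⁆ = χ (i + j) • ⁅x, y⁆
    rw [hψ, hx, hy, smul_lie, lie_smul, smul_smul, AddChar.map_add_eq_mul]
  let ext : AddSubgroup L → AddSubgroup (R ⊗[K] L) := fun X =>
    AddSubgroup.closure {z | ∃ r : R, ∃ x ∈ X, z = r ⊗ₜ[K] x}
  have hext : ∀ (X : AddSubgroup L) (r : R), ∀ x ∈ X, r ⊗ₜ[K] x ∈ ext X :=
    fun X r x hx => AddSubgroup.subset_closure ⟨r, x, hx, rfl⟩
  have hextb : ∀ X Y, bra (ext X) (ext Y) ≤ ext (bra X Y) := by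
    intro X Y
    refine bra_closure_le ?_
    rintro _ ⟨r, x, hx, rfl⟩ _ ⟨s, y, hy, rfl⟩
    rw [LieAlgebra.ExtendScalars.bracket_tmul]
    exact hext _ _ _ (lie_mem_bra hx hy)
  have hA0 : A 0 ≤ ext C := by
    intro x hx
    change ψ x = χ 0 • x at hx
    rw [AddChar.map_zero_eq_one, one_smul] at hx
    have hco : ∀ (f : R →ₗ[K] K) (t : R ⊗[K] L), coord f (ψ t) = φ (coord f t) := by
      intro f t
      induction t using TensorProduct.induction_on with
      | zero => simp
      | add a b ha hb => simp only [map_add, ha, hb]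
      | tmul r a => simp [ψ, coord_tmul]
    rw [eq_sum_coord b x]
    exact sum_mem fun i _ => hext _ _ _ (hC _ (by rw [← hco, hx]))
  have htop : ⊤ ≤ ext ⊤ := by
    intro x _
    rw [eq_sum_coord b x]
    exact sum_mem fun i _ => hext _ _ _ (AddSubgroup.mem_top _)
  have hit : ∀ j, it ⊤ (A 0) j ≤ ext (it ⊤ C j) := by
    intro j
    induction j with
    | zero => exact htop
    | succ j ih =>
      rw [it_succ, it_succ]
      exact (bra_mono ih hA0).trans (hextb _ _)
  have hit0 : ∀ i, it (A i) (A 0) m = ⊥ := by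
    intro i
    refine le_bot_iff.1 ((it_mono le_top le_rfl m).trans ((hit m).trans ?_))
    rw [hm]
    refine (AddSubgroup.closure_le _).2 ?_
    rintro _ ⟨r, x, hx, rfl⟩
    rw [AddSubgroup.mem_bot] at hx
    simp [hx]
  have he' : ∀ x : R ⊗[K] L, e • x = 0 := by
    intro x
    rw [eq_sum_coord b x, Finset.smul_sum]
    refine Finset.sum_eq_zero fun i _ => ?_
    rw [← TensorProduct.tmul_smul, he, TensorProduct.tmul_zero]
  have hpx : ∀ x : R ⊗[K] L, p • x ∈ ⨆ i, A i := by
    intro x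
    have hpow : ∀ s : ZMod p, ψ ^ (s + 1).val = ψ * ψ ^ s.val := by
      intro s
      rw [ZMod.val_add, ← pow_eq_pow_mod _ hψp, ZMod.val_one, pow_succ']
    have h1 : ∀ i : ZMod p, ∑ s : ZMod p, χ (-(i * s)) • (ψ ^ s.val) x ∈ A i := by
      intro i
      change ψ _ = χ i • _
      rw [map_sum, Finset.smul_sum, ← Equiv.sum_comp (Equiv.addRight (1 : ZMod p))
        (fun s => χ i • χ (-(i * s)) • (ψ ^ s.val) x)]
      refine Finset.sum_congr rfl fun s _ => ?_
      simp only [Equiv.coe_addRight]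
      rw [hpow, smul_smul, ← AddChar.map_add_eq_mul, map_smul, Module.End.mul_apply,
        show i + -(i * (s + 1)) = -(i * s) by ring]
    have h2 : ∑ i : ZMod p, ∑ s : ZMod p, χ (-(i * s)) • (ψ ^ s.val) x = p • x := by
      rw [Finset.sum_comm, Finset.sum_eq_single (0 : ZMod p)]
      · simp [ZMod.card]
      · intro s _ hs
        rw [← Finset.sum_smul]
        have : ∑ i : ZMod p, χ (-(i * s)) = 0 := by
          rw [← hχ, ← Equiv.sum_comp (Equiv.mulRight₀ (-s) (neg_ne_zero.2 hs)) χ]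
          simp
        rw [this, zero_smul]
      · simp
    rw [← h2]
    exact sum_mem fun i _ => AddSubgroup.mem_iSup_of_mem i (h1 i)
  have hbot := kreknin_gen (br_le hA) hit0
  have key : ∀ n, ∀ z ∈ der (⊤ : AddSubgroup L) n, (1 : R) ⊗ₜ[K] z ∈ ⨆ i, (D^[n] A) i := by
    intro n
    induction n with
    | zero => intro z _; exact mem_of_smul_mem hep he' (hpx _)
    | succ n ih =>
      intro z hz
      rw [der_succ] at hz
      induction hz using AddSubgroup.closure_induction with
      | mem z hz =>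
        obtain ⟨x, hx, y, hy, rfl⟩ := hz
        have := lie_mem_iSup (ih x hx) (ih y hy)
        rw [LieAlgebra.ExtendScalars.bracket_tmul, one_mul] at this
        rwa [Function.iterate_succ_apply']
      | zero => simp
      | add x y _ _ hx hy =>
        rw [TensorProduct.tmul_add]; exact add_mem hx hy
      | neg x _ hx =>
        rw [TensorProduct.tmul_neg]; exact neg_mem hx
  rw [eq_bot_iff]
  intro z hz
  have h3 := key _ z hz
  rw [hbot] at h3
  simp only [Pi.bot_apply, iSup_bot, AddSubgroup.mem_bot] at h3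
  have h4 := congrArg (coord (b.coord i₀)) h3
  rw [coord_tmul, map_zero, ← hb] at h4
  simpa using h4

end Ext

open Polynomial in
/-- A Lie ring with an automorphism of prime order whose fixed points act nilpotently is
solvable of bounded derived length. -/
theorem der_top_eq_bot {p : ℕ} [Fact p.Prime] {m : ℕ}
    {L : Type u} [LieRing L] (φ : L →+ L) (hφ : ∀ x y, φ ⁅x, y⁆ = ⁅φ x, φ y⁆)
    (hφp : ∀ x, φ^[p] x = x) (e : ℕ) (hep : e.Coprime p) (he : ∀ x : L, e • x = 0)
    (C : AddSubgroup L) (hC : ∀ x, φ x = x → x ∈ C) (hm : it ⊤ C m = ⊥) :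
    der (⊤ : AddSubgroup L) (kf m p) = ⊥ := by
  have hp : p.Prime := Fact.out
  have hmo : (cyclotomic p ℤ).Monic := cyclotomic.monic p ℤ
  let pb := AdjoinRoot.powerBasis' hmo
  have hd : 0 < pb.dim := by
    change 0 < (cyclotomic p ℤ).natDegree
    rw [natDegree_cyclotomic]
    exact Nat.totient_pos.2 hp.pos
  refine der_top_eq_bot_aux pb.basis ⟨0, hd⟩ (by simp) (AdjoinRoot.root (cyclotomic p ℤ)) ?_
    φ.toIntLinearMap hφ ?_ e hep he C hC hm
  · have := AdjoinRoot.aeval_eq (f := cyclotomic p ℤ) (cyclotomic p ℤ)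
    rw [AdjoinRoot.mk_self] at this
    rw [← this]
    generalize AdjoinRoot.root (cyclotomic p ℤ) = w
    have h2 : aeval w (cyclotomic p ℤ) = aeval w (∑ i ∈ Finset.range p, (X : ℤ[X]) ^ i) :=
      congrArg _ (cyclotomic_prime ℤ p)
    rw [h2]
    simp
  · ext x
    rw [Module.End.pow_apply]
    exact hφp x

end Cfsg.Agent.FGS.Shum
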