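import Mathlib
import Cfsg.Agent.Solv.ExtAction
import Cfsg.Agent.PLocal.Hyperplane
import Cfsg.Agent.PLocal.CommMod

/-!
# Coprime action of an elementary abelian group: generation by centralizers of hyperplanes and
a nilpotency criterion
-/

set_option autoImplicit false

open Cfsg
open scoped commutatorElement

namespace Cfsg.Agent.FGS.Shum

open Subgroup Solv.Ext PLocal.CommMod

universe u

/-- The acting group is a nontrivial elementary abelian `p`-group. -/
structure EA (p : ℕ) (A : Type*) [Group A] : Prop where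
  comm : ∀ a b : A, a * b = b * a
  pow : ∀ a : A, a ^ p = 1
  nt : Nontrivial A

variable {A : Type*} [Group A] [Finite A] {p : ℕ} [Fact p.Prime]

/-- The fixed points of a subgroup of the acting group. -/
abbrev CF (G : Type*) [Group G] [MulDistribMulAction A G] (B : Subgroup A) : Subgroup G :=
  FixedPoints.subgroup B G

omit [Finite A] in
theorem mem_CF {G : Type*} [Group G] [MulDistribMulAction A G] {B : Subgroup A} {x : G} :
    x ∈ CF G B ↔ ∀ b ∈ B, b • x = x :=
  ⟨fun h b hb => h ⟨b, hb⟩, fun h b => h b.1 b.2⟩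

omit [Finite A] in
theorem CF_anti {G : Type*} [Group G] [MulDistribMulAction A G] {B B' : Subgroup A} (h : B ≤ B') :
    CF G B' ≤ CF G B := fun _ hx => mem_CF.2 fun b hb => mem_CF.1 hx b (h hb)

omit [Finite A] [Fact p.Prime] in
theorem EA.inv_CF (hA : EA p A) {G : Type*} [Group G] [MulDistribMulAction A G] (B : Subgroup A) :
    Inv A (CF G B) := by
  intro a x hx
  refine mem_CF.2 fun b hb => ?_
  rw [← mul_smul, hA.comm, mul_smul, mem_CF.1 hx b hb]

omit [Finite A] [Fact p.Prime] in
theorem EA.isPGroup (hA : EA p A) : IsPGroup p A := fun a => ⟨1, by rw [pow_one, hA.pow]⟩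

theorem EA.coprime (hA : EA p A) (B : Subgroup A) {n : ℕ} (hn : n.Coprime p) :
    (Nat.card B).Coprime n := by
  obtain ⟨k, hk⟩ := (hA.isPGroup.to_subgroup B).exists_card_eq
  rw [hk]
  exact hn.symm.pow_left k

omit [Finite A] [Fact p.Prime] in
theorem EA.isSolvable (hA : EA p A) (B : Subgroup A) : Group.IsSolvable B :=
  Group.isSolvable_of_comm fun a b => Subtype.ext (hA.comm a b)

theorem EA.gen (hA : EA p A) {G : Type*} [Group G] [Finite G] [MulDistribMulAction A G]
    {K : Subgroup G} (hK : Inv A K) (hcop : (Nat.card K).Coprime p) (L : Subgroup G)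
    (hL : ∀ B : Subgroup A, B.index = p → K ⊓ CF G B ≤ L) : K ≤ L := by
  have := finite_SD (A := A) (G := G)
  have h1 : IsElementaryAbelian p (iA A G).range := by
    refine PLocal.isEA_iff.2 ⟨?_, ?_⟩
    · rintro _ ⟨a, rfl⟩ _ ⟨b, rfl⟩
      rw [← map_mul, ← map_mul, hA.comm]
    · rintro _ ⟨a, rfl⟩
      rw [← map_pow, hA.pow, map_one]
  have h2 : (iA A G).range ≠ ⊥ := by
    have := hA.nt
    obtain ⟨a, ha⟩ := exists_ne (1 : A)
    intro h
    have : iA A G a ∈ (⊥ : Subgroup (SD A G)) := h ▸ ⟨a, rfl⟩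
    exact ha (iA_injective (G := G) (by rw [mem_bot.1 this, map_one]))
  have h3 := PLocal.le_of_hyperplane_centralizers_le h1 h2 (inv_iff_le_normalizer.1 hK)
    (by rwa [card_map_iG]) (L.map (iG A G)) (by
      rintro B' - hi _ ⟨⟨k, hk, rfl⟩, hc⟩
      refine ⟨k, hL (B'.comap (iA A G)) (by rwa [Subgroup.index_comap]) ⟨hk, ?_⟩, rfl⟩
      refine mem_CF.2 fun b hb => iG_injective (A := A) ?_
      rw [iG_smul, hc _ hb, mul_inv_cancel_right])
  exact (Subgroup.map_le_map_iff_of_injective iG_injective).1 h3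

theorem EA.gen_add (hA : EA p A) {M : Type*} [AddCommGroup M] [Finite M] (φ : A → M →+ M)
    (h1 : ∀ x, φ 1 x = x) (hmul : ∀ a b x, φ (a * b) x = φ a (φ b x))
    (hcop : (Nat.card M).Coprime p) {X : AddSubgroup M} (hX : ∀ a, ∀ x ∈ X, φ a x ∈ X)
    (Z : AddSubgroup M)
    (hZ : ∀ B : Subgroup A, B.index = p → ∀ x ∈ X, (∀ b ∈ B, φ b x = x) → x ∈ Z) : X ≤ Z := by
  let _ : MulDistribMulAction A (Multiplicative M) :=
    { smul := fun a x => Multiplicative.ofAdd (φ a x.toAdd)
      one_smul := fun x => h1 _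
      mul_smul := fun a b x => hmul a b _
      smul_mul := fun a x y => map_add (φ a) _ _
      smul_one := fun a => map_zero (φ a) }
  have := hA.gen (G := Multiplicative M) (K := AddSubgroup.toSubgroup X)
    (fun a x hx => hX a _ hx)
    (Nat.Coprime.coprime_dvd_left (Subgroup.card_subgroup_dvd_card _) hcop)
    (AddSubgroup.toSubgroup Z) (fun B hB x hx => hZ B hB _ hx.1 (mem_CF.1 hx.2))
  exact fun x hx => this (x := Multiplicative.ofAdd x) hx

theorem mem_of_pow_mem_coprime {G : Type*} [Group G] {M : Subgroup G} {x : G} {a b : ℕ}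
    (h : a.Coprime b) (ha : x ^ a ∈ M) (hb : x ^ b ∈ M) : x ∈ M := by
  obtain ⟨u, v, huv⟩ := Nat.isCoprime_iff_coprime.2 h
  have : x = (x ^ a) ^ u * (x ^ b) ^ v := by
    rw [← zpow_natCast, ← zpow_natCast, ← zpow_mul, ← zpow_mul, ← zpow_add, mul_comm (a : ℤ),
      mul_comm (b : ℤ), huv, zpow_one]
  rw [this]
  exact mul_mem (zpow_mem ha u) (zpow_mem hb v)

theorem commutator_eq_one_of_iterate {G : Type*} [Group G] {V : Subgroup G} [hV : V.Normal]
    {r n : ℕ} (hr : ∀ v ∈ V, v ^ r = 1) {y : G} (hy : y ^ n = 1) (hn : r.Coprime n) (j : ℕ) :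
    ∀ v ∈ V, (fun w => ⁅w, y⁆)^[j] v = 1 → ⁅v, y⁆ = 1 := by
  induction j with
  | zero => intro v _ h; rw [show v = 1 from h]; simp
  | succ j ih =>
    intro v hv h
    have hu : ⁅v, y⁆ ∈ V := by
      rw [commutatorElement_def, mul_assoc, mul_assoc]
      exact mul_mem hv (by simpa [mul_assoc] using hV.conj_mem _ (inv_mem hv) y)
    have h1 := ih _ hu h
    rw [commutatorElement_eq_one_iff_commute] at h1
    have h2 : ⁅v, y⁆ * y = v * y * v⁻¹ := by rw [commutatorElement_def]; group
    have h3 : ⁅v, y⁆ ^ n = 1 := by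
      have := h1.mul_pow n
      rw [h2, conj_pow, hy] at this
      simpa using this.symm
    exact mem_bot.1 (mem_of_pow_mem_coprime hn (mem_bot.2 (hr _ hu)) (mem_bot.2 h3))

theorem iterate_mem_iter {G : Type*} [Group G] {X H : Subgroup G} {v y : G} (hv : v ∈ X)
    (hy : y ∈ H) (j : ℕ) : (fun w => ⁅w, y⁆)^[j] v ∈ iterCommutator X H j := by
  induction j with
  | zero => exact hv
  | succ j ih =>
    rw [Function.iterate_succ_apply', iter_succ]
    exact commutator_mem_commutator ih hy

/-- A solvable group generated by subgroups acting nilpotently on the centralizers of the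
hyperplanes is nilpotent. -/
theorem EA.isNilpotent (hA : EA p A) {ι : Type*} (m n : ℕ) :
    ∀ (G : Type u) [Group G] [Finite G] [MulDistribMulAction A G], Nat.card G = n →
      (Nat.card G).Coprime p → Group.IsSolvable G → ∀ H : ι → Subgroup G, ⨆ l, H l = ⊤ →
      (∀ l (B : Subgroup A), B.index = p → iterCommutator (CF G B) (H l) m = ⊥) →
      Group.IsNilpotent G := by
  induction n using Nat.strong_induction_on with
  | _ n ih =>
  intro G _ _ _ hn hcop hsol H hH hm
  rcases subsingleton_or_nontrivial G with hG | hG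
  · infer_instance
  obtain ⟨V, -, hV1, hVi, hVn, hmin⟩ := exists_minimal_inv_normal_le (A := A) (G := G) inv_top
    inferInstance top_ne_bot
  have hab : ⁅V, V⁆ = ⊥ :=
    hmin _ (Group.IsSolvable.commutator_lt_of_ne_bot hV1) (hVi.commutator hVi) inferInstance
  have hcomm : ∀ x ∈ V, ∀ y ∈ V, x * y = y * x := fun x hx y hy =>
    commutatorElement_eq_one_iff_mul_comm.1
      (mem_bot.1 (hab ▸ commutator_mem_commutator hx hy))
  obtain ⟨r, hr, hrV⟩ := Nat.exists_prime_and_dvd (n := Nat.card V)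
    (fun h => hV1 (card_eq_one.1 h))
  have := Fact.mk hr
  have hVr : ∀ v ∈ V, v ^ r = 1 := by
    let U : Subgroup G :=
      { carrier := {x | x ∈ V ∧ x ^ r = 1}
        one_mem' := ⟨one_mem _, one_pow _⟩
        mul_mem' := by
          rintro a b ⟨ha, ha'⟩ ⟨hb, hb'⟩
          refine ⟨mul_mem ha hb, ?_⟩
          rw [Commute.mul_pow (hcomm a ha b hb), ha', hb', one_mul]
        inv_mem' := by
          rintro a ⟨ha, ha'⟩
          exact ⟨inv_mem ha, by rw [inv_pow, ha', inv_one]⟩ }
    have hUV : U ≤ V := fun x hx => hx.1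
    by_contra hne
    have hlt : U < V := lt_of_le_of_ne hUV fun h => hne fun v hv => (h ▸ hv : v ∈ U).2
    have hU := hmin U hlt (fun a x hx => ⟨hVi a x hx.1, by rw [← smul_pow', hx.2, smul_one]⟩)
      ⟨fun x hx g => ⟨hVn.conj_mem x hx.1 g, by rw [conj_pow, hx.2]; simp⟩⟩
    obtain ⟨x, hx⟩ := exists_prime_orderOf_dvd_card' r hrV
    have h1 : (x : G) ∈ U := ⟨x.2, by
      rw [← hx, ← Subgroup.coe_pow, pow_orderOf_eq_one]; rfl⟩
    rw [hU, mem_bot] at h1
    have : x = 1 := Subtype.ext h1
    rw [this, orderOf_one] at hx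
    exact hr.one_lt.ne hx
  have hcV : (Nat.card V).Coprime p :=
    Nat.Coprime.coprime_dvd_left (Subgroup.card_subgroup_dvd_card _) hcop
  obtain ⟨_, hq⟩ := exists_quotAction hVi
  have hnil : Group.IsNilpotent (G ⧸ V) := by
    refine ih (Nat.card (G ⧸ V)) ?_ (G ⧸ V) rfl
      (Nat.Coprime.coprime_dvd_left (Subgroup.card_quotient_dvd_card _) hcop) inferInstance
      (fun l => (H l).map (QuotientGroup.mk' V)) ?_ ?_
    · rw [← hn, Subgroup.card_eq_card_quotient_mul_card_subgroup V]
      exact lt_mul_of_one_lt_right Nat.card_pos ((one_lt_card_iff_ne_bot V).2 hV1)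
    · rw [← Subgroup.map_iSup, hH]
      exact map_top_of_surjective _ (QuotientGroup.mk'_surjective V)
    · intro l B hB
      have h1 : CF (G ⧸ V) B ≤ (CF G B).map (QuotientGroup.mk' V) := by
        intro y hy
        obtain ⟨c, hc, rfl⟩ := exists_fixed_lift (A := B) (N := V) (fun b x => hq b x)
          (hVi.subgroup B) (hA.coprime B hcV) (Or.inl (hA.isSolvable B)) y hy
        exact ⟨c, hc, rfl⟩
      refine le_bot_iff.1 ((iter_mono h1 le_rfl m).trans ?_)
      rw [← map_iter, hm l B hB, Subgroup.map_bot]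
  obtain ⟨P₀⟩ : Nonempty (Sylow r (G ⧸ V)) := inferInstance
  let P : Subgroup G := (P₀ : Subgroup (G ⧸ V)).comap (QuotientGroup.mk' V)
  have hVp : IsPGroup r V := fun v => ⟨1, Subtype.ext (by simpa using hVr v v.2)⟩
  have hP : IsPGroup r P := P₀.2.comap_of_ker_isPGroup _ (by rwa [QuotientGroup.ker_mk'])
  have hVP : V ≤ P := fun v hv => by
    change QuotientGroup.mk' V v ∈ (P₀ : Subgroup (G ⧸ V))
    rw [QuotientGroup.mk'_apply, (QuotientGroup.eq_one_iff v).2 hv]
    exact one_mem _
  have := hP.isNilpotent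
  obtain ⟨c, hcV', hc1, hc⟩ := exists_not_mem_commutator_mem (X := V) (Y := ⊥) (Q := P)
    le_normalizer_of_normal
    ((exists_iter_eq_bot hVP le_rfl).imp fun _ h => h.le) (fun h => hV1 (le_bot_iff.1 h))
  have htop : ⊤ ≤ centralizer {c} := by
    rw [← hH]
    refine iSup_le fun l x hx => ?_
    obtain ⟨j, n', hn', ho⟩ := Nat.exists_eq_pow_mul_and_not_dvd (orderOf_pos x).ne' r hr.ne_one
    have hrn : r.Coprime n' := (Nat.Prime.coprime_iff_not_dvd hr).2 hn'
    refine mem_of_pow_mem_coprime (hrn.pow_left j) ?_ ?_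
    · have h1 : V ≤ centralizer {x ^ r ^ j} := by
        refine hA.gen hVi hcV _ fun B hB v hv => ?_
        rw [mem_centralizer_singleton_iff, ← commutatorElement_eq_one_iff_mul_comm]
        refine commutator_eq_one_of_iterate hVr (n := n')
          (by rw [← pow_mul, ← ho, pow_orderOf_eq_one]) hrn m v hv.1 ?_
        exact mem_bot.1 (hm l B hB ▸ iterate_mem_iter hv.2 (pow_mem hx _) m)
      exact mem_centralizer_singleton_iff.2 (mem_centralizer_singleton_iff.1 (h1 hcV')).symm
    · have h1 : x ^ n' ∈ P := by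
        have h2 : IsPGroup r (zpowers (QuotientGroup.mk' V (x ^ n'))) := by
          rintro ⟨_, k, rfl⟩
          refine ⟨j, Subtype.ext ?_⟩
          change ((QuotientGroup.mk' V (x ^ n')) ^ k) ^ r ^ j = 1
          rw [← zpow_natCast, ← zpow_mul, mul_comm, zpow_mul, zpow_natCast, ← map_pow, ← pow_mul,
            mul_comm, ← ho, pow_orderOf_eq_one, map_one, one_zpow]
        obtain ⟨Q, hQ⟩ := h2.exists_le_sylow
        have := P₀.unique_of_normal inferInstance
        rw [Subsingleton.elim Q P₀] at hQ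
        exact hQ (mem_zpowers _)
      have := mem_bot.1 (hc _ h1).2
      exact mem_centralizer_singleton_iff.2 (commutatorElement_eq_one_iff_mul_comm.1 this).symm
  have hVZ : V ≤ center G := by
    by_contra hne
    have hlt : V ⊓ center G < V := lt_of_le_of_ne inf_le_left fun h => hne (inf_eq_left.1 h)
    have := hmin _ hlt (hVi.inf (inv_of_characteristic _)) inferInstance
    refine hc1 (this ▸ mem_inf.2 ⟨hcV', mem_center_iff.2 fun g => ?_⟩)
    exact mem_centralizer_singleton_iff.1 (htop (mem_top g))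
  exact Subgroup.isNilpotent_of_ker_le_center (QuotientGroup.mk' V) (by rwa [QuotientGroup.ker_mk'])

end Cfsg.Agent.FGS.Shum
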