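import Mathlib
import Cfsg.Agent.FGS.ShumLie
import Cfsg.Agent.FGS.ShumNil
import Cfsg.Agent.FGS.LcsLie

/-!
# Bounded nilpotency class from a closed family of invariant subgroups
-/

set_option autoImplicit false

open Cfsg
open scoped commutatorElement

namespace Cfsg.Agent.FGS.Shum

open Subgroup Solv.Ext PLocal.CommMod LcsLie GradedLie

universe u

section LieOf

variable {G : Type u} [Group G]

/-- The additive subgroup of the Lie ring attached to a subgroup. -/
noncomputable def lieOf (X : Subgroup G) : AddSubgroup (Lie G) :=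
  AddSubgroup.closure {z | ∃ n, ∃ g ∈ X, g ∈ gam G n ∧ z = cls n g}

theorem cls_mem_lieOf {X : Subgroup G} {n : ℕ} {g : G} (hX : g ∈ X) (hg : g ∈ gam G n) :
    cls n g ∈ lieOf X :=
  AddSubgroup.subset_closure ⟨n, g, hX, hg, rfl⟩

theorem lieOf_le {X : Subgroup G} {Z : AddSubgroup (Lie G)}
    (h : ∀ n, ∀ g ∈ X, g ∈ gam G n → cls n g ∈ Z) : lieOf X ≤ Z := by
  refine (AddSubgroup.closure_le _).2 ?_
  rintro _ ⟨n, g, hX, hg, rfl⟩
  exact h n g hX hg

theorem lieOf_mono {X Y : Subgroup G} (h : X ≤ Y) : lieOf X ≤ lieOf Y :=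
  lieOf_le fun _ _ hX hg => cls_mem_lieOf (h hX) hg

theorem lieOf_bot : lieOf (⊥ : Subgroup G) = ⊥ :=
  le_bot_iff.1 (lieOf_le fun n g hX _ => by
    rw [mem_bot.1 hX, cls_one]; exact zero_mem _)

theorem mem_lieOf_top (x : Lie G) : x ∈ lieOf (⊤ : Subgroup G) :=
  induction_on (P := fun x => x ∈ lieOf (⊤ : Subgroup G)) (zero_mem _)
    (fun _ g hg => cls_mem_lieOf (mem_top g) hg) (fun _ _ => add_mem) x

theorem bra_lieOf_le (X Y : Subgroup G) : bra (lieOf X) (lieOf Y) ≤ lieOf ⁅X, Y⁆ := by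
  refine bra_closure_le ?_
  rintro _ ⟨i, a, ha, ha', rfl⟩ _ ⟨j, b, hb, hb', rfl⟩
  rw [lie_cls ha' hb']
  exact cls_mem_lieOf (commutator_mem_commutator ha hb) (comm_mem ha' hb')

theorem it_lieOf_le (X Y : Subgroup G) (n : ℕ) :
    it (lieOf X) (lieOf Y) n ≤ lieOf (iterCommutator X Y n) := by
  induction n with
  | zero => exact le_rfl
  | succ n ih =>
    rw [it_succ, iter_succ]
    exact (bra_mono ih le_rfl).trans (bra_lieOf_le _ _)

/-- The derived series of a subgroup. -/
def dser (X : Subgroup G) : ℕ → Subgroup G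
  | 0 => X
  | n + 1 => ⁅dser X n, dser X n⁆

theorem der_lieOf_le (X : Subgroup G) (n : ℕ) : der (lieOf X) n ≤ lieOf (dser X n) := by
  induction n with
  | zero => exact le_rfl
  | succ n ih =>
    rw [der_succ]
    exact (bra_mono ih ih).trans (bra_lieOf_le _ _)

theorem card_smul_lie [Finite G] (x : Lie G) : Nat.card G • x = 0 := by
  refine induction_on (P := fun x => Nat.card G • x = 0) (smul_zero _) ?_ ?_ x
  · intro n g hg
    rw [← cls_pow hg, pow_card_eq_one', cls_one]
  · intro x y hx hy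
    rw [smul_add, hx, hy, add_zero]

theorem finite_lie [Finite G] [Group.IsNilpotent G] : Finite (Lie G) := by
  obtain ⟨c, hc⟩ := Subgroup.nilpotent_iff_lowerCentralSeries.1 ‹_›
  have : AddGroup.FG (Lie G) := by
    refine AddGroup.fg_iff.2 ⟨Set.range fun x : Fin c × G => cls x.1 x.2, ?_, Set.finite_range _⟩
    rw [eq_top_iff]
    intro x _
    refine induction_on
      (P := fun x => x ∈ AddSubgroup.closure (Set.range fun x : Fin c × G => cls x.1 x.2))
      (zero_mem _) ?_ (fun _ _ => add_mem) x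
    intro n g hg
    by_cases h : n < c
    · exact AddSubgroup.subset_closure ⟨(⟨n, h⟩, g), rfl⟩
    · have : g ∈ gam G c := gam_anti (by omega) hg
      rw [gam, hc, mem_bot] at this
      rw [this, cls_one]
      exact zero_mem _
  refine AddCommGroup.finite_of_fg_torsion _ fun x => ?_
  exact isOfFinAddOrder_iff_nsmul_eq_zero.2 ⟨Nat.card G, Nat.card_pos, card_smul_lie x⟩

theorem coprime_card_lie [Finite G] [Group.IsNilpotent G] {p : ℕ} [hp : Fact p.Prime]
    (h : (Nat.card G).Coprime p) : (Nat.card (Lie G)).Coprime p := by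
  have := finite_lie (G := G)
  rw [Nat.coprime_comm, Nat.Prime.coprime_iff_not_dvd hp.out] at h ⊢
  intro hd
  obtain ⟨x, hx⟩ := exists_prime_addOrderOf_dvd_card' p hd
  exact h (hx ▸ addOrderOf_dvd_of_nsmul_eq_zero (card_smul_lie x))

theorem lcs_eq_bot_of_Gam [Group.IsNilpotent G] {c : ℕ} (h : Gam (Lie G) c = ⊥) :
    (⊤ : Subgroup G).lowerCentralSeries c = ⊥ := by
  have h1 : gam G c ≤ gam G (c + 1) := fun g hg => by
    have := cls_mem_Gam c g hg
    rw [h, AddSubgroup.mem_bot] at this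
    exact (cls_eq_zero_iff hg).1 this
  exact le_bot_iff.1 (le_of_le_commutator_sup (P := ⊤) (Q := ⊤) le_top le_top
    (h1.trans le_sup_left))

theorem exists_sum_cls {X : Subgroup G} {n : ℕ} {β : Type*} (s : Finset β) (f : β → G)
    (h : ∀ b, f b ∈ X ⊓ gam G n) : ∃ z ∈ X ⊓ gam G n, ∑ b ∈ s, cls n (f b) = cls n z := by
  classical
  induction s using Finset.induction_on with
  | empty => exact ⟨1, one_mem _, by simp [cls_one]⟩
  | insert a s ha ih =>
    obtain ⟨z, hz, e⟩ := ih
    exact ⟨f a * z, mul_mem (h a) hz, by rw [Finset.sum_insert ha, e, cls_mul (h a).2 hz.2]⟩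

variable {A : Type*} [Group A] [MulDistribMulAction A G]

theorem smul_mem_gam (a : A) {n : ℕ} {g : G} (hg : g ∈ gam G n) : a • g ∈ gam G n :=
  map_mem (hom G a) hg

theorem exists_act (a : A) : ∃ φ : Lie G →+ Lie G, ∀ n (x : G), x ∈ gam G n →
    φ (cls n x) = cls n (a • x) :=
  exists_lift (G := G) (fun n x => cls n (a • (x : G)))
    (fun n x y => by
      rw [Subgroup.coe_mul, smul_mul', cls_mul (smul_mem_gam a x.2) (smul_mem_gam a y.2)])
    (fun n x hx => cls_eq_zero (smul_mem_gam a hx))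

variable (G) in
/-- The induced action on the Lie ring. -/
noncomputable def act (a : A) : Lie G →+ Lie G := (exists_act a).choose

theorem act_cls (a : A) {n : ℕ} {x : G} (hx : x ∈ gam G n) :
    act G a (cls n x) = cls n (a • x) := (exists_act a).choose_spec n x hx

theorem act_one (x : Lie G) : act G (1 : A) x = x := by
  have : act G (1 : A) = AddMonoidHom.id _ :=
    hom_ext fun n x hx => by rw [act_cls _ hx, one_smul]; rfl
  rw [this]; rfl

theorem act_mul (a b : A) (x : Lie G) : act G (a * b) x = act G a (act G b x) := by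
  have : act G (a * b) = (act G a).comp (act G b) :=
    hom_ext fun n x hx => by
      rw [AddMonoidHom.comp_apply, act_cls _ hx, act_cls _ hx, act_cls _ (smul_mem_gam b hx),
        mul_smul]
  rw [this]; rfl

theorem act_pow (a : A) (k : ℕ) (x : Lie G) : (act G a)^[k] x = act G (a ^ k) x := by
  induction k with
  | zero => rw [pow_zero, act_one]; rfl
  | succ k ih => rw [Function.iterate_succ_apply', ih, pow_succ', act_mul]

theorem act_lie (a : A) (x y : Lie G) : act G a ⁅x, y⁆ = ⁅act G a x, act G a y⁆ := by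
  refine induction_on (P := fun x => act G a ⁅x, y⁆ = ⁅act G a x, act G a y⁆) (by simp) ?_ ?_ x
  · intro i g hg
    refine induction_on (P := fun y => act G a ⁅cls i g, y⁆ = ⁅act G a (cls i g), act G a y⁆)
      (by simp) ?_ ?_ y
    · intro j b hb
      rw [lie_cls hg hb, act_cls _ hg, act_cls _ hb, act_cls _ (comm_mem hg hb),
        lie_cls (smul_mem_gam a hg) (smul_mem_gam a hb)]
      simp [commutatorElement_def, smul_mul', smul_inv']
    · intro u v hu hv
      simp only [lie_add, map_add, hu, hv]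
  · intro u v hu hv
    simp only [add_lie, map_add, hu, hv]

variable (A) in
/-- Invariant additive subgroups of the Lie ring. -/
def LInv (X : AddSubgroup (Lie G)) : Prop := ∀ a : A, ∀ x ∈ X, act G a x ∈ X

theorem linv_closure {S : Set (Lie G)} (h : ∀ a : A, ∀ x ∈ S, act G a x ∈ AddSubgroup.closure S) :
    LInv A (AddSubgroup.closure S) := by
  intro a x hx
  exact (AddSubgroup.closure_le ((AddSubgroup.closure S).comap (act G a))).2 (h a) hx

theorem linv_lieOf {X : Subgroup G} (hX : Inv A X) : LInv A (lieOf X) := by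
  refine linv_closure ?_
  rintro a _ ⟨n, g, hg, hg', rfl⟩
  rw [act_cls _ hg']
  exact cls_mem_lieOf (hX a g hg) (smul_mem_gam a hg')

theorem LInv.bra {X Y : AddSubgroup (Lie G)} (hX : LInv A X) (hY : LInv A Y) :
    LInv A (bra X Y) := by
  refine linv_closure ?_
  rintro a _ ⟨x, hx, y, hy, rfl⟩
  rw [act_lie]
  exact lie_mem_bra (hX a x hx) (hY a y hy)

theorem LInv.inf {X Y : AddSubgroup (Lie G)} (hX : LInv A X) (hY : LInv A Y) :
    LInv A (X ⊓ Y) := fun a x hx => ⟨hX a x hx.1, hY a x hx.2⟩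

variable (G) in
/-- Fixed points in the Lie ring. -/
def CL (B : Subgroup A) : AddSubgroup (Lie G) where
  carrier := {x | ∀ b ∈ B, act G b x = x}
  zero_mem' := fun b _ => map_zero _
  add_mem' := fun hx hy b hb => by rw [map_add, hx b hb, hy b hb]
  neg_mem' := fun hx b hb => by rw [map_neg, hx b hb]

variable (G) in
/-- The averaging operator. -/
noncomputable def avg (B : Subgroup A) [Fintype B] : Lie G →+ Lie G := ∑ b : B, act G (b : A)

theorem avg_apply (B : Subgroup A) [Fintype B] (x : Lie G) :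
    avg G B x = ∑ b : B, act G (b : A) x := by
  simp [avg]

theorem avg_mem_CL (B : Subgroup A) [Fintype B] (x : Lie G) : avg G B x ∈ CL G B := by
  intro b hb
  rw [avg_apply, map_sum, ← Equiv.sum_comp (Equiv.mulLeft (⟨b, hb⟩ : B))
    (fun c : B => act G (c : A) x)]
  refine Finset.sum_congr rfl fun c _ => ?_
  rw [← act_mul]; rfl

theorem avg_of_mem {B : Subgroup A} [Fintype B] {x : Lie G} (hx : x ∈ CL G B) :
    avg G B x = Nat.card B • x := by
  rw [avg_apply, Finset.sum_congr rfl fun (c : B) _ => hx c c.2]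
  simp

theorem LInv.avg_mem {X : AddSubgroup (Lie G)} (hX : LInv A X) (B : Subgroup A) [Fintype B]
    {x : Lie G} (hx : x ∈ X) : avg G B x ∈ X := by
  rw [avg_apply]
  exact sum_mem fun c _ => hX _ _ hx

variable [Finite A] [Finite G] {p : ℕ} [Fact p.Prime]

theorem EA.mem_of_avg_mem (hA : EA p A) (hcop : (Nat.card G).Coprime p) {B : Subgroup A}
    [Fintype B] {x : Lie G} (hx : x ∈ CL G B) {Z : AddSubgroup (Lie G)} (h : avg G B x ∈ Z) :
    x ∈ Z := by
  rw [avg_of_mem hx] at h
  exact mem_of_smul_mem (hA.coprime B hcop).symm card_smul_lie h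

theorem EA.lieOf_inf_CL (hA : EA p A) (hcop : (Nat.card G).Coprime p) {X : Subgroup G}
    (hX : Inv A X) (B : Subgroup A) : lieOf X ⊓ CL G B ≤ lieOf (X ⊓ CF G B) := by
  have := Fintype.ofFinite B
  have h1 : lieOf X ≤ (lieOf (X ⊓ CF G B)).comap (avg G B) := by
    refine lieOf_le fun n g hg hg' => ?_
    obtain ⟨z, hz, e⟩ := exists_sum_cls (X := X) (n := n) Finset.univ (fun b : B => (b : A) • g)
      fun b => ⟨hX _ _ hg, smul_mem_gam _ hg'⟩
    have e' : avg G B (cls n g) = cls n z := by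
      rw [avg_apply, ← e]
      exact Finset.sum_congr rfl fun b _ => act_cls _ hg'
    have hinv : Inv B (X ⊓ gam G (n + 1)) :=
      (hX.inf (inv_of_characteristic _)).subgroup B
    obtain ⟨c, hc, hc'⟩ := exists_fixed_of_coset hinv
      (hA.coprime B (Nat.Coprime.coprime_dvd_left (Subgroup.card_subgroup_dvd_card _) hcop))
      (Or.inl (hA.isSolvable B)) z (fun b => by
        refine mem_inf.2 ⟨mul_mem (inv_mem hz.1) (hX _ _ hz.1), ?_⟩
        have h2 := avg_mem_CL B (cls n g) b b.2
        rw [e', act_cls _ hz.2] at h2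
        have h3 : (b : A) • z ∈ gam G n := smul_mem_gam _ hz.2
        change z⁻¹ * (b : A) • z ∈ _
        rw [← cls_eq_zero_iff (mul_mem (inv_mem hz.2) h3), cls_mul (inv_mem hz.2) h3, h2,
          cls_inv hz.2, neg_add_cancel])
    have h4 : z⁻¹ * c ∈ gam G n := gam_anti (Nat.le_succ n) hc'.2
    have e2 : c = z * (z⁻¹ * c) := by group
    have h5 : cls n c = cls n z := by
      rw [e2, cls_mul hz.2 h4, cls_eq_zero hc'.2, add_zero]
    rw [AddSubgroup.mem_comap, e', ← h5]
    exact cls_mem_lieOf (mem_inf.2 ⟨e2 ▸ mul_mem hz.1 hc'.1, hc⟩) (e2 ▸ mul_mem hz.2 h4)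
  exact fun x hx => hA.mem_of_avg_mem hcop hx.2 (h1 hx.1)

end LieOf

/-- The bound for the class. -/
def bnd (p t m s : ℕ) : ℕ := (t * m + 1) ^ kf ((t * m + 1) ^ s) p

variable {A : Type*} [Group A] [Finite A] {p : ℕ} [Fact p.Prime]

theorem EA.core (hA : EA p A) {G : Type u} [Group G] [Finite G] [MulDistribMulAction A G]
    (hcop : (Nat.card G).Coprime p) (hsol : Group.IsSolvable G) {ι : Type*} [Finite ι]
    {t m s : ℕ} (ht : Nat.card ι ≤ t) (H : ι → Subgroup G) (hHi : ∀ l, Inv A (H l))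
    (hH : ⨆ l, H l = ⊤)
    (hm : ∀ l (B : Subgroup A), B.index = p → iterCommutator (CF G B) (H l) m = ⊥)
    (hcl : ∀ l l' (B : Subgroup A), B.index = p → ∃ l'', ⁅H l, H l'⁆ ⊓ CF G B ≤ H l'')
    (a : A) (hs : dser (CF G (zpowers a)) s = ⊥) :
    (⊤ : Subgroup G).lowerCentralSeries (bnd p t m s) = ⊥ := by
  have := hA.isNilpotent m _ G rfl hcop hsol H hH hm
  have := finite_lie (G := G)
  have hgen : ∀ {X : AddSubgroup (Lie G)}, LInv A X → ∀ Z : AddSubgroup (Lie G),
      (∀ B : Subgroup A, B.index = p → X ⊓ CL G B ≤ Z) → X ≤ Z := fun hX Z hZ =>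
    hA.gen_add (act G) act_one act_mul (coprime_card_lie hcop) hX Z
      fun B hB x hx hx' => hZ B hB ⟨hx, hx'⟩
  let h : ι → AddSubgroup (Lie G) := fun l => lieOf (H l)
  have hhi : ∀ l, LInv A (h l) := fun l => linv_lieOf (hHi l)
  have hm' : ∀ l, it ⊤ (h l) m = ⊥ := by
    intro l
    have h1 : (⊤ : AddSubgroup (Lie G)) ≤
        ⨆ B : {B : Subgroup A // B.index = p}, lieOf (CF G B.1) := by
      refine hgen (X := ⊤) (fun _ _ _ => trivial) _ fun B hB x hx => ?_
      refine AddSubgroup.mem_iSup_of_mem ⟨B, hB⟩ ?_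
      exact lieOf_mono inf_le_right (hA.lieOf_inf_CL hcop inv_top B ⟨mem_lieOf_top x, hx.2⟩)
    refine le_bot_iff.1 ((it_mono h1 le_rfl m).trans ((it_iSup_le _ _ _).trans
      (iSup_le fun B => (it_lieOf_le _ _ _).trans ?_)))
    rw [hm l B.1 B.2, lieOf_bot]
  have hbr : ∀ X Y : AddSubgroup (Lie G), LInv A X → LInv A Y → ∀ l l', X ≤ h l → Y ≤ h l' →
      bra X Y ≤ ⨆ l'', bra X Y ⊓ h l'' := by
    intro X Y hX hY l l' hl hl'
    refine hgen (hX.bra hY) _ fun B hB x hx => ?_
    obtain ⟨l'', h''⟩ := hcl l l' B hB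
    refine AddSubgroup.mem_iSup_of_mem l'' ⟨hx.1, lieOf_mono h'' ?_⟩
    exact hA.lieOf_inf_CL hcop ((hHi l).commutator (hHi l')) B
      ⟨bra_lieOf_le _ _ (bra_mono hl hl' hx.1), hx.2⟩
  let good : AddSubgroup (Lie G) → Prop := fun K => LInv A K ∧ K ≤ ⨆ l, K ⊓ h l
  have hg2 : ∀ K, good K → good (bra K K) := by
    intro K hK
    refine ⟨hK.1.bra hK.1, (bra_mono hK.2 hK.2).trans (bra_iSup_le fun l l' => ?_)⟩
    refine (hbr _ _ (hK.1.inf (hhi l)) (hK.1.inf (hhi l')) l l' inf_le_right inf_le_right).trans ?_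
    exact iSup_mono fun l'' => inf_le_inf_right _ (bra_mono inf_le_left inf_le_left)
  have htop : (⊤ : AddSubgroup (Lie G)) ≤ ⨆ l, h l := by
    have h1 : bra (⨆ l, h l) (⨆ l, h l) ≤ ⨆ l, h l := bra_iSup_le fun l l' =>
      (hbr _ _ (hhi l) (hhi l') l l' le_rfl le_rfl).trans (iSup_mono fun _ => inf_le_right)
    have h0 : ∀ g : G, cls 0 g ∈ ⨆ l, h l := by
      intro g
      have hg : g ∈ ⨆ l, H l := hH ▸ mem_top g
      refine Subgroup.iSup_induction (C := fun g => cls 0 g ∈ ⨆ l, h l) _ hg ?_ ?_ ?_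
      · intro l x hx
        exact AddSubgroup.mem_iSup_of_mem l (cls_mem_lieOf hx (mem_top x))
      · rw [cls_one]; exact zero_mem _
      · intro x y hx hy
        rw [cls_mul (mem_top x) (mem_top y)]
        exact add_mem hx hy
    have h2 : ∀ n, ∀ g ∈ gam G n, cls n g ∈ ⨆ l, h l := by
      intro n
      induction n with
      | zero => exact fun g _ => h0 g
      | succ n ih =>
        intro g hg
        induction hg using Subgroup.closure_induction with
        | mem g hg =>
          obtain ⟨a, ha, b, hb, rfl⟩ := hg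
          have := lie_cls ha (show b ∈ gam G 0 from hb)
          rw [add_zero] at this
          rw [← this]
          exact h1 (lie_mem_bra (ih a ha) (h0 b))
        | one => rw [cls_one]; exact zero_mem _
        | mul x y hx hy h1 h2 => rw [cls_mul hx hy]; exact add_mem h1 h2
        | inv x hx h1 => rw [cls_inv hx]; exact neg_mem h1
    intro x _
    exact induction_on (P := fun x => x ∈ ⨆ l, h l) (zero_mem _) h2 (fun _ _ => add_mem) x
  have hK : good (CL G (zpowers a)) := by
    constructor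
    · intro b x hx c hc
      rw [← act_mul, hA.comm, act_mul, hx c hc]
    · have := Fintype.ofFinite (zpowers a)
      intro x hx
      refine hA.mem_of_avg_mem hcop hx ?_
      refine AddSubgroup.iSup_induction
        (C := fun x => avg G (zpowers a) x ∈ ⨆ l, CL G (zpowers a) ⊓ h l) _
        (htop (AddSubgroup.mem_top x)) ?_ ?_ ?_
      · intro l y hy
        exact AddSubgroup.mem_iSup_of_mem l ⟨avg_mem_CL _ _, (hhi l).avg_mem _ hy⟩
      · rw [map_zero]; exact zero_mem _
      · intro x y hx hy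
        rw [map_add]; exact add_mem hx hy
  have hKK : bra (CL G (zpowers a)) (CL G (zpowers a)) ≤ CL G (zpowers a) :=
    bra_le fun x hx y hy b hb => by rw [act_lie, hx b hb, hy b hb]
  have hKs : der (CL G (zpowers a)) s = ⊥ := by
    have h1 : CL G (zpowers a) ≤ lieOf (CF G (zpowers a)) := fun x hx =>
      lieOf_mono inf_le_right (hA.lieOf_inf_CL hcop inv_top _ ⟨mem_lieOf_top x, hx⟩)
    refine le_bot_iff.1 ((der_mono h1 s).trans ((der_lieOf_le _ _).trans ?_))
    rw [hs, lieOf_bot]
  have h1 := it_top_eq_bot ht h hm' good (fun _ h => h.2) hg2 s _ hK hKK hKs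
  have h2 := der_top_eq_bot (p := p) (act G a) (act_lie a)
    (fun x => by rw [act_pow, hA.pow, act_one]) (Nat.card G) hcop card_smul_lie
    (CL G (zpowers a)) (fun x hx b hb => by
      obtain ⟨k, rfl⟩ := (mem_powers_iff_mem_zpowers.2 hb : b ∈ Submonoid.powers a)
      change act G (a ^ k) x = x
      rw [← act_pow]
      exact Function.iterate_fixed hx k) h1
  have h3 := it_top_eq_bot ht h hm' good (fun _ h => h.2) hg2 _ ⊤
    ⟨fun _ _ _ => trivial, htop.trans (iSup_mono fun _ => le_inf le_top le_rfl)⟩ le_top h2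
  exact lcs_eq_bot_of_Gam (le_bot_iff.1 ((Gam_le_it _).trans h3.le))

end Cfsg.Agent.FGS.Shum
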