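import Mathlib
import Cfsg.Agent.FGS.ClassSize
import Cfsg.Agent.FGS.PrimePart
import Cfsg.Agent.Grp.Fitting
import Cfsg.Agent.Grp.PChain
import Cfsg.Agent.Solv.Supersolvable2

/-! Groups whose class sizes are not divisible by `p ^ 2`: if `O_{p'}(G) = 1` and `G` is solvable,
then the derived subgroup has order dividing `p`. -/

set_option autoImplicit false
set_option linter.style.haveILetI false

namespace Cfsg.Agent.FGS.Sqf

open Cfsg Subgroup
open scoped commutatorElement

variable {G : Type*} [Group G]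

/-- a subgroup between `D` and `P`, where `D` has prime index in `P`. -/
theorem eq_or_le_of_relIndex_prime [Finite G] {p : ℕ} (hp : p.Prime) {D E P : Subgroup G}
    (hDE : D ⊓ P ≤ E) (hi : D.relIndex P = p) : P ≤ E ∨ E ⊓ P ≤ D := by
  have h1 : (D ⊓ P).relIndex (E ⊓ P) * (E ⊓ P).relIndex P = (D ⊓ P).relIndex P :=
    relIndex_mul_relIndex _ _ _ (le_inf hDE inf_le_right) inf_le_right
  rw [inf_relIndex_right D P, hi] at h1
  rcases (Nat.dvd_prime hp).1 (Dvd.intro_left _ h1) with h | h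
  · left
    exact (relIndex_eq_one.1 h).trans inf_le_left
  · right
    rw [h] at h1
    have : (D ⊓ P).relIndex (E ⊓ P) = 1 := by
      have := hp.pos
      nlinarith [Nat.eq_of_mul_eq_mul_right hp.pos (h1.trans (one_mul p).symm)]
    exact (relIndex_eq_one.1 this).trans inf_le_left

theorem exists_gen_mod_centralizer (N : Subgroup G) [N.Normal] (hp : (Nat.card N).Prime) :
    ∃ h : G, ∀ g : G, ∃ k : ℤ, (h ^ k)⁻¹ * g ∈ centralizer (N : Set G) := by
  haveI : Fact (Nat.card N).Prime := ⟨hp⟩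
  haveI : IsCyclic N := isCyclic_of_prime_card rfl
  haveI : IsCyclic (MulAut N) := by
    haveI := ZMod.isCyclic_units_prime hp
    exact isCyclic_of_surjective _ (IsCyclic.mulAutMulEquiv N).symm.surjective
  let φ : G →* MulAut N := MulAut.conjNormal
  obtain ⟨⟨_, h, rfl⟩, hh⟩ := IsCyclic.exists_generator (α := φ.range)
  refine ⟨h, fun g => ?_⟩
  obtain ⟨k, hk⟩ := mem_zpowers_iff.1 (hh ⟨φ g, g, rfl⟩)
  refine ⟨k, ?_⟩
  have h1 : φ (h ^ k) = φ g := by
    have := congrArg Subtype.val hk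
    simpa using this
  have h2 : φ ((h ^ k)⁻¹ * g) = 1 := by rw [map_mul, map_inv, h1, inv_mul_cancel]
  rw [mem_centralizer_iff]
  intro u hu
  have h3 := congrArg (fun f : MulAut N => ((f ⟨u, hu⟩ : N) : G)) h2
  simp only [φ, MulAut.conjNormal_apply, MulAut.one_apply] at h3
  rw [mul_inv_eq_iff_eq_mul] at h3
  exact h3.symm

/-- Knoche: a `p`-group all of whose classes have size dividing `p`. -/
theorem card_commutator_of_isPGroup [Finite G] {p : ℕ} [hp : Fact p.Prime] (hG : IsPGroup p G)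
    (h : ∀ x : G, ¬ p ^ 2 ∣ (centralizer ({x} : Set G)).index) :
    Nat.card (commutator G) ∣ p := by
  haveI := hG.isNilpotent
  have hidx : ∀ x : G, (centralizer ({x} : Set G)).index ∣ p := by
    intro x
    obtain ⟨n, hn⟩ := hG.exists_card_eq
    obtain ⟨k, -, hk⟩ := (Nat.dvd_prime_pow hp.out).1
      (hn ▸ (centralizer ({x} : Set G)).index_dvd_card)
    rw [hk]
    have : k ≤ 1 := by
      by_contra hc
      exact h x (hk ▸ pow_dvd_pow p (by omega))
    simpa using pow_dvd_pow p this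
  by_cases hab : (⊤ : Subgroup G) ≤ center G
  · have : commutator G = ⊥ := by
      rw [commutator_def, commutator_eq_bot_iff_le_centralizer]
      intro x _
      rw [mem_centralizer_iff]
      intro y _
      exact (mem_center_iff.1 (hab (mem_top x)) y)
    rw [this]; simp
  obtain ⟨u, -, hu, huc⟩ := Grp.PChain.exists_central_mod (⊤ : Subgroup G) (center G) hab
  let f : G →* G := MonoidHom.mk' (fun g => ⁅u, g⁆) (by
    intro a b
    have h1 := mem_center_iff.1 (huc b) a
    calc ⁅u, a * b⁆ = ⁅u, a⁆ * (a * ⁅u, b⁆ * a⁻¹) := by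
          simp only [commutatorElement_def]; group
      _ = ⁅u, a⁆ * ⁅u, b⁆ := by rw [h1]; group)
  have hker : f.ker = centralizer ({u} : Set G) := by
    ext g
    rw [MonoidHom.mem_ker, mem_centralizer_singleton_iff]
    show ⁅u, g⁆ = 1 ↔ _
    rw [commutatorElement_eq_one_iff_mul_comm]
    exact eq_comm
  have hT : Nat.card f.range ∣ p := by
    rw [← index_ker, hker]; exact hidx u
  have hTc : f.range ≤ center G := by
    rintro _ ⟨g, rfl⟩; exact huc g
  haveI hTn : f.range.Normal := ⟨fun t ht g => by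
    rw [mem_center_iff.1 (hTc ht) g]; simpa using ht⟩
  have key : ∀ x : G, x ∉ centralizer ({u} : Set G) → ∀ g : G, ⁅g, x⁆ ∈ f.range := by
    intro x hx g
    have hx1 : f x ≠ 1 := fun h1 => hx (hker ▸ h1)
    have hTp : Nat.card f.range = p := by
      rcases (Nat.dvd_prime hp.out).1 hT with h1 | h1
      · exfalso
        have := (Subgroup.eq_bot_iff_card _).2 h1
        exact hx1 (by rw [← mem_bot, ← this]; exact ⟨x, rfl⟩)
      · exact h1
    have hgen : zpowers (f x) = f.range := by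
      have hle : zpowers (f x) ≤ f.range := zpowers_le.2 ⟨x, rfl⟩
      apply eq_of_le_of_card_ge hle
      rw [hTp, Nat.card_zpowers]
      have h2 : orderOf (f x) ∣ p := hTp ▸ Subgroup.orderOf_dvd_natCard _ ⟨x, rfl⟩
      rcases (Nat.dvd_prime hp.out).1 h2 with h1 | h1
      · exact absurd (orderOf_eq_one_iff.1 h1) hx1
      · exact h1.ge
    have hpow : ∀ n : ℕ, u ^ n * x * (u ^ n)⁻¹ = f x ^ n * x := by
      intro n
      induction n with
      | zero => simp
      | succ n ih =>
        have hc : f x ^ n ∈ center G := pow_mem (huc x) n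
        calc u ^ (n + 1) * x * (u ^ (n + 1))⁻¹ = u * (u ^ n * x * (u ^ n)⁻¹) * u⁻¹ := by
              rw [pow_succ']; group
          _ = (u * f x ^ n) * x * u⁻¹ := by rw [ih]; group
          _ = f x ^ n * (u * x * u⁻¹) := by rw [mem_center_iff.1 hc u]; group
          _ = f x ^ n * (f x * x) := by
              congr 1
              show _ = ⁅u, x⁆ * x
              rw [commutatorElement_def]; group
          _ = f x ^ (n + 1) * x := by rw [pow_succ]; group
    have hsub : (fun t => t * x) '' (f.range : Set G) ⊆ {y : G | IsConj x y} := by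
      rintro _ ⟨t, ht, rfl⟩
      rw [← hgen] at ht
      obtain ⟨n, rfl⟩ := (mem_powers_iff_mem_zpowers.2 ht)
      exact isConj_iff.2 ⟨u ^ n, hpow n⟩
    have hcard : {y : G | IsConj x y}.ncard ≤ ((fun t => t * x) '' (f.range : Set G)).ncard := by
      rw [ncard_setOf_isConj, Set.ncard_image_of_injective _ (mul_left_injective x)]
      have : (f.range : Set G).ncard = p := by rw [← hTp]; rfl
      rw [this]
      exact Nat.le_of_dvd hp.out.pos (hidx x)
    have heq := Set.eq_of_subset_of_ncard_le hsub hcard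
    have : g * x * g⁻¹ ∈ (fun t => t * x) '' (f.range : Set G) := by
      rw [heq]; exact isConj_iff.2 ⟨g, rfl⟩
    obtain ⟨t, ht, hte⟩ := this
    have : ⁅g, x⁆ = t := by
      rw [commutatorElement_def, ← hte]; simp
    rw [this]; exact ht
  have hle : commutator G ≤ f.range := by
    obtain ⟨x₀, hx₀⟩ : ∃ x₀ : G, x₀ ∉ centralizer ({u} : Set G) := by
      by_contra hc
      push Not at hc
      exact hu (mem_center_iff.2 fun g => mem_centralizer_singleton_iff.1 (hc g))
    rw [commutator_def, commutator_le]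
    intro g _ y _
    by_cases hy : y ∈ centralizer ({u} : Set G)
    · have h1 : y * x₀ ∉ centralizer ({u} : Set G) := fun h1 => hx₀ ((mul_mem_cancel_left hy).1 h1)
      have h2 : x₀⁻¹ ∉ centralizer ({u} : Set G) := fun h1 => hx₀ (inv_mem_iff.1 h1)
      have : ⁅g, y⁆ = ⁅g, y * x₀⁆ * ((y * x₀) * ⁅g, x₀⁻¹⁆ * (y * x₀)⁻¹) := by
        simp only [commutatorElement_def]; group
      rw [this]
      exact mul_mem (key _ h1 g) (hTn.conj_mem _ (key _ h2 g) _)
    · exact key y hy g
  exact (card_dvd_of_le hle).trans hT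


section Main

variable [Finite G] {p : ℕ} [hp : Fact p.Prime] {P : Subgroup G} [hPn : P.Normal]

omit hPn in
theorem relIndex_pow (hP : IsPGroup p P) (D : Subgroup G) : ∃ k, D.relIndex P = p ^ k := by
  obtain ⟨n, hn⟩ := hP.exists_card_eq
  obtain ⟨k, -, hk⟩ := (Nat.dvd_prime_pow hp.out).1
    (hn ▸ (D.subgroupOf P).index_dvd_card)
  exact ⟨k, hk⟩

theorem relIndex_dvd (hP : IsPGroup p P)
    (h : ∀ x : G, ¬ p ^ 2 ∣ (centralizer ({x} : Set G)).index) (x : G) :
    (centralizer ({x} : Set G)).relIndex P ∣ p := by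
  obtain ⟨k, hk⟩ := relIndex_pow hP (centralizer ({x} : Set G))
  have h1 := relIndex_normal_dvd_index (centralizer ({x} : Set G)) P
  rw [hk] at h1 ⊢
  have : k ≤ 1 := by
    by_contra hc
    exact h x ((pow_dvd_pow p (by omega)).trans h1)
  simpa using pow_dvd_pow p this

theorem relIndex_eq (hP : IsPGroup p P) (hC : centralizer (P : Set G) ≤ P)
    (h : ∀ x : G, ¬ p ^ 2 ∣ (centralizer ({x} : Set G)).index) {x : G} (hx : x ∉ P) :
    (centralizer ({x} : Set G)).relIndex P = p := by
  rcases (Nat.dvd_prime hp.out).1 (relIndex_dvd hP h x) with h1 | h1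
  · exfalso
    apply hx (hC _)
    rw [mem_centralizer_iff]
    intro u hu
    exact mem_centralizer_singleton_iff.1 (relIndex_eq_one.1 h1 hu)
  · exact h1

/-- if there is a nontrivial `p'`-element, `P` is abelian. -/
theorem comm_of_coprime (hP : IsPGroup p P) (hC : centralizer (P : Set G) ≤ P)
    (h : ∀ x : G, ¬ p ^ 2 ∣ (centralizer ({x} : Set G)).index) {a : G} (ha1 : a ≠ 1)
    (ha : (orderOf a).Coprime p) : ∀ u ∈ P, ∀ v ∈ P, u * v = v * u := by
  have hco : ∀ d ∈ P, (orderOf a).Coprime (orderOf d) := by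
    intro d hd
    obtain ⟨k, hk⟩ := (IsPGroup.iff_orderOf.1 hP) ⟨d, hd⟩
    rw [Subgroup.orderOf_mk] at hk
    rw [hk]; exact ha.pow_right k
  have haP : a ∉ P := fun h1 => ha1 (orderOf_eq_one_iff.1 ((Nat.coprime_self _).1 (hco a h1)))
  set A := centralizer ({a} : Set G) with hA
  have hi : A.relIndex P = p := relIndex_eq hP hC h haP
  have hPA : ¬ P ≤ A := by
    intro h1
    rw [relIndex_eq_one.2 h1] at hi
    exact hp.out.one_lt.ne hi
  -- `D = A ⊓ P` is abelian
  have hD : ∀ d ∈ A ⊓ P, A ⊓ P ≤ centralizer ({d} : Set G) := by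
    intro d hd
    have hc : Commute a d := (mem_centralizer_singleton_iff.1 hd.1).symm
    have h1 := centralizer_mul_of_coprime hc (hco d hd.2)
    have h2 := relIndex_dvd hP h (a * d)
    rw [h1] at h2
    have h3 : (A ⊓ centralizer ({d} : Set G)).relIndex (A ⊓ P) * (A ⊓ P).relIndex P =
        (A ⊓ centralizer ({d} : Set G)).relIndex P := by
      rw [← inf_relIndex_right (A ⊓ centralizer ({d} : Set G)) P,
        ← relIndex_mul_relIndex (A ⊓ centralizer ({d} : Set G) ⊓ P) (A ⊓ P) P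
          (inf_le_inf_right _ inf_le_left) inf_le_right]
      congr 1
      rw [← inf_relIndex_right (A ⊓ centralizer ({d} : Set G)) (A ⊓ P)]
      congr 1
      ext y; simp only [mem_inf]; tauto
    rw [inf_relIndex_right A P, hi] at h3
    rw [← h3] at h2
    have h4 : (A ⊓ centralizer ({d} : Set G)).relIndex (A ⊓ P) = 1 :=
      Nat.eq_one_of_dvd_one (Nat.dvd_of_mul_dvd_mul_right hp.out.pos (by simpa using h2))
    exact (relIndex_eq_one.1 h4).trans inf_le_right
  -- `D` is normalized by `P`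
  have hDn : ∀ u ∈ P, ∀ d ∈ A ⊓ P, u * d * u⁻¹ ∈ A ⊓ P := by
    haveI := hP.isNilpotent
    have hn : (A.subgroupOf P).Normal := by
      apply Subgroup.NormalizerCondition.normal_of_coatom _ (Group.normalizerCondition_of_isNilpotent)
      constructor
      · intro h1
        exact hPA (subgroupOf_eq_top.1 h1)
      · intro E hE
        rcases eq_or_le_of_relIndex_prime (D := A) (E := E.map P.subtype) (P := P) hp.out
          (fun y hy => ⟨⟨y, hy.2⟩, hE.le hy.1, rfl⟩) hi with h1 | h1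
        · rw [eq_top_iff]
          intro y _
          obtain ⟨z, hz, hzy⟩ := h1 y.2
          have : z = y := Subtype.ext hzy
          exact this ▸ hz
        · exfalso
          apply hE.not_ge
          intro y hy
          exact h1 ⟨⟨y, hy, rfl⟩, y.2⟩
    intro u hu d hd
    exact ⟨hn.conj_mem ⟨d, hd.2⟩ hd.1 ⟨u, hu⟩, hPn.conj_mem d hd.2 u⟩
  -- `P` centralizes `D`
  have hPD : P ≤ centralizer ((A ⊓ P : Subgroup G) : Set G) := by
    rcases eq_or_le_of_relIndex_prime (D := A)
      (E := centralizer ((A ⊓ P : Subgroup G) : Set G)) (P := P) hp.out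
      (fun y hy => mem_centralizer_iff.2 fun d hd =>
        (mem_centralizer_singleton_iff.1 (hD d hd hy)).symm) hi with h1 | h1
    · exact h1
    · exfalso
      apply hPA
      intro u hu
      have haD : a ∈ centralizer ((A ⊓ P : Subgroup G) : Set G) :=
        mem_centralizer_iff.2 fun d hd => mem_centralizer_singleton_iff.1 hd.1
      have h2 : u * a * u⁻¹ ∈ centralizer ((A ⊓ P : Subgroup G) : Set G) := by
        rw [mem_centralizer_iff]
        intro d hd
        have h3 := hDn u⁻¹ (inv_mem hu) d hd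
        have h4 := mem_centralizer_iff.1 haD _ h3
        calc d * (u * a * u⁻¹) = u * ((u⁻¹ * d * u⁻¹⁻¹) * a) * u⁻¹ := by group
          _ = u * (a * (u⁻¹ * d * u⁻¹⁻¹)) * u⁻¹ := by rw [h4]
          _ = u * a * u⁻¹ * d := by group
      set d := u * a * u⁻¹ * a⁻¹ with hd
      have hdP : d ∈ P := by
        have : d = u * (a * u⁻¹ * a⁻¹) := by rw [hd]; group
        rw [this]; exact mul_mem hu (hPn.conj_mem _ (inv_mem hu) a)
      have hdA : d ∈ A := h1 (mem_inf.2 ⟨mul_mem h2 (inv_mem haD), hdP⟩)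
      have hc : Commute d a := mem_centralizer_singleton_iff.1 hdA
      have h5 : d ^ orderOf a = 1 := by
        have h6 : d * a = u * a * u⁻¹ := by rw [hd]; group
        have h7 : (d * a) ^ orderOf a = 1 := by rw [h6, conj_pow, pow_orderOf_eq_one]; simp
        rwa [hc.mul_pow, pow_orderOf_eq_one, mul_one] at h7
      have h8 : orderOf d = 1 :=
        Nat.eq_one_of_dvd_coprimes (hco d hdP) (orderOf_dvd_of_pow_eq_one h5) dvd_rfl
      rw [orderOf_eq_one_iff, hd, mul_inv_eq_one, mul_inv_eq_iff_eq_mul] at h8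
      exact mem_centralizer_singleton_iff.2 h8
  intro u hu v hv
  by_cases huA : u ∈ A
  · exact mem_centralizer_iff.1 (hPD hv) u ⟨huA, hu⟩
  · rcases eq_or_le_of_relIndex_prime (D := A) (E := centralizer ({u} : Set G)) (P := P) hp.out
      (fun y hy => mem_centralizer_singleton_iff.2 (mem_centralizer_iff.1 (hPD hu) y hy)) hi
      with h1 | h1
    · exact (mem_centralizer_singleton_iff.1 (h1 hv)).symm
    · exact absurd (h1 ⟨mem_centralizer_singleton_iff.2 rfl, hu⟩) huA

omit [Finite G] in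
theorem comm_mem {u : G} (hu : u ∈ P) (g : G) : ⁅u, g⁆ ∈ P := by
  have : ⁅u, g⁆ = u * (g * u⁻¹ * g⁻¹) := by rw [commutatorElement_def]; group
  rw [this]; exact mul_mem hu (hPn.conj_mem _ (inv_mem hu) g)

/-- the map `u ↦ ⁅u, g⁆` on an abelian normal subgroup -/
def cmap (hab : ∀ u ∈ P, ∀ v ∈ P, u * v = v * u) (g : G) : P →* G :=
  MonoidHom.mk' (fun u => ⁅(u : G), g⁆) (by
    intro u v
    have h1 := hab _ u.2 _ (comm_mem v.2 g)
    have h2 := hab _ (comm_mem u.2 g) _ (comm_mem v.2 g)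
    calc ⁅((u * v : P) : G), g⁆ = (u * ⁅(v : G), g⁆ * (u : G)⁻¹) * ⁅(u : G), g⁆ := by
          simp only [commutatorElement_def, coe_mul]; group
      _ = ⁅(v : G), g⁆ * ⁅(u : G), g⁆ := by rw [h1]; group
      _ = _ := h2.symm)

omit [Finite G] in
theorem mem_range_cmap (hab : ∀ u ∈ P, ∀ v ∈ P, u * v = v * u) {g t : G} :
    t ∈ (cmap hab g).range ↔ ∃ u ∈ P, ⁅u, g⁆ = t :=
  ⟨fun ⟨u, hu⟩ => ⟨u, u.2, hu⟩, fun ⟨u, hu, h⟩ => ⟨⟨u, hu⟩, h⟩⟩

omit [Finite G] in
theorem card_range_cmap (hab : ∀ u ∈ P, ∀ v ∈ P, u * v = v * u) (g : G) :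
    Nat.card (cmap hab g).range = (centralizer ({g} : Set G)).relIndex P := by
  rw [← index_ker, relIndex]
  congr 1
  ext u
  rw [MonoidHom.mem_ker, mem_subgroupOf, mem_centralizer_singleton_iff]
  exact commutatorElement_eq_one_iff_mul_comm

omit hPn in
theorem eq_of_card_prime {A B : Subgroup G} (hA : Nat.card A = p) (hB : Nat.card B = p) {t : G}
    (ht : t ≠ 1) (htA : t ∈ A) (htB : t ∈ B) : A = B := by
  have key : ∀ C : Subgroup G, Nat.card C = p → t ∈ C → zpowers t = C := by
    intro C hC htC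
    apply eq_of_le_of_card_ge (zpowers_le.2 htC)
    rw [hC, Nat.card_zpowers]
    have h2 : orderOf t ∣ p := hC ▸ Subgroup.orderOf_dvd_natCard _ htC
    rcases (Nat.dvd_prime hp.out).1 h2 with h1 | h1
    · exact absurd (orderOf_eq_one_iff.1 h1) ht
    · exact h1.ge
  rw [← key A hA htA, key B hB htB]

theorem le_of_quadratic (hP : IsPGroup p P) (hC : centralizer (P : Set G) ≤ P)
    (hmax : ∀ K : Subgroup G, K.Normal → IsPGroup p K → K ≤ P)
    (h : ∀ x : G, ¬ p ^ 2 ∣ (centralizer ({x} : Set G)).index)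
    (hab : ∀ u ∈ P, ∀ v ∈ P, u * v = v * u) (K : Subgroup G) (hK : K.Normal)
    (hq : ∀ c ∈ K, ∀ u ∈ P, ⁅u, c⁆ * c = c * ⁅u, c⁆) : K ≤ P := by
  apply hmax K hK
  intro c
  have h1 : (c : G) ^ p ∈ P := by
    apply hC
    rw [mem_centralizer_iff]
    intro u hu
    have h2 : ⁅u, (c : G)⁆ ^ p = 1 := by
      apply orderOf_dvd_iff_pow_eq_one.1
      have h3 : ⁅u, (c : G)⁆ ∈ (cmap hab c).range := (mem_range_cmap hab).2 ⟨u, hu, rfl⟩
      have h4 := Subgroup.orderOf_dvd_natCard _ h3
      rw [card_range_cmap] at h4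
      exact h4.trans (relIndex_dvd hP h c)
    have hc : Commute ⁅u, (c : G)⁆ c := hq c c.2 u hu
    have h5 : ⁅u, (c : G)⁆ * c = u * c * u⁻¹ := by rw [commutatorElement_def]; group
    have h6 : (⁅u, (c : G)⁆ * c) ^ p = u * (c : G) ^ p * u⁻¹ := by rw [h5, conj_pow]
    rw [hc.mul_pow, h2, one_mul, eq_mul_inv_iff_mul_eq] at h6
    exact h6.symm
  obtain ⟨k, hk⟩ := hP ⟨_, h1⟩
  refine ⟨k + 1, Subtype.ext ?_⟩
  have := congrArg Subtype.val hk
  simp only [SubmonoidClass.coe_pow, OneMemClass.coe_one] at this ⊢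
  rw [pow_succ', pow_mul]
  exact this

theorem exists_gen_mod (hP : IsPGroup p P) (hC : centralizer (P : Set G) ≤ P)
    (hmax : ∀ K : Subgroup G, K.Normal → IsPGroup p K → K ≤ P)
    (h : ∀ x : G, ¬ p ^ 2 ∣ (centralizer ({x} : Set G)).index)
    (hab : ∀ u ∈ P, ∀ v ∈ P, u * v = v * u) :
    ∃ z : G, ∀ g : G, ∃ k : ℤ, (z ^ k)⁻¹ * g ∈ P := by
  by_cases htop : ∀ g : G, g ∈ P
  · exact ⟨1, fun g => ⟨0, htop _⟩⟩
  push Not at htop
  obtain ⟨g₀, hg₀⟩ := htop
  have hcard : ∀ g, g ∉ P → Nat.card (cmap hab g).range = p := fun g hg => by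
    rw [card_range_cmap, relIndex_eq hP hC h hg]
  have hconj : ∀ x g t : G, t ∈ (cmap hab g).range →
      x * t * x⁻¹ ∈ (cmap hab (x * g * x⁻¹)).range := by
    intro x g t ht
    obtain ⟨u, hu, rfl⟩ := (mem_range_cmap hab).1 ht
    refine (mem_range_cmap hab).2 ⟨x * u * x⁻¹, hPn.conj_mem u hu x, ?_⟩
    simp only [commutatorElement_def]; group
  have hne : ∀ {u g : G}, u ∉ centralizer ({g} : Set G) → ⁅u, g⁆ ≠ 1 := fun hu h1 =>
    hu (mem_centralizer_singleton_iff.2 (commutatorElement_eq_one_iff_mul_comm.1 h1))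
  have he : ∀ {u g : G}, u ∈ centralizer ({g} : Set G) → ⁅u, g⁆ = 1 := fun hu =>
    commutatorElement_eq_one_iff_mul_comm.2 (mem_centralizer_singleton_iff.1 hu)
  have hdiff : ∀ g k : G, g ∉ P → k ∉ P →
      ¬ (centralizer ({g} : Set G) ⊓ P ≤ centralizer ({k} : Set G)) →
      (cmap hab g).range = (cmap hab k).range := by
    intro g k hg hk hn
    have hn' : ¬ (centralizer ({k} : Set G) ⊓ P ≤ centralizer ({g} : Set G)) := by
      intro h1
      rcases eq_or_le_of_relIndex_prime hp.out h1 (relIndex_eq hP hC h hk) with h2 | h2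
      · have := relIndex_eq hP hC h hg
        rw [relIndex_eq_one.2 h2] at this
        exact hp.out.one_lt.ne this
      · exact hn h2
    obtain ⟨u, hu, huk⟩ := SetLike.not_le_iff_exists.1 hn
    obtain ⟨v, hv, hvg⟩ := SetLike.not_le_iff_exists.1 hn'
    have e1 : ∀ w : G, ⁅w, g * k⁆ = ⁅w, g⁆ * (g * ⁅w, k⁆ * g⁻¹) := fun w => by
      simp only [commutatorElement_def]; group
    have e2 : ⁅v, g * k⁆ = ⁅v, g⁆ := by rw [e1, he hv.1]; simp
    have e3 : ⁅u, g * k⁆ = g * ⁅u, k⁆ * g⁻¹ := by rw [e1, he hu.1]; simp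
    have hgk : g * k ∉ P := by
      intro h1
      apply hne hvg
      rw [← e2]
      exact commutatorElement_eq_one_iff_mul_comm.2 (hab _ hv.2 _ h1)
    have e4 : (cmap hab (g * k)).range = (cmap hab g).range :=
      eq_of_card_prime (hcard _ hgk) (hcard _ hg) (hne hvg)
        ((mem_range_cmap hab).2 ⟨v, hv.2, e2⟩) ((mem_range_cmap hab).2 ⟨v, hv.2, rfl⟩)
    have e5 : g * ⁅u, k⁆ * g⁻¹ ∈ (cmap hab g).range := by
      rw [← e4]; exact (mem_range_cmap hab).2 ⟨u, hu.2, e3⟩
    have e6 := hconj g⁻¹ g _ e5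
    have e7 : g⁻¹ * g * g⁻¹⁻¹ = g := by group
    have e8 : g⁻¹ * (g * ⁅u, k⁆ * g⁻¹) * g⁻¹⁻¹ = ⁅u, k⁆ := by group
    rw [e7, e8] at e6
    exact eq_of_card_prime (hcard _ hg) (hcard _ hk) (hne huk) e6
      ((mem_range_cmap hab).2 ⟨u, hu.2, rfl⟩)
  by_cases hall : ∀ g k : G, g ∉ P → k ∉ P →
      centralizer ({g} : Set G) ⊓ P ≤ centralizer ({k} : Set G)
  · -- all the centralizers agree
    set D := centralizer ({g₀} : Set G) ⊓ P with hD
    have hDc : ∀ d ∈ D, ∀ g : G, d * g = g * d := by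
      intro d hd g
      by_cases hg : g ∈ P
      · exact hab _ hd.2 _ hg
      · exact mem_centralizer_singleton_iff.1 (hall g₀ g hg₀ hg hd)
    haveI hDn : D.Normal := ⟨fun d hd g => by rw [← hDc d hd g]; simpa using hd⟩
    let π := QuotientGroup.mk' D
    haveI : (P.map π).Normal := hPn.map π (QuotientGroup.mk'_surjective D)
    have hc : Nat.card (P.map π) = p := by
      rw [← relIndex_ker, QuotientGroup.ker_mk', hD, inf_relIndex_right]
      exact relIndex_eq hP hC h hg₀
    obtain ⟨z, hz⟩ := exists_gen_mod_centralizer (P.map π) (hc ▸ hp.out)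
    obtain ⟨z, rfl⟩ := QuotientGroup.mk'_surjective D z
    have hK : (centralizer ((P.map π : Subgroup (G ⧸ D)) : Set (G ⧸ D))).comap π ≤ P := by
      apply le_of_quadratic hP hC hmax h hab _ (Normal.comap inferInstance π)
      intro c hc u hu
      apply hDc
      rw [← QuotientGroup.ker_mk' D, MonoidHom.mem_ker, map_commutatorElement,
        commutatorElement_eq_one_iff_mul_comm]
      exact mem_centralizer_iff.1 hc _ ⟨u, hu, rfl⟩
    refine ⟨z, fun g => ?_⟩
    obtain ⟨k, hk⟩ := hz (π g)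
    refine ⟨k, hK ?_⟩
    rw [mem_comap, map_mul, map_inv, map_zpow]
    exact hk
  · push Not at hall
    obtain ⟨g, k, hg, hk, hn⟩ := hall
    have hT : ∀ x, x ∉ P → (cmap hab x).range = (cmap hab g).range := by
      intro x hx
      by_cases h1 : centralizer ({g} : Set G) ⊓ P ≤ centralizer ({x} : Set G)
      · rw [hdiff g k hg hk hn]
        apply hdiff x k hx hk
        intro h2
        exact hn (fun y hy => h2 ⟨h1 hy, hy.2⟩)
      · exact (hdiff g x hg hx h1).symm
    set T := (cmap hab g).range with hTd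
    haveI hTn : T.Normal := ⟨fun t ht x => by
      have h1 := hconj x g t ht
      rwa [hT _ (fun h2 => hg (by simpa [mul_assoc] using hPn.conj_mem _ h2 x⁻¹))] at h1⟩
    obtain ⟨z, hz⟩ := exists_gen_mod_centralizer T ((hcard g hg).symm ▸ hp.out)
    have hK : centralizer (T : Set G) ≤ P := by
      apply le_of_quadratic hP hC hmax h hab _ inferInstance
      intro c hc u hu
      by_cases hcP : c ∈ P
      · exact hab _ (comm_mem hu c) _ hcP
      · apply mem_centralizer_iff.1 hc
        rw [SetLike.mem_coe, ← hT c hcP]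
        exact (mem_range_cmap hab).2 ⟨u, hu, rfl⟩
    exact ⟨z, fun x => (hz x).imp fun k hk => hK hk⟩

theorem card_commutator_of_comm (hP : IsPGroup p P) (hC : centralizer (P : Set G) ≤ P)
    (hmax : ∀ K : Subgroup G, K.Normal → IsPGroup p K → K ≤ P)
    (h : ∀ x : G, ¬ p ^ 2 ∣ (centralizer ({x} : Set G)).index)
    (hab : ∀ u ∈ P, ∀ v ∈ P, u * v = v * u) : Nat.card (commutator G) ∣ p := by
  obtain ⟨z, hz⟩ := exists_gen_mod hP hC hmax h hab
  set T := (cmap hab z).range with hT
  have hTP : T ≤ P := by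
    intro t ht
    obtain ⟨u, hu, rfl⟩ := (mem_range_cmap hab).1 ht
    exact comm_mem hu z
  haveI hTn : T.Normal := by
    rw [← normalizer_eq_top_iff, eq_top_iff]
    intro g _
    obtain ⟨k, hk⟩ := hz g
    have h1 : z ∈ normalizer (T : Set G) := by
      apply mem_normalizer_fintype
      intro t ht
      obtain ⟨u, hu, rfl⟩ := (mem_range_cmap hab).1 ht
      refine (mem_range_cmap hab).2 ⟨z * u * z⁻¹, hPn.conj_mem u hu z, ?_⟩
      simp only [commutatorElement_def]; group
    have h2 : (z ^ k)⁻¹ * g ∈ normalizer (T : Set G) := by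
      apply mem_normalizer_fintype
      intro t ht
      rw [hab _ hk _ (hTP ht), mul_inv_cancel_right]
      exact ht
    have : g = z ^ k * ((z ^ k)⁻¹ * g) := by group
    rw [this]
    exact mul_mem (zpow_mem h1 k) h2
  have hle : commutator G ≤ T := by
    let π := QuotientGroup.mk' T
    have hc : ∀ u ∈ P, Commute (π u) (π z) := by
      intro u hu
      rw [← commutatorElement_eq_one_iff_commute, ← map_commutatorElement, ← MonoidHom.mem_ker,
        QuotientGroup.ker_mk']
      exact (mem_range_cmap hab).2 ⟨u, hu, rfl⟩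
    rw [_root_.commutator_def, commutator_le]
    intro a _ b _
    rw [← QuotientGroup.ker_mk' T, MonoidHom.mem_ker, map_commutatorElement,
      commutatorElement_eq_one_iff_commute]
    obtain ⟨k, hk⟩ := hz a
    obtain ⟨l, hl⟩ := hz b
    have ha : a = z ^ k * ((z ^ k)⁻¹ * a) := by group
    have hb : b = z ^ l * ((z ^ l)⁻¹ * b) := by group
    rw [ha, hb, map_mul, map_mul _ (z ^ l), map_zpow, map_zpow]
    refine Commute.mul_left (Commute.mul_right ?_ ?_) (Commute.mul_right ?_ ?_)
    · exact Commute.zpow_zpow_self _ _ _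
    · exact ((hc _ hl).zpow_right k).symm
    · exact (hc _ hk).zpow_right l
    · exact (show Commute _ _ from hab _ hk _ hl).map π
  refine (card_dvd_of_le hle).trans ?_
  rw [hT, card_range_cmap]
  exact relIndex_dvd hP h z

end Main

theorem card_commutator_dvd [Finite G] [Group.IsSolvable G] {p : ℕ} [hp : Fact p.Prime]
    (hO : pPrimeCore p G = ⊥) (h : ∀ x : G, ¬ p ^ 2 ∣ (centralizer ({x} : Set G)).index) :
    Nat.card (commutator G) ∣ p := by
  by_cases hG : IsPGroup p G
  · exact card_commutator_of_isPGroup hG h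
  have hP := Grp.pCore_isPGroup p G
  have hC := Grp.centralizer_pCore_le hO
  obtain ⟨q, hq, hqd, hqp⟩ : ∃ q : ℕ, q.Prime ∧ q ∣ Nat.card G ∧ q ≠ p := by
    by_contra hc
    push Not at hc
    exact hG (IsPGroup.of_card (Nat.eq_prime_pow_of_unique_prime_dvd Nat.card_pos.ne'
      (fun {q} hq hd => hc q hq hd)))
  haveI : Fact q.Prime := ⟨hq⟩
  obtain ⟨a, ha⟩ := exists_prime_orderOf_dvd_card' q hqd
  have ha1 : a ≠ 1 := by
    rintro rfl
    rw [orderOf_one] at ha
    exact hq.one_lt.ne ha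
  exact card_commutator_of_comm hP hC (fun K hK hpK => Grp.le_pCore hK hpK) h
    (comm_of_coprime hP hC h ha1 (ha ▸ (Nat.coprime_primes hq hp.out).2 hqp))

end Cfsg.Agent.FGS.Sqf
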