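import Mathlib
import Cfsg.Agent.Grp.Card
import Cfsg.Agent.Grp.Cores

/-!
Numbers of Sylow subgroups: behaviour under normal subgroups and quotients.
-/

set_option autoImplicit false

open scoped Pointwise commutatorElement

namespace Cfsg.Agent.FGS

variable {G : Type*} [Group G] {p : ℕ}

/-- A normal subgroup containing one Sylow `p`-subgroup contains all of them. -/
theorem sylow_le_of_normal_of_le [Finite G] [Fact p.Prime] {N : Subgroup G} [hN : N.Normal]
    {P : Sylow p G} (hP : (P : Subgroup G) ≤ N) (Q : Sylow p G) : (Q : Subgroup G) ≤ N := by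
  obtain ⟨g, rfl⟩ := MulAction.exists_smul_eq G P Q
  rw [Sylow.coe_subgroup_smul, ← Grp.conj_smul_normal g N]
  exact Subgroup.pointwise_smul_le_pointwise_smul_iff.mpr hP

/-- A normal subgroup containing a Sylow `p`-subgroup has as many Sylow `p`-subgroups as the
whole group. -/
theorem card_sylow_of_normal_of_le [Finite G] [Fact p.Prime] (N : Subgroup G) [N.Normal]
    {P : Sylow p G} (hP : (P : Subgroup G) ≤ N) :
    Nat.card (Sylow p N) = Nat.card (Sylow p G) := by
  symm
  refine Nat.card_eq_of_bijective (fun Q => Q.subtype (sylow_le_of_normal_of_le hP Q)) ⟨?_, ?_⟩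
  · intro Q R h
    exact Sylow.subtype_injective h
  · intro R
    obtain ⟨Q, hQ⟩ := R.exists_comap_subtype_eq
    exact ⟨Q, Sylow.ext hQ⟩

/-- If the kernel of a surjection normalizes a Sylow `p`-subgroup, the image has as many Sylow
`p`-subgroups as the group. -/
theorem card_sylow_of_surjective_of_ker_le [Finite G] [Fact p.Prime] {G' : Type*} [Group G']
    (f : G →* G') (hf : Function.Surjective f)
    (hK : ∀ Q : Sylow p G, f.ker ≤ Subgroup.normalizer ((Q : Subgroup G) : Set G)) :
    Nat.card (Sylow p G') = Nat.card (Sylow p G) := by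
  symm
  refine Nat.card_eq_of_bijective (fun Q => Q.mapSurjective hf)
    ⟨?_, Sylow.mapSurjective_surjective hf p⟩
  intro Q R h
  have h1 : (Q : Subgroup G).map f = (R : Subgroup G).map f := congrArg Sylow.toSubgroup h
  have h2 : (Q : Subgroup G) ≤ Subgroup.normalizer ((R : Subgroup G) : Set G) := by
    calc (Q : Subgroup G) ≤ ((Q : Subgroup G).map f).comap f := Subgroup.le_comap_map _ _
      _ = (R : Subgroup G) ⊔ f.ker := by rw [h1, Subgroup.comap_map_eq]
      _ ≤ _ := sup_le Subgroup.le_normalizer (hK R)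
  have h3 : (Q : Subgroup G) ≤ R := by
    rw [← inf_eq_left, ← Q.isPGroup'.inf_normalizer_sylow R, inf_eq_left]
    exact h2
  exact Sylow.ext (Q.is_maximal' R.isPGroup' h3).symm

/-- Sylow numbers are invariant under isomorphism. -/
theorem card_sylow_congr [Finite G] [Fact p.Prime] {G' : Type*} [Group G'] (e : G ≃* G') :
    Nat.card (Sylow p G) = Nat.card (Sylow p G') := by
  refine (card_sylow_of_surjective_of_ker_le e.toMonoidHom e.surjective fun Q => ?_).symm
  rw [(MonoidHom.ker_eq_bot_iff _).mpr e.injective]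
  exact bot_le

/-- The length of the orbit of a Sylow subgroup `Q` under a `p`-subgroup `P` is `[P : P ∩ Q]`. -/
theorem card_orbit_sylow {P : Subgroup G} (hP : IsPGroup p P) (Q : Sylow p G) :
    Nat.card (MulAction.orbit P Q) = (Q : Subgroup G).relIndex P := by
  rw [Nat.card_coe_set_eq, ← MulAction.index_stabilizer, Subgroup.relIndex]
  congr 1
  ext x
  rw [MulAction.mem_stabilizer_iff, Subgroup.mem_subgroupOf]
  change (x : G) • Q = Q ↔ _
  rw [Sylow.smul_eq_iff_mem_normalizer]
  constructor
  · intro h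
    have : (x : G) ∈ P ⊓ Subgroup.normalizer (Q : Set G) := ⟨x.2, h⟩
    rw [hP.inf_normalizer_sylow] at this
    exact this.2
  · intro h
    exact Subgroup.le_normalizer h

/-- If there are fewer than `p ^ 2` Sylow `p`-subgroups, two distinct ones meet in a subgroup of
index `p`. -/
theorem relIndex_sylow_eq_of_card_lt [Finite G] [hp : Fact p.Prime]
    (h : Nat.card (Sylow p G) < p ^ 2) {P Q : Sylow p G} (hne : P ≠ Q) :
    (Q : Subgroup G).relIndex P = p := by
  have h1 := card_orbit_sylow P.isPGroup' Q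
  obtain ⟨k, hk⟩ := P.isPGroup'.index ((Q : Subgroup G).subgroupOf P)
  have h2 : Nat.card (MulAction.orbit (P : Subgroup G) Q) ≤ Nat.card (Sylow p G) :=
    Nat.card_le_card_of_injective _ Subtype.val_injective
  rw [h1] at h2
  rw [Subgroup.relIndex, hk] at h2 ⊢
  have h3 : k < 2 := (Nat.pow_lt_pow_iff_right hp.out.one_lt).mp (lt_of_le_of_lt h2 h)
  have h4 : k ≠ 0 := by
    rintro rfl
    rw [pow_zero, Subgroup.index_eq_one, Subgroup.subgroupOf_eq_top] at hk
    exact hne (Sylow.ext (P.is_maximal' Q.isPGroup' hk).symm)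
  obtain rfl : k = 1 := by omega
  exact pow_one p

/-- If there are fewer than `p ^ 2` Sylow `p`-subgroups and `O_p(G) = 1`, the Sylow `p`-subgroups
are abelian. -/
theorem sylow_comm_of_card_lt [Finite G] [hp : Fact p.Prime]
    (h : Nat.card (Sylow p G) < p ^ 2) (hO : pCore p G = ⊥) (P : Sylow p G) :
    IsMulCommutative (P : Subgroup G) := by
  have key : ∀ Q : Sylow p G, P ≠ Q → ∀ x y : (P : Subgroup G), ((⁅x, y⁆ : (P : Subgroup G)) : G) ∈ (Q : Subgroup G) := by
    intro Q hQ x y
    have hi : ((Q : Subgroup G).subgroupOf P).index = p := relIndex_sylow_eq_of_card_lt h hQ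
    obtain ⟨k, hk⟩ := P.isPGroup'.exists_card_eq
    have hk0 : k ≠ 0 := by
      rintro rfl
      have := ((Q : Subgroup G).subgroupOf P).index_dvd_card
      rw [hi, hk, pow_zero, Nat.dvd_one] at this
      exact hp.out.ne_one this
    have hn : ((Q : Subgroup G).subgroupOf P).Normal := by
      apply Subgroup.normal_of_index_eq_minFac_card
      rw [hi, hk, hp.out.pow_minFac hk0]
    have hc : IsCyclic ((P : Subgroup G) ⧸ (Q : Subgroup G).subgroupOf P) :=
      isCyclic_of_prime_card (p := p) hi
    have hcomm := hc.isMulCommutative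
    rw [← Subgroup.mem_subgroupOf, ← QuotientGroup.eq_one_iff]
    change QuotientGroup.mk' _ ⁅x, y⁆ = 1
    rw [map_commutatorElement, commutatorElement_eq_one_iff_mul_comm]
    exact hcomm.is_comm.comm _ _
  refine ⟨⟨fun x y => ?_⟩⟩
  rw [← commutatorElement_eq_one_iff_mul_comm]
  apply Subtype.ext
  have : ((⁅x, y⁆ : (P : Subgroup G)) : G) ∈ pCore p G := by
    rw [Grp.pCore_eq_iInf_sylow, Subgroup.mem_iInf]
    intro Q
    by_cases hQ : P = Q
    · subst hQ; exact Subtype.prop _
    · exact key Q hQ x y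
  rw [hO] at this
  exact this

end Cfsg.Agent.FGS
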