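import Mathlib
import Cfsg.Agent.PLocal.AmbSyl

/-! Sylow subgroups which are TI sets. -/

set_option autoImplicit false

namespace Cfsg.Agent.FGS

open Subgroup Cfsg.Agent.PLocal.Amb
open scoped Pointwise

variable {G : Type*} [Group G] [Finite G] {p : ℕ} [Fact p.Prime]

/-- Distinct Sylow `p`-subgroups intersect trivially. -/
def SylowTI (p : ℕ) (G : Type*) [Group G] : Prop :=
  ∀ T T' : Subgroup G, IsSyl p T ⊤ → IsSyl p T' ⊤ → T ⊓ T' ≠ ⊥ → T = T'

theorem sylowTI_iff (P : Sylow p G) :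
    (∀ g : G, g ∉ 𝐍[(P : Subgroup G)] → (P : Subgroup G) ⊓ (MulAut.conj g • (P : Subgroup G)) = ⊥) ↔
      SylowTI p G := by
  constructor
  · intro h T T' hT hT' h1
    obtain ⟨g, -, rfl⟩ := hT.exists_cj_eq (isSyl_top P)
    obtain ⟨g', -, rfl⟩ := hT'.exists_cj_eq (isSyl_top P)
    by_contra h2
    have h3 := h (g⁻¹ * g') fun h3 => h2 (by
      rw [← cj_inj (g := g⁻¹), cj_inv_cj, ← cj_mul, cj_of_mem_normalizer h3])
    apply h1
    rw [← cj_eq_bot (g := g⁻¹), cj_inf, cj_inv_cj, ← cj_mul]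
    exact h3
  · intro h g hg
    by_contra h1
    exact hg (cj_eq_iff.1 (h _ _ (isSyl_top P) ((isSyl_top P).cj_of_mem (mem_top g)) h1).symm)

omit [Finite G] [Fact p.Prime] in
theorem SylowTI.subgroup (h : SylowTI p G) (U : Subgroup G) : SylowTI p U := by
  intro T T' hT hT' h1
  obtain ⟨Q, rfl⟩ := hT.exists_sylow_top
  obtain ⟨Q', rfl⟩ := hT'.exists_sylow_top
  have h2 := isSyl_map_subtype Q
  have h3 := isSyl_map_subtype Q'
  obtain ⟨S, hS, hQS⟩ := exists_isSyl_ge h2.pgrp (le_top : _ ≤ ⊤)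
  obtain ⟨S', hS', hQS'⟩ := exists_isSyl_ge h3.pgrp (le_top : _ ≤ ⊤)
  have h4 : S = S' := h S S' hS hS' fun h4 => h1 (by
    rw [← map_eq_bot_iff_of_injective _ (subtype_injective U),
      map_inf _ _ _ (subtype_injective U), eq_bot_iff]
    exact (inf_le_inf hQS hQS').trans h4.le)
  subst h4
  apply map_injective (subtype_injective U)
  rw [← h2.eq hS.pgrp.to_inf_left (le_inf hQS h2.le) inf_le_right,
    ← h3.eq hS.pgrp.to_inf_left (le_inf hQS' h3.le) inf_le_right]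

theorem SylowTI.of_surjective {Q : Type*} [Group Q] [Finite Q] (h : SylowTI p G) (f : G →* Q)
    (hf : Function.Surjective f) : SylowTI p Q := by
  intro T T' hT hT' h1
  obtain ⟨S, hS⟩ := exists_isSyl p ((T ⊓ T').comap f)
  have h2 : S ≠ ⊥ := by
    rintro rfl
    have h3 := hS.map f
    rw [map_comap_eq_self_of_surjective hf, Subgroup.map_bot] at h3
    exact h1 (h3.eq hT.pgrp.to_inf_left bot_le le_rfl)
  have key : ∀ R : Subgroup Q, IsSyl p R ⊤ → T ⊓ T' ≤ R →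
      ∃ X : Subgroup G, IsSyl p X ⊤ ∧ S ≤ X ∧ X.map f = R := by
    intro R hR h3
    obtain ⟨X, hX, hSX⟩ := exists_isSyl_ge hS.pgrp (hS.le.trans (comap_mono h3))
    have h4 := hX.map f
    rw [map_comap_eq_self_of_surjective hf] at h4
    have h5 : X.map f = R := (h4.eq hR.pgrp h4.le le_rfl).symm
    obtain ⟨Y, hY, hXY⟩ := exists_isSyl_ge hX.pgrp (le_top : _ ≤ ⊤)
    exact ⟨Y, hY, hSX.trans hXY, hR.eq (hY.pgrp.map f) (h5 ▸ map_mono hXY) le_top⟩
  obtain ⟨X, hX, h3, rfl⟩ := key T hT inf_le_left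
  obtain ⟨X', hX', h4, rfl⟩ := key T' hT' inf_le_right
  rw [h X X' hX hX' fun h5 => h2 (eq_bot_iff.2 ((le_inf h3 h4).trans h5.le))]

end Cfsg.Agent.FGS
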