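import Mathlib
import Cfsg.Agent.FGS.SylowNumber
import Cfsg.Agent.S0060
import Cfsg.Agent.Inv.SylowTwo
import Cfsg.Agent.Small.Tools

/-!
A smallest finite group with exactly `2 p + 1` Sylow `p`-subgroups (`p` odd) has odd order
`(2 p + 1) p m` with `m ∣ p - 1`.
-/

set_option autoImplicit false

open scoped Pointwise

namespace Cfsg.Agent.FGS

universe u

variable {G : Type u} [Group G] [Finite G] {p : ℕ} [hp : Fact p.Prime]

theorem minSylow_faithful {n : ℕ} (hG : Nat.card (Sylow p G) = n)
    (hmin : ∀ (H : Type u) [Group H] [Finite H], Nat.card H < Nat.card G →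
      Nat.card (Sylow p H) ≠ n) : Function.Injective (MulAction.toPermHom G (Sylow p G)) := by
  rw [← MonoidHom.ker_eq_bot_iff]
  by_contra hK
  refine hmin (G ⧸ (MulAction.toPermHom G (Sylow p G)).ker) (Grp.card_quotient_lt _ hK) ?_
  rw [card_sylow_of_surjective_of_ker_le (QuotientGroup.mk' _) (QuotientGroup.mk'_surjective _), hG]
  intro Q x hx
  rw [QuotientGroup.ker_mk', MonoidHom.mem_ker] at hx
  exact Sylow.smul_eq_iff_mem_normalizer.mp (congrArg (fun σ : Equiv.Perm (Sylow p G) => σ Q) hx)

theorem minSylow_eq_top {n : ℕ} (hG : Nat.card (Sylow p G) = n)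
    (hmin : ∀ (H : Type u) [Group H] [Finite H], Nat.card H < Nat.card G →
      Nat.card (Sylow p H) ≠ n) (N : Subgroup G) [N.Normal] (hN : ¬ p ∣ N.index) : N = ⊤ := by
  by_contra hne
  obtain ⟨P⟩ := (inferInstance : Nonempty (Sylow p G))
  have hP : (P : Subgroup G) ≤ N := by
    obtain ⟨k, hk⟩ := P.isPGroup'.exists_card_eq
    refine Grp.le_normal_of_coprime_card_index ?_
    rw [hk]
    exact Nat.Coprime.pow_left k ((Nat.Prime.coprime_iff_not_dvd hp.out).mpr hN)
  exact hmin N (Grp.card_lt_of_ne_top hne) (by rw [card_sylow_of_normal_of_le N hP, hG])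

theorem pCore_eq_bot_of_faithful_sylow
    (hf : Function.Injective (MulAction.toPermHom G (Sylow p G))) : pCore p G = ⊥ := by
  rw [eq_bot_iff]
  intro x hx
  rw [Subgroup.mem_bot]
  apply hf
  rw [map_one]
  ext1 Q
  exact Sylow.smul_eq_iff_mem_normalizer.mpr (Subgroup.le_normalizer (Grp.pCore_le_sylow Q hx))

theorem card_sylow_eq_prime_of_card_lt (h : Nat.card (Sylow p G) < p ^ 2)
    (h1 : Nat.card (Sylow p G) ≠ 1) (hO : pCore p G = ⊥) (P : Sylow p G) :
    Nat.card (P : Subgroup G) = p := by
  obtain ⟨g, hg⟩ := S0060.result p P (sylow_comm_of_card_lt h hO P) hO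
  rw [← Sylow.coe_subgroup_smul] at hg
  by_cases hne : P = g • P
  · exfalso
    rw [← hne, inf_idem] at hg
    apply h1
    rw [P.card_eq_index_normalizer, Subgroup.index_eq_one, ← P.coe_coe,
      Subgroup.normalizer_eq_top_iff, hg]
    infer_instance
  · have := Grp.card_inf_mul_relIndex' ((g • P : Sylow p G) : Subgroup G) (P : Subgroup G)
    rw [inf_comm, hg, Subgroup.card_bot, one_mul, relIndex_sylow_eq_of_card_lt h hne] at this
    exact this.symm

theorem card_fixed_sylow_modEq (P : Sylow p G) {c : G}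
    (hc : c ∈ Subgroup.centralizer ((P : Subgroup G) : Set G)) :
    Nat.card {Q : Sylow p G // c • Q = Q} ≡ 1 [MOD p] := by
  let S : SubMulAction (P : Subgroup G) (Sylow p G) :=
    { carrier := {Q | c • Q = Q}
      smul_mem' := by
        intro x Q hQ
        change c • ((x : G) • Q) = (x : G) • Q
        rw [← mul_smul, ← hc x x.2, mul_smul, hQ] }
  have h1 := P.isPGroup'.card_modEq_card_fixedPoints S
  have hPS : P ∈ S := Sylow.smul_eq_iff_mem_normalizer.mpr
    (Subgroup.centralizer_le_normalizer _ hc)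
  have h2 : Nat.card (MulAction.fixedPoints (P : Subgroup G) S) = 1 := by
    rw [Nat.card_eq_one_iff_exists]
    refine ⟨⟨⟨P, hPS⟩, fun x => Subtype.ext ?_⟩, ?_⟩
    · exact Sylow.smul_eq_iff_mem_normalizer.mpr (Subgroup.le_normalizer x.2)
    · rintro ⟨⟨Q, hQ⟩, hQ'⟩
      have h3 : Q ∈ MulAction.fixedPoints (P : Subgroup G) (Sylow p G) :=
        fun x => congrArg Subtype.val (hQ' x)
      rw [P.isPGroup'.sylow_mem_fixedPoints_iff] at h3
      exact Subtype.ext (Subtype.ext (Sylow.ext (P.is_maximal' Q.isPGroup' h3)))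
  rw [h2] at h1
  exact h1

theorem centralizer_sylow_of_two_mul_add_one (hp2 : p ≠ 2)
    (hG : Nat.card (Sylow p G) = 2 * p + 1)
    (hf : Function.Injective (MulAction.toPermHom G (Sylow p G)))
    (h2 : ∀ N : Subgroup G, N.index ≠ 2) (P : Sylow p G) (hP : Nat.card (P : Subgroup G) = p) :
    Nat.card (Subgroup.centralizer ((P : Subgroup G) : Set G)) = p := by
  classical
  have hp3 : 3 ≤ p := by have := hp.out.two_le; omega
  have hcyc : IsCyclic (P : Subgroup G) := isCyclic_of_prime_card hP
  have hle : (P : Subgroup G) ≤ Subgroup.centralizer ((P : Subgroup G) : Set G) :=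
    Subgroup.le_centralizer_iff_isMulCommutative.mpr hcyc.isMulCommutative
  have h3 := Grp.card_mul_relIndex hle
  rw [hP] at h3
  by_contra hne
  have h4 : (P : Subgroup G).relIndex (Subgroup.centralizer ((P : Subgroup G) : Set G)) ≠ 1 := by
    intro h; rw [h, mul_one] at h3; exact hne h3.symm
  obtain ⟨r, hr, hrd⟩ := Nat.exists_prime_and_dvd h4
  have hrp : r ≠ p := by
    rintro rfl
    exact P.not_dvd_index (hrd.trans (Subgroup.relIndex_dvd_index_of_le hle))
  have := Fact.mk hr
  obtain ⟨c, hc⟩ := exists_prime_orderOf_dvd_card' (G := Subgroup.centralizer ((P : Subgroup G) : Set G)) r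
    (h3 ▸ hrd.mul_left p)
  have := Fintype.ofFinite (Sylow p G)
  set σ := MulAction.toPermHom G (Sylow p G) c with hσ
  have hσo : orderOf σ = r := by rw [hσ, orderOf_injective _ hf, Subgroup.orderOf_coe, hc]
  obtain ⟨n, hn⟩ := Equiv.Perm.cycleType_prime_order (σ := σ) (hσo ▸ hr)
  rw [hσo] at hn
  have h5 := card_fixed_sylow_modEq P c.2
  have h6 : Nat.card {Q : Sylow p G // (c : G) • Q = Q} = 2 * p + 1 - (n + 1) * r := by
    have := Equiv.Perm.card_fixedPoints σ
    rw [hn, Multiset.sum_replicate, smul_eq_mul, ← Nat.card_eq_fintype_card,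
      ← Nat.card_eq_fintype_card, hG] at this
    rw [← this]
    rfl
  have h7 : (n + 1) * r ≤ 2 * p + 1 := by
    have := Equiv.Perm.sum_cycleType_le σ
    rwa [hn, Multiset.sum_replicate, smul_eq_mul, ← Nat.card_eq_fintype_card, hG] at this
  have h8 : p ∣ (n + 1) * r := by
    rw [h6] at h5
    have h9 : 2 * p + 1 - (n + 1) * r + (n + 1) * r ≡ 1 + (n + 1) * r [MOD p] := h5.add_right _
    rw [Nat.sub_add_cancel h7] at h9
    have h10 : 2 * p + 1 ≡ 0 + 1 [MOD p] :=
      ((Nat.modEq_zero_iff_dvd).mpr (dvd_mul_left p 2)).add_right 1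
    have h11 : 1 + (n + 1) * r ≡ 1 + 0 [MOD p] := by
      rw [add_zero]; simpa using h9.symm.trans h10
    exact (Nat.modEq_zero_iff_dvd).mp (Nat.ModEq.add_left_cancel' 1 h11)
  have h12 : p ∣ n + 1 := by
    rcases (Nat.Prime.dvd_mul hp.out).mp h8 with h | h
    · exact h
    · exact absurd ((Nat.prime_dvd_prime_iff_eq hp.out hr).mp h).symm hrp
  obtain ⟨t, ht⟩ := h12
  have hr2 := hr.two_le
  have ht0 : t ≠ 0 := by rintro rfl; omega
  have h13 : t * r ≤ 2 := by
    by_contra hcon
    have : 3 ≤ t * r := by omega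
    have : p * 3 ≤ p * (t * r) := Nat.mul_le_mul_left p this
    rw [ht, mul_assoc] at h7
    omega
  have ht1 : t = 1 := by nlinarith [Nat.pos_of_ne_zero ht0]
  have hr2' : r = 2 := by rw [ht1] at h13; omega
  rw [ht1, mul_one] at ht
  have hsign : Equiv.Perm.sign σ = -1 := by
    rw [Equiv.Perm.sign_of_cycleType, hn, Multiset.sum_replicate, Multiset.card_replicate,
      smul_eq_mul, ht, hr2']
    have : Odd (p * 2 + p) := by
      have := hp.out.odd_of_ne_two hp2
      exact (Even.add_odd (by simp) this)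
    exact this.neg_one_pow
  refine h2 (Equiv.Perm.sign.comp (MulAction.toPermHom G (Sylow p G))).ker ?_
  rw [Subgroup.index_ker]
  have : (Equiv.Perm.sign.comp (MulAction.toPermHom G (Sylow p G))).range = ⊤ := by
    rw [eq_top_iff]
    intro u _
    rcases Int.units_eq_one_or u with rfl | rfl
    · exact Subgroup.one_mem _
    · exact ⟨c, hsign⟩
  rw [this, Subgroup.card_top, Nat.card_eq_fintype_card]
  rfl

/-- A smallest group with `2 p + 1` Sylow `p`-subgroups. -/
theorem minSylow_two_mul_add_one (hp2 : p ≠ 2) (hG : Nat.card (Sylow p G) = 2 * p + 1)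
    (hmin : ∀ (H : Type u) [Group H] [Finite H], Nat.card H < Nat.card G →
      Nat.card (Sylow p H) ≠ 2 * p + 1) :
    Odd (Nat.card G) ∧ ∃ m, m ∣ p - 1 ∧ Nat.card G = (2 * p + 1) * p * m := by
  have hp3 : 3 ≤ p := by have := hp.out.two_le; omega
  have hf := minSylow_faithful hG hmin
  have h2 : ∀ N : Subgroup G, N.index ≠ 2 := by
    intro N hN
    have := Subgroup.normal_of_index_eq_two hN
    have h := minSylow_eq_top hG hmin N (by
      rw [hN]; intro h
      exact hp2 ((Nat.prime_dvd_prime_iff_eq hp.out Nat.prime_two).mp h))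
    rw [h, Subgroup.index_top] at hN
    omega
  have hP : ∀ P : Sylow p G, Nat.card (P : Subgroup G) = p :=
    card_sylow_eq_prime_of_card_lt (by rw [hG]; nlinarith) (by rw [hG]; omega)
      (pCore_eq_bot_of_faithful_sylow hf)
  have hC := fun P => centralizer_sylow_of_two_mul_add_one hp2 hG hf h2 P (hP P)
  constructor
  · rw [← Nat.not_even_iff_odd]
    intro heven
    obtain ⟨T⟩ := (inferInstance : Nonempty (Sylow 2 G))
    obtain ⟨Q, hQ⟩ := T.isPGroup'.nonempty_fixed_point_of_prime_not_dvd_card (Sylow p G)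
      (by rw [hG]; omega)
    rw [Subgroup.sylow_mem_fixedPoints_iff] at hQ
    have hcyc : IsCyclic (Q : Subgroup G) := isCyclic_of_prime_card (hP Q)
    have hA : IsCyclic (MulAut (Q : Subgroup G)) := by
      have e := hcyc.mulAutMulEquiv (Q : Subgroup G)
      rw [hP Q] at e
      exact isCyclic_of_injective e.toMonoidHom e.injective
    have hT : IsCyclic (T : Subgroup G) := by
      refine isCyclic_of_injective
        ((Q : Subgroup G).normalizerMonoidHom.comp (Subgroup.inclusion hQ)) ?_
      rw [← MonoidHom.ker_eq_bot_iff, eq_bot_iff]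
      intro x hx
      rw [← MonoidHom.comap_ker, Subgroup.normalizerMonoidHom_ker] at hx
      have hx' : (x : G) ∈ Subgroup.centralizer ((Q : Subgroup G) : Set G) := hx
      have h3 : orderOf (x : G) ∣ p := hC Q ▸ Subgroup.orderOf_dvd_natCard _ hx'
      obtain ⟨k, hk⟩ := T.isPGroup' x
      have h4 : orderOf (x : G) ∣ 2 ^ k := by
        rw [Subgroup.orderOf_coe]; exact orderOf_dvd_of_pow_eq_one hk
      have h5 : orderOf (x : G) = 1 := Nat.eq_one_of_dvd_coprimes
        (Nat.Coprime.pow_right k ((Nat.coprime_primes hp.out Nat.prime_two).mpr hp2)) h3 h4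
      rw [Subgroup.mem_bot]
      exact Subtype.ext (orderOf_eq_one_iff.mp h5)
    obtain ⟨H, hH⟩ := Inv.exists_index_two_of_cyclic_sylow heven T hT
    exact h2 H hH
  · obtain ⟨P⟩ := (inferInstance : Nonempty (Sylow p G))
    have hcyc : IsCyclic (P : Subgroup G) := isCyclic_of_prime_card (hP P)
    refine ⟨(Subgroup.centralizer ((P : Subgroup G) : Set G)).relIndex
      (Subgroup.normalizer ((P : Subgroup G) : Set G)), ?_, ?_⟩
    · have := Small.relIndex_centralizer_dvd_card_mulAut (P : Subgroup G)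
      rwa [hcyc.card_mulAut, hP P, Nat.totient_prime hp.out] at this
    · rw [← Small.card_sylow_mul_card_normalizer P, ← Small.card_centralizer_mul_relIndex, hC P,
        hG, mul_assoc]

/-- If `5` divides `2 p + 1` and `25` does not divide `(2 p + 1) p (p - 1)`, no finite group has
exactly `2 p + 1` Sylow `p`-subgroups. -/
theorem card_sylow_ne_two_mul_add_one (hp2 : p ≠ 2) (h5 : 5 ∣ 2 * p + 1)
    (h25 : ¬ 25 ∣ (2 * p + 1) * p * (p - 1)) (G : Type u) [Group G] [Finite G] :
    Nat.card (Sylow p G) ≠ 2 * p + 1 := by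
  induction hn : Nat.card G using Nat.strong_induction_on generalizing G with
  | _ n ih =>
    intro hG
    have hmin : ∀ (H : Type u) [Group H] [Finite H], Nat.card H < Nat.card G →
        Nat.card (Sylow p H) ≠ 2 * p + 1 := fun H _ _ hH => ih _ (hn ▸ hH) H rfl
    obtain ⟨hodd, m, hm, hcard⟩ := minSylow_two_mul_add_one hp2 hG hmin
    have : Fact (Nat.Prime 5) := ⟨by norm_num⟩
    obtain ⟨R⟩ := (inferInstance : Nonempty (Sylow 5 G))
    have h5G : 5 ∣ Nat.card G := hcard ▸ (h5.mul_right p).mul_right m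
    obtain ⟨k, hk⟩ := h5G
    have hR : Nat.card (R : Subgroup G) = 5 := by
      have := Small.card_sylow_subgroup (p := 5) (k := 1) (m := k) (by rw [hk, pow_one]) (by
        intro h
        apply h25
        have : 25 ∣ Nat.card G := by rw [hk]; exact Nat.mul_dvd_mul_left 5 h
        rw [hcard] at this
        exact this.trans (Nat.mul_dvd_mul_left _ hm)) R
      rwa [pow_one] at this
    have hcyc : IsCyclic (R : Subgroup G) := isCyclic_of_prime_card hR
    have h1 := Small.relIndex_centralizer_dvd_card_mulAut (R : Subgroup G)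
    rw [hcyc.card_mulAut, hR, Nat.totient_prime (by norm_num)] at h1
    have h2 : (Subgroup.centralizer ((R : Subgroup G) : Set G)).relIndex
        (Subgroup.normalizer ((R : Subgroup G) : Set G)) ∣ Nat.card G :=
      (Subgroup.relIndex_dvd_card _ _).trans (Subgroup.card_subgroup_dvd_card _)
    have h3 : (Subgroup.centralizer ((R : Subgroup G) : Set G)).relIndex
        (Subgroup.normalizer ((R : Subgroup G) : Set G)) = 1 := by
      refine Nat.eq_one_of_dvd_coprimes (a := 2 ^ 2) (b := Nat.card G) ?_ h1 h2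
      exact Nat.Coprime.pow_left 2 (Nat.coprime_two_left.mpr hodd)
    rw [Subgroup.relIndex_eq_one] at h3
    have hc := MonoidHom.ker_transferSylow_isComplement' R h3
    have h4 := minSylow_eq_top hG hmin (MonoidHom.transferSylow R h3).ker (by
      rw [hc.symm.index_eq_card, hR]
      intro h
      have hp5 : p = 5 := (Nat.prime_dvd_prime_iff_eq hp.out (by norm_num)).mp h
      rw [hp5] at h5
      omega)
    have h6 := hc.symm.index_eq_card
    rw [h4, Subgroup.index_top, hR] at h6
    omega

end Cfsg.Agent.FGS
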