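import Mathlib
import Cfsg.Agent.Grp.Subnormal
import Cfsg.Agent.Grp.PFrattini

/-! Finite groups with two conjugacy classes of maximal subgroups. -/

set_option autoImplicit false
set_option linter.style.haveILetI false

namespace Cfsg.Agent.FGS.TwoMax

open Subgroup
open scoped Pointwise

variable {G : Type*} [Group G]

theorem index_conj (g : G) (M : Subgroup G) : (MulAut.conj g • M).index = M.index := by
  have := relIndex_pointwise_smul (MulAut.conj g) M ⊤
  rwa [Normal.conj_smul_eq_self g ⊤, relIndex_top_right, relIndex_top_right] at this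

theorem conj_smul_eq_iff_mem_normalizer {g : G} {H : Subgroup G} :
    MulAut.conj g • H = H ↔ g ∈ normalizer (H : Set G) := mem_normalizer_iff_map_conj_eq.symm

theorem normalizer_le_sup (X L : Subgroup G) [L.Normal] :
    normalizer (X : Set G) ≤ normalizer ((X ⊔ L : Subgroup G) : Set G) := by
  intro g hg
  rw [← conj_smul_eq_iff_mem_normalizer] at hg ⊢
  rw [Subgroup.smul_sup, hg, Normal.conj_smul_eq_self]

theorem le_conj_iff (g : G) {L M : Subgroup G} [L.Normal] : L ≤ MulAut.conj g • M ↔ L ≤ M := by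
  nth_rw 1 [← Normal.conj_smul_eq_self g L]
  exact pointwise_smul_le_pointwise_smul_iff

variable [Finite G] {M N : Subgroup G}

/-- Every proper subgroup lies in a conjugate of `M` or of `N`. -/
def Cov (M N : Subgroup G) : Prop :=
  ∀ H : Subgroup G, H ≠ ⊤ → ∃ g : G, H ≤ MulAut.conj g • M ∨ H ≤ MulAut.conj g • N

theorem not_dvd_of_sylow_le {p : ℕ} [Fact p.Prime] (P : Sylow p G) {g : G}
    (h : (P : Subgroup G) ≤ MulAut.conj g • M) : ¬ p ∣ M.index := fun e =>
  P.not_dvd_index ((index_conj g M ▸ e).trans (index_dvd_of_le h))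

/-- Two conjugates of `M` over a Sylow subgroup coincide if one contains its normalizer. -/
theorem eq_of_sylow_le {q : ℕ} [Fact q.Prime] (P : Sylow q G) {A : Subgroup G} {g : G}
    (h1 : normalizer ((P : Subgroup G) : Set G) ≤ A) (h2 : (P : Subgroup G) ≤ MulAut.conj g • A) :
    MulAut.conj g • A = A := by
  have h3 : ((g • P : Sylow q G) : Subgroup G) ≤ MulAut.conj g • A :=
    pointwise_smul_le_pointwise_smul_iff.2 (le_normalizer.trans h1)
  obtain ⟨a, ha⟩ := MulAction.exists_smul_eq (MulAut.conj g • A : Subgroup G)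
    ((g • P).subtype h3) (P.subtype h2)
  rw [Sylow.smul_subtype] at ha
  have h4 : ((a : G) * g) • P = P := by
    rw [mul_smul]; exact Sylow.subtype_injective ha
  have h5 := conj_smul_eq_self_of_mem (h1 (Sylow.smul_eq_iff_mem_normalizer.1 h4))
  rwa [map_mul, mul_smul, conj_smul_eq_self_of_mem a.2] at h5

/-- The key step: a `q`-subgroup of two different conjugates of `M` lies in a conjugate of `N`. -/
theorem le_of_two (h : Cov M N) (hL : M.normalCore ≤ N) {q : ℕ} [Fact q.Prime]
    (hq : ¬ q ∣ M.index) (X : Subgroup G) (hX : IsPGroup q X) {a b : G}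
    (hab : MulAut.conj a • M ≠ MulAut.conj b • M) (ha : X ≤ MulAut.conj a • M)
    (hb : X ≤ MulAut.conj b • M) : ∃ g : G, X ≤ MulAut.conj g • N := by
  induction X using WellFoundedGT.induction generalizing a b with
  | ind X ih =>
  by_cases hXL : X ≤ M.normalCore
  · exact ⟨1, by simpa using hXL.trans hL⟩
  have h1 : normalizer ((X ⊔ M.normalCore : Subgroup G) : Set G) ≠ ⊤ := by
    intro e
    haveI := normalizer_eq_top_iff.1 e
    exact hXL (le_sup_left.trans (normal_le_normalCore.2 ((le_conj_iff a).1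
      (sup_le ha ((le_conj_iff a).2 M.normalCore_le)))))
  have h2 := normalizer_le_sup X M.normalCore
  obtain ⟨c, hc | hc⟩ := h _ h1
  swap
  · exact ⟨c, le_normalizer.trans (h2.trans hc)⟩
  replace hc := h2.trans hc
  wlog hac : MulAut.conj a • M ≠ MulAut.conj c • M generalizing a b
  · exact this hab.symm hb ha fun e => hab ((not_not.1 hac).trans e.symm)
  obtain ⟨S, hS⟩ := (hX.comap_subtype (K := MulAut.conj a • M)).exists_le_sylow
  let T := (S : Subgroup (MulAut.conj a • M : Subgroup G)).map (MulAut.conj a • M).subtype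
  have hT : IsPGroup q T := S.isPGroup'.map _
  have hXT : X ≤ T := by
    rw [← map_subgroupOf_eq_of_le ha]; exact map_mono hS
  rcases hXT.eq_or_lt with e | e
  · exfalso
    have h3 : ¬ q ∣ X.index := by
      rw [e, index_map_subtype, index_conj]
      exact fun h => ((Fact.out : q.Prime).dvd_mul.1 h).elim S.not_dvd_index hq
    refine hac ?_
    have h4 := eq_of_sylow_le (hX.toSylow h3) (g := a * c⁻¹) hc (by
      rw [← mul_smul, ← map_mul, inv_mul_cancel_right]; exact ha)
    rwa [← mul_smul, ← map_mul, inv_mul_cancel_right] at h4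
  · have h3 := Grp.lt_inf_normalizer_of_isNilpotent hT.isNilpotent e
    obtain ⟨g, hg⟩ := ih _ h3 (hT.to_inf_left) hac (inf_le_left.trans (map_subtype_le _))
      (inf_le_right.trans hc)
    exact ⟨g, h3.le.trans hg⟩

theorem normal_of_lt (h : Cov M N) (hM : IsCoatom M) (hc : M.index.Coprime N.index)
    (hlt : M.index < N.index) : M.Normal := by
  by_cases hL : M.normalCore ≤ N
  · by_contra hn
    obtain ⟨b, hb⟩ : ∃ b : G, MulAut.conj (1 : G) • M ≠ MulAut.conj b • M := by
      by_contra h
      push Not at h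
      refine hn (normalizer_eq_top_iff.1 (eq_top_iff.2 fun g _ => ?_))
      rw [← conj_smul_eq_iff_mem_normalizer, ← h g, map_one, one_smul]
    let D := MulAut.conj b • M ⊓ M
    have h1 : N.index ∣ D.index := by
      refine (Nat.dvd_iff_prime_pow_dvd_dvd _ _).2 fun q k hq hk => ?_
      rcases k with _ | k
      · simp
      haveI := Fact.mk hq
      have h2 : ¬ q ∣ M.index := fun e => hq.one_lt.ne' (Nat.eq_one_of_dvd_coprimes hc e
        ((dvd_pow_self q k.succ_ne_zero).trans hk))
      let S : Sylow q D := default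
      obtain ⟨g, hg⟩ := le_of_two h hL h2 ((S : Subgroup D).map D.subtype)
        (S.isPGroup'.map _) hb (by simpa using (map_subtype_le _).trans inf_le_right)
        ((map_subtype_le _).trans inf_le_left)
      have h3 := index_dvd_of_le hg
      rw [index_conj, index_map_subtype] at h3
      exact (Nat.Coprime.pow_left _ ((Nat.Prime.coprime_iff_not_dvd hq).2
        S.not_dvd_index)).dvd_of_dvd_mul_left (hk.trans h3)
    rw [← relIndex_mul_index (inf_le_right : D ≤ M), inf_relIndex_right] at h1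
    have h4 : N.index ≤ (MulAut.conj b • M).relIndex M :=
      Nat.le_of_dvd (Nat.pos_of_ne_zero index_ne_zero_of_finite)
      (hc.symm.dvd_of_dvd_mul_right h1)
    have h5 : (MulAut.conj b • M).relIndex M ≤ (MulAut.conj b • M).relIndex ⊤ :=
      relIndex_le_of_le_right le_top index_ne_zero_of_finite
    rw [relIndex_top_right, index_conj] at h5
    omega
  · obtain ⟨p, hp, hpm⟩ := Nat.exists_prime_and_dvd (fun e => hM.1 (index_eq_one.1 e))
    haveI := Fact.mk hp
    let P : Sylow p G := default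
    have h1 : (P : Subgroup G) ⊔ M.normalCore = ⊤ := by
      by_contra e
      obtain ⟨g, hg | hg⟩ := h _ e
      · exact not_dvd_of_sylow_le P (le_sup_left.trans hg) hpm
      · exact hL ((le_conj_iff g).1 (le_sup_right.trans hg))
    have h2 : ((P : Subgroup G) ⊓ M) ⊔ M.normalCore = M := by
      refine le_antisymm (sup_le inf_le_right M.normalCore_le) fun x hx => ?_
      have h3 : x ∈ (P : Subgroup G) ⊔ M.normalCore := h1 ▸ mem_top x
      rw [← SetLike.mem_coe, mul_normal] at h3
      obtain ⟨y, hy, z, hz, rfl⟩ := h3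
      exact mul_mem (mem_sup_left ⟨hy, (M.mul_mem_cancel_right (M.normalCore_le hz)).1 hx⟩)
        (mem_sup_right hz)
    have h3 : (P : Subgroup G) ⊓ M < P := lt_of_le_of_ne inf_le_left fun e =>
      not_dvd_of_sylow_le P (g := 1) (by simpa using inf_eq_left.1 e) hpm
    obtain ⟨x, hx, hx'⟩ := SetLike.exists_of_lt
      (Grp.lt_inf_normalizer_of_isNilpotent P.isPGroup'.isNilpotent h3)
    have h4 := normalizer_le_sup _ M.normalCore hx.2
    rw [h2] at h4
    exact normalizer_eq_top_iff.1 (hM.2 _ (lt_of_le_of_ne le_normalizer fun e =>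
      hx' ⟨hx.1, e ▸ h4⟩))

theorem main_of_lt (h : Cov M N) (hM : IsCoatom M) (hN : N ≠ ⊤) (hc : M.index.Coprime N.index)
    (hlt : M.index < N.index) : Group.IsSolvable G ∧ (Nat.card G).primeFactors.card = 2 := by
  haveI := normal_of_lt h hM hc hlt
  obtain ⟨p, hp, hpm⟩ := Nat.exists_prime_and_dvd (fun e => hM.1 (index_eq_one.1 e))
  obtain ⟨q, hq, hqn⟩ := Nat.exists_prime_and_dvd (fun e => hN (index_eq_one.1 e))
  haveI := Fact.mk hp
  haveI := Fact.mk hq
  let P : Sylow p G := default
  let Q : Sylow q G := default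
  have hqm : ¬ q ∣ M.index := fun e => hq.one_lt.ne' (Nat.eq_one_of_dvd_coprimes hc e hqn)
  have hQM : (Q : Subgroup G) ≤ M := by
    by_cases e : (Q : Subgroup G) = ⊤
    · exact absurd (hqn.trans (index_dvd_card N)) (by
        intro _
        obtain ⟨k, hk⟩ := IsPGroup.iff_card.1 Q.isPGroup'
        rw [e, card_top] at hk
        have h1 := hpm.trans (index_dvd_card M)
        rw [hk] at h1
        exact hqm ((Nat.prime_dvd_prime_iff_eq hp hq).1 (hp.dvd_of_dvd_pow h1) ▸ hpm))
    obtain ⟨g, hg | hg⟩ := h _ e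
    · rwa [Normal.conj_smul_eq_self] at hg
    · exact absurd hqn (not_dvd_of_sylow_le Q hg)
  haveI : (Q : Subgroup G).Normal := by
    refine normalizer_eq_top_iff.1 ?_
    by_contra e
    obtain ⟨g, hg | hg⟩ := h _ e
    · rw [Normal.conj_smul_eq_self] at hg
      exact hM.1 (top_le_iff.1 (Q.normalizer_sup_eq_top' hQM ▸ sup_le hg le_rfl))
    · exact not_dvd_of_sylow_le Q (le_normalizer.trans hg) hqn
  have h1 : (P : Subgroup G) ⊔ Q = ⊤ := by
    by_contra e
    obtain ⟨g, hg | hg⟩ := h _ e
    · exact not_dvd_of_sylow_le P (le_sup_left.trans hg) hpm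
    · exact not_dvd_of_sylow_le Q (le_sup_right.trans hg) hqn
  constructor
  · haveI := P.isPGroup'.isNilpotent
    haveI := Q.isPGroup'.isNilpotent
    let f := (QuotientGroup.mk' (Q : Subgroup G)).comp (P : Subgroup G).subtype
    have hf : Function.Surjective f := by
      intro y
      obtain ⟨x, rfl⟩ := QuotientGroup.mk_surjective y
      have h3 : x ∈ (P : Subgroup G) ⊔ Q := h1 ▸ mem_top x
      rw [← SetLike.mem_coe, mul_normal] at h3
      obtain ⟨y, hy, z, hz, rfl⟩ := h3
      exact ⟨⟨y, hy⟩, QuotientGroup.eq.2 (by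
        change y⁻¹ * (y * z) ∈ _
        rwa [inv_mul_cancel_left])⟩
    haveI := Group.isSolvable_of_surjective hf
    exact Group.isSolvable_of_ker_le_range (Q : Subgroup G).subtype (QuotientGroup.mk' Q)
      (by simp)
  · have h2 := Grp.card_sup_dvd (P : Subgroup G) Q
    obtain ⟨a, ha⟩ := IsPGroup.iff_card.1 P.isPGroup'
    obtain ⟨b, hb⟩ := IsPGroup.iff_card.1 Q.isPGroup'
    rw [h1, card_top, ha, hb] at h2
    rw [Finset.card_eq_two]
    refine ⟨p, q, fun e => hqm (e ▸ hpm), Finset.ext fun r => ?_⟩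
    rw [Nat.mem_primeFactors_of_ne_zero Nat.card_pos.ne', Finset.mem_insert, Finset.mem_singleton]
    constructor
    · rintro ⟨hr, h3⟩
      exact (hr.dvd_mul.1 (h3.trans h2)).imp
        (fun h => (Nat.prime_dvd_prime_iff_eq hr hp).1 (hr.dvd_of_dvd_pow h))
        fun h => (Nat.prime_dvd_prime_iff_eq hr hq).1 (hr.dvd_of_dvd_pow h)
    · rintro (rfl | rfl)
      · exact ⟨hp, hpm.trans (index_dvd_card M)⟩
      · exact ⟨hq, hqn.trans (index_dvd_card N)⟩

theorem coprime_index (h : Cov M N) (hM : IsCoatom M) (hN : IsCoatom N) (hne : M ≠ N) :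
    M.index.Coprime N.index := by
  refine Nat.coprime_of_dvd fun p hp hpm hpn => ?_
  haveI := Fact.mk hp
  let P : Sylow p G := default
  have hG : IsPGroup p G := by
    have e : (P : Subgroup G) = ⊤ := by
      by_contra e
      obtain ⟨g, hg | hg⟩ := h _ e
      · exact not_dvd_of_sylow_le P hg hpm
      · exact not_dvd_of_sylow_le P hg hpn
    exact (e ▸ P.isPGroup').of_equiv topEquiv
  haveI := Grp.PFrattini.normal_of_isCoatom hG hM
  haveI := Grp.PFrattini.normal_of_isCoatom hG hN
  obtain ⟨a, haM, haN⟩ := SetLike.not_le_iff_exists.1 fun e : M ≤ N =>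
    hN.1 (hM.2 N (lt_of_le_of_ne e hne))
  obtain ⟨b, hbN, hbM⟩ := SetLike.not_le_iff_exists.1 fun e : N ≤ M =>
    hM.1 (hN.2 M (lt_of_le_of_ne e hne.symm))
  have h1 : zpowers (a * b) = ⊤ := by
    by_contra e
    obtain ⟨g, hg | hg⟩ := h _ e
    · rw [Normal.conj_smul_eq_self] at hg
      exact hbM ((M.mul_mem_cancel_left haM).1 (hg (mem_zpowers _)))
    · rw [Normal.conj_smul_eq_self] at hg
      exact haN ((N.mul_mem_cancel_right hbN).1 (hg (mem_zpowers _)))
  have key : ∀ {K : Subgroup G}, IsCoatom K → K = zpowers ((a * b) ^ p) := by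
    intro K hK
    have h2 := Grp.PFrattini.pow_mem_of_isCoatom hG hK (a * b)
    refine le_antisymm (fun x hx => ?_) (zpowers_le.2 h2)
    obtain ⟨i, rfl⟩ := mem_zpowers_iff.1 (h1 ▸ mem_top x : x ∈ zpowers (a * b))
    by_cases hi : (p : ℤ) ∣ i
    · obtain ⟨j, rfl⟩ := hi
      exact ⟨j, by simp only [zpow_mul, zpow_natCast]⟩
    · obtain ⟨u, v, huv⟩ := (Nat.prime_iff_prime_int.1 hp).irreducible.coprime_iff_not_dvd.2 hi
      refine absurd (top_le_iff.1 (h1 ▸ zpowers_le.2 ?_)) hK.1
      rw [← zpow_one (a * b), ← huv, zpow_add, mul_comm u, mul_comm v, zpow_mul, zpow_mul,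
        zpow_natCast]
      exact K.mul_mem (K.zpow_mem h2 u) (K.zpow_mem hx v)
  exact hne ((key hM).trans (key hN).symm)

end Cfsg.Agent.FGS.TwoMax
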